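import Mathlib

/-!
# The normalizer of `A_n` (`n ≥ 5` odd) on the even-weight module is `S_n`.

An additive bijection `φ` of the even-weight vectors of `𝔽₂ⁿ` normalizing the action of the alternating group
is induced by a permutation of the coordinates.  The proof: `v_a = 1 + e_a` (`a` a point) form an `A_n`-orbit of
size `n`; its image under `φ` is again an orbit of size `n`, and an even vector with an orbit that small has
weight `n - 1`.  So `φ (v_a) = v_{π a}`, and the `v_a` span.
-/

set_option autoImplicit false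

namespace Cfsg.Agent.Lib.BlockZ

open Equiv Finset

variable {n : ℕ}

/-- The permutation action on coordinates, `(σ · v) i = v (σ⁻¹ i)`. -/
def permAct (σ : Perm (Fin n)) (v : Fin n → ZMod 2) : Fin n → ZMod 2 := fun i => v (σ⁻¹ i)

/-- Even weight vectors. -/
def EvenW (v : Fin n → ZMod 2) : Prop := ∑ i, v i = 0

theorem evenW_permAct (σ : Perm (Fin n)) {v : Fin n → ZMod 2} (h : EvenW v) : EvenW (permAct σ v) := by
  unfold EvenW permAct at *
  rw [Equiv.sum_comp σ⁻¹ v]
  exact h

theorem evenW_add {u v : Fin n → ZMod 2} (hu : EvenW u) (hv : EvenW v) : EvenW (u + v) := by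
  unfold EvenW at *
  simp only [Pi.add_apply]
  rw [Finset.sum_add_distrib, hu, hv, add_zero]

/-- `1 + e_a`. -/
def vtop (a : Fin n) : Fin n → ZMod 2 := fun i => if i = a then 0 else 1

theorem vtop_self (a : Fin n) : vtop a a = 0 := by simp [vtop]

theorem vtop_ne {a i : Fin n} (h : i ≠ a) : vtop a i = 1 := by simp [vtop, h]

theorem sum_vtop_apply (S : Finset (Fin n)) (i : Fin n) :
    (∑ a ∈ S, vtop a) i = (S.card : ZMod 2) + (if i ∈ S then 1 else 0) := by
  classical
  rw [Finset.sum_apply]
  have h1 : ∀ a ∈ S, vtop a i = 1 + (if i = a then 1 else 0) := by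
    intro a _
    unfold vtop
    split_ifs <;> decide
  rw [Finset.sum_congr rfl h1, Finset.sum_add_distrib]
  simp [Finset.sum_ite_eq]

theorem evenW_vtop (hodd : Odd n) (a : Fin n) : EvenW (vtop a) := by
  classical
  unfold EvenW
  have h := sum_vtop_apply ({a} : Finset (Fin n)) a
  have h2 : ∑ i, vtop a i = ∑ i, (1 + (if i = a then (1 : ZMod 2) else 0)) := by
    apply Finset.sum_congr rfl
    intro i _
    unfold vtop
    split_ifs <;> decide
  rw [h2, Finset.sum_add_distrib]
  simp only [Finset.sum_const, Finset.card_univ, Fintype.card_fin, nsmul_eq_mul, mul_one,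
    Finset.sum_ite_eq', Finset.mem_univ, if_true]
  have h3 : (n : ZMod 2) = 1 := by
    obtain ⟨k, rfl⟩ := hodd
    push_cast
    have : (2 : ZMod 2) = 0 := by decide
    rw [this]
    ring
  rw [h3]
  decide

theorem permAct_vtop (σ : Perm (Fin n)) (a : Fin n) : permAct σ (vtop a) = vtop (σ a) := by
  funext i
  unfold permAct vtop
  by_cases h : i = σ a
  · subst h
    simp
  · have : σ⁻¹ i ≠ a := by
      intro h2
      apply h
      rw [← h2]
      simp
    rw [if_neg this, if_neg h]

theorem eq_of_permAct_eq {σ τ : Perm (Fin n)} (h : ∀ v : Fin n → ZMod 2, EvenW v → permAct σ v = permAct τ v)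
    (hodd : Odd n) : σ = τ := by
  by_contra hne
  have : ∃ i, σ⁻¹ i ≠ τ⁻¹ i := by
    by_contra hall
    push Not at hall
    apply hne
    have : σ⁻¹ = τ⁻¹ := Equiv.ext hall
    exact inv_injective this
  obtain ⟨i, hi⟩ := this
  have h1 := congrFun (h (vtop (τ⁻¹ i)) (evenW_vtop hodd _)) i
  unfold permAct at h1
  rw [vtop_self, vtop_ne hi] at h1
  exact one_ne_zero h1

theorem zmod2_cases (x : ZMod 2) : x = 0 ∨ x = 1 := by
  revert x; decide

/-- An even nonzero vector whose `A_n`-orbit has at most `n` elements has weight `n - 1`. -/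
theorem exists_eq_vtop_of_orbit (hn : 5 ≤ n) (hodd : Odd n) (O : Finset (Fin n → ZMod 2)) (hO : O.card ≤ n)
    {u : Fin n → ZMod 2} (hu : EvenW u) (hu0 : u ≠ 0)
    (hinv : ∀ σ ∈ alternatingGroup (Fin n), permAct σ u ∈ O) : ∃ b, u = vtop b := by
  classical
  set S : Finset (Fin n) := univ.filter (fun i => u i = 1) with hS
  have hmem : ∀ i, i ∈ S ↔ u i = 1 := by intro i; simp [hS]
  have hnmem : ∀ i, i ∉ S ↔ u i = 0 := by
    intro i
    rw [hmem]
    rcases zmod2_cases (u i) with h | h <;> simp [h]
  have hcard : (S.card : ZMod 2) = 0 := by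
    have h1 : ∑ i, u i = ∑ i, (if i ∈ S then (1 : ZMod 2) else 0) := by
      apply Finset.sum_congr rfl
      intro i _
      by_cases h : i ∈ S
      · rw [if_pos h]; exact (hmem i).1 h
      · rw [if_neg h]; exact (hnmem i).1 h
    have h2 : ∑ i, (if i ∈ S then (1 : ZMod 2) else 0) = S.card := by
      simp [Finset.sum_ite_mem]
    rw [← h2, ← h1]
    exact hu
  have hev : Even S.card := by
    exact even_iff_two_dvd.mpr ((ZMod.natCast_eq_zero_iff _ 2).mp hcard)
  have hcn : Sᶜ.card = n - S.card := by
    rw [Finset.card_compl, Fintype.card_fin]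
  have hle : S.card ≤ n := by
    simpa using Finset.card_le_univ S
  have hSne : S.card ≠ 0 := by
    intro h0
    apply hu0
    funext i
    have : i ∉ S := by
      rw [Finset.card_eq_zero] at h0
      simp [h0]
    exact (hnmem i).1 this
  have hw2 : 2 ≤ S.card := by
    obtain ⟨k, hk⟩ := hev
    omega
  have hodd2 : Odd (n - S.card) := by
    obtain ⟨k, hk⟩ := hev
    obtain ⟨l, hl⟩ := hodd
    exact ⟨l - k, by omega⟩
  by_cases h1 : Sᶜ.card = 1
  · obtain ⟨b, hb⟩ := Finset.card_eq_one.mp h1
    refine ⟨b, ?_⟩
    funext i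
    by_cases hi : i = b
    · subst hi
      rw [vtop_self]
      have : i ∈ Sᶜ := by rw [hb]; simp
      exact (hnmem i).1 (Finset.mem_compl.mp this)
    · rw [vtop_ne hi]
      have : i ∉ Sᶜ := by rw [hb]; simpa using hi
      rw [Finset.mem_compl, not_not] at this
      exact (hmem i).1 this
  · exfalso
    have h3 : 3 ≤ Sᶜ.card := by
      rw [hcn] at h1 ⊢
      obtain ⟨l, hl⟩ := hodd2
      omega
    -- the map
    let g : Fin n × Fin n → (Fin n → ZMod 2) := fun p =>
      Function.update (Function.update u p.1 0) p.2 1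
    have hg : ∀ p ∈ S ×ˢ Sᶜ, g p ∈ O := by
      intro p hp
      obtain ⟨a, b⟩ := p
      simp only [Finset.mem_product] at hp
      obtain ⟨ha, hb⟩ := hp
      have hb' : b ∉ S := Finset.mem_compl.mp hb
      obtain ⟨c, hc, hcb⟩ := Finset.exists_mem_ne (by omega : 1 < Sᶜ.card) b
      have hc' : c ∉ S := Finset.mem_compl.mp hc
      have hab : a ≠ b := fun h => hb' (h ▸ ha)
      have hac : a ≠ c := fun h => hc' (h ▸ ha)
      have hσ : (swap a c * swap a b) ∈ alternatingGroup (Fin n) := by
        rw [Equiv.Perm.mem_alternatingGroup, map_mul, Equiv.Perm.sign_swap hac, Equiv.Perm.sign_swap hab]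
        decide
      have e : permAct (swap a c * swap a b) u = g (a, b) := by
        funext i
        show u ((swap a c * swap a b)⁻¹ i) = Function.update (Function.update u a 0) b 1 i
        rw [mul_inv_rev, Equiv.swap_inv, Equiv.swap_inv, Equiv.Perm.mul_apply]
        by_cases hia : i = a
        · subst hia
          rw [Equiv.swap_apply_left, Equiv.swap_apply_of_ne_of_ne hac.symm hcb,
            Function.update_of_ne hab, Function.update_self]
          exact (hnmem c).1 hc'
        · by_cases hib : i = b
          · subst hib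
            rw [Equiv.swap_apply_of_ne_of_ne hia hcb.symm, Equiv.swap_apply_right, Function.update_self]
            exact (hmem a).1 ha
          · by_cases hic : i = c
            · subst hic
              rw [Equiv.swap_apply_right, Equiv.swap_apply_left, Function.update_of_ne hib,
                Function.update_of_ne hia]
              rw [(hnmem b).1 hb', (hnmem i).1 hc']
            · rw [Equiv.swap_apply_of_ne_of_ne hia hic, Equiv.swap_apply_of_ne_of_ne hia hib,
                Function.update_of_ne hib, Function.update_of_ne hia]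
      rw [← e]
      exact hinv _ hσ
    have hinj : Set.InjOn g (S ×ˢ Sᶜ : Finset (Fin n × Fin n)) := by
      rintro ⟨a, b⟩ hp ⟨a', b'⟩ hp' hgg
      simp only [Finset.coe_product, Set.mem_prod, Finset.mem_coe] at hp hp'
      obtain ⟨ha, hb⟩ := hp
      obtain ⟨ha', hb'⟩ := hp'
      have hbS : b ∉ S := Finset.mem_compl.mp hb
      have hbS' : b' ∉ S := Finset.mem_compl.mp hb'
      have haa : a = a' := by
        by_contra hne
        have h5 := congrFun hgg a
        have hab : a ≠ b := fun h => hbS (h ▸ ha)
        have hab' : a ≠ b' := fun h => hbS' (h ▸ ha)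
        simp only [g] at h5
        rw [Function.update_of_ne hab, Function.update_self, Function.update_of_ne hab',
          Function.update_of_ne hne, (hmem a).1 ha] at h5
        exact zero_ne_one h5
      subst haa
      have hbb : b = b' := by
        by_contra hne
        have h5 := congrFun hgg b
        have hba : b ≠ a := fun h => hbS (h ▸ ha)
        simp only [g] at h5
        rw [Function.update_self, Function.update_of_ne hne, Function.update_of_ne hba,
          (hnmem b).1 hbS] at h5
        exact one_ne_zero h5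
      subst hbb
      rfl
    have hc := Finset.card_le_card_of_injOn g hg hinj
    rw [Finset.card_product] at hc
    have h6 : S.card * Sᶜ.card ≤ n := hc.trans hO
    rw [hcn] at h6 h3
    obtain ⟨w, hw⟩ : ∃ w, S.card = w + 2 := ⟨S.card - 2, by omega⟩
    obtain ⟨t, ht⟩ : ∃ t, n - S.card = t + 3 := ⟨n - S.card - 3, by omega⟩
    have hnn : n = (w + 2) + (t + 3) := by omega
    have h6' : (w + 2) * (t + 3) ≤ n := by
      rw [← hw, ← ht]
      exact h6
    nlinarith

/-- **The normalizer of `A_n` on the even-weight module, `n ≥ 5` odd, is `S_n`.** -/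
theorem alt_normalizer (hn : 5 ≤ n) (hodd : Odd n) (φ : (Fin n → ZMod 2) → (Fin n → ZMod 2))
    (hev : ∀ v, EvenW v → EvenW (φ v))
    (hadd : ∀ u v, EvenW u → EvenW v → φ (u + v) = φ u + φ v)
    (hinj : ∀ u v, EvenW u → EvenW v → φ u = φ v → u = v)
    (hnorm : ∀ σ ∈ alternatingGroup (Fin n), ∃ σ' ∈ alternatingGroup (Fin n),
      ∀ v, EvenW v → φ (permAct σ v) = permAct σ' (φ v)) :
    ∃ π : Perm (Fin n), ∀ v, EvenW v → φ v = permAct π v := by
  classical
  have hne : NeZero n := ⟨by omega⟩
  -- the induced map on `A_n`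
  choose F hFmem hF using hnorm
  let F' : alternatingGroup (Fin n) → alternatingGroup (Fin n) := fun σ => ⟨F σ.1 σ.2, hFmem σ.1 σ.2⟩
  have hF'inj : Function.Injective F' := by
    intro σ τ h
    apply Subtype.ext
    apply eq_of_permAct_eq _ hodd
    intro v hv
    apply hinj _ _ (evenW_permAct _ hv) (evenW_permAct _ hv)
    rw [hF _ σ.2 v hv, hF _ τ.2 v hv]
    have : F σ.1 σ.2 = F τ.1 τ.2 := congrArg Subtype.val h
    rw [this]
  have hF'surj : Function.Surjective F' := Finite.injective_iff_surjective.mp hF'inj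
  have h00 : EvenW (0 : Fin n → ZMod 2) := by simp [EvenW]
  have hφ0 : φ 0 = 0 := by
    have h := hadd 0 0 h00 h00
    rw [add_zero] at h
    funext i
    have hi := congrFun h i
    simp only [Pi.add_apply, Pi.zero_apply] at hi ⊢
    generalize φ 0 i = x at hi
    revert x
    decide
  let O : Finset (Fin n → ZMod 2) := univ.image (fun a : Fin n => φ (vtop a))
  have hO : O.card ≤ n := by
    have := Finset.card_image_le (s := (univ : Finset (Fin n))) (f := fun a : Fin n => φ (vtop a))
    simpa using this
  have hvt : ∀ a, EvenW (vtop a) := evenW_vtop hodd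
  have hexb : ∀ a : Fin n, ∃ b, φ (vtop a) = vtop b := by
    intro a
    apply exists_eq_vtop_of_orbit hn hodd O hO (hev _ (hvt a))
    · intro h0
      have h1 : vtop a = 0 := hinj _ _ (hvt a) h00 (h0.trans hφ0.symm)
      obtain ⟨j, hj⟩ : ∃ j : Fin n, j ≠ a := by
        have : Nontrivial (Fin n) := Fin.nontrivial_iff_two_le.mpr (by omega)
        exact exists_ne a
      have h2 := congrFun h1 j
      rw [vtop_ne hj] at h2
      exact one_ne_zero h2
    · intro τ hτ
      obtain ⟨σ, hσ⟩ := hF'surj ⟨τ, hτ⟩
      have hτe : F σ.1 σ.2 = τ := congrArg Subtype.val hσ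
      rw [← hτe, ← hF _ σ.2 _ (hvt a), permAct_vtop]
      exact Finset.mem_image_of_mem _ (Finset.mem_univ _)
  choose p hp using hexb
  have hpinj : Function.Injective p := by
    intro a a' h
    have h1 : φ (vtop a) = φ (vtop a') := by rw [hp, hp, h]
    have h2 := hinj _ _ (hvt a) (hvt a') h1
    by_contra hne'
    have h3 := congrFun h2 a
    rw [vtop_self, vtop_ne hne'] at h3
    exact zero_ne_one h3
  let π : Perm (Fin n) := Equiv.ofBijective p (Finite.injective_iff_bijective.mp hpinj)
  refine ⟨π, fun v hv => ?_⟩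
  -- `v` is the sum of the `vtop a`, `a` in its support
  set S : Finset (Fin n) := univ.filter (fun i => v i = 1) with hS
  have hmem : ∀ i, i ∈ S ↔ v i = 1 := by intro i; simp [hS]
  have hval : ∀ i, v i = if i ∈ S then 1 else 0 := by
    intro i
    by_cases h : i ∈ S
    · rw [if_pos h]; exact (hmem i).1 h
    · rw [if_neg h]
      rcases zmod2_cases (v i) with h1 | h1
      · exact h1
      · exact absurd ((hmem i).2 h1) h
  have hcard : (S.card : ZMod 2) = 0 := by
    have h1 : ∑ i, (if i ∈ S then (1 : ZMod 2) else 0) = S.card := by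
      simp [Finset.sum_ite_mem]
    rw [← h1, ← Finset.sum_congr rfl (fun i _ => hval i)]
    exact hv
  have hsum : v = ∑ a ∈ S, vtop a := by
    funext i
    rw [sum_vtop_apply, hcard, zero_add, hval i]
  have hsumev : ∀ T : Finset (Fin n), EvenW (∑ a ∈ T, vtop a) := by
    intro T
    induction T using Finset.induction_on with
    | empty => simpa using h00
    | insert a T ha ih =>
      rw [Finset.sum_insert ha]
      exact evenW_add (hvt a) ih
  have hφsum : ∀ T : Finset (Fin n), φ (∑ a ∈ T, vtop a) = ∑ a ∈ T, vtop (π a) := by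
    intro T
    induction T using Finset.induction_on with
    | empty => simpa using hφ0
    | insert a T ha ih =>
      rw [Finset.sum_insert ha, Finset.sum_insert ha, hadd _ _ (hvt a) (hsumev T), ih, hp]
      rfl
  rw [hsum, hφsum]
  funext i
  have h2 : ∑ a ∈ S, vtop (π a) = ∑ b ∈ S.map π.toEmbedding, vtop b := by
    rw [Finset.sum_map]
    rfl
  rw [h2, sum_vtop_apply, Finset.card_map, hcard, zero_add]
  show _ = (∑ a ∈ S, vtop a) (π⁻¹ i)
  rw [sum_vtop_apply, hcard, zero_add]
  have h3 : i ∈ S.map π.toEmbedding ↔ π⁻¹ i ∈ S := by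
    rw [Finset.mem_map]
    constructor
    · rintro ⟨a, ha, rfl⟩
      simpa using ha
    · intro h
      exact ⟨π⁻¹ i, h, by simp⟩
  by_cases h : π⁻¹ i ∈ S
  · rw [if_pos h, if_pos (h3.2 h)]
  · rw [if_neg h, if_neg (fun h' => h (h3.1 h'))]

end Cfsg.Agent.Lib.BlockZ
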