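import Mathlib
import Cfsg.Prelude.Def_BaumannBlocks
import Cfsg.Agent.Lib.PGroup.BaumannSect
import Cfsg.Agent.Lib.BlockY.Defs
import Cfsg.Agent.Lib.BlockY.Facts

/-! `H¹(A_n, even weight module) = 0`, elementary form (`n` odd). -/

namespace Cfsg.Agent.Lib.BlockZ
namespace AltZ

open Equiv

/-- `σ` is the three-cycle `a → b → c → a`. -/
structure Is3 {n : ℕ} (σ : Perm (Fin n)) (a b c : Fin n) : Prop where
  ab : a ≠ b
  bc : b ≠ c
  ca : c ≠ a
  ha : σ a = b
  hb : σ b = c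
  hc : σ c = a
  hi : ∀ i, i ≠ a → i ≠ b → i ≠ c → σ i = i

namespace Is3
variable {n : ℕ} {σ τ : Perm (Fin n)} {a b c : Fin n}

theorem rot (h : Is3 σ a b c) : Is3 σ b c a :=
  ⟨h.bc, h.ca, h.ab, h.hb, h.hc, h.ha, fun i h1 h2 h3 => h.hi i h3 h1 h2⟩

theorem unique (h : Is3 σ a b c) (h' : Is3 τ a b c) : σ = τ := by
  ext i
  congr 1
  by_cases h1 : i = a
  · rw [h1, h.ha, h'.ha]
  by_cases h2 : i = b
  · rw [h2, h.hb, h'.hb]
  by_cases h3 : i = c
  · rw [h3, h.hc, h'.hc]
  rw [h.hi i h1 h2 h3, h'.hi i h1 h2 h3]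

theorem conj (h : Is3 σ a b c) (g : Perm (Fin n)) : Is3 (g * σ * g⁻¹) (g a) (g b) (g c) := by
  refine ⟨g.injective.ne h.ab, g.injective.ne h.bc, g.injective.ne h.ca, ?_, ?_, ?_, ?_⟩
  · simp [h.ha]
  · simp [h.hb]
  · simp [h.hc]
  · intro i h1 h2 h3
    have h4 : g⁻¹ i ≠ a := fun e => h1 (by rw [← e]; simp)
    have h5 : g⁻¹ i ≠ b := fun e => h2 (by rw [← e]; simp)
    have h6 : g⁻¹ i ≠ c := fun e => h3 (by rw [← e]; simp)
    have h7 : (g * σ * g⁻¹) i = g (σ (g⁻¹ i)) := rfl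
    rw [h7, h.hi _ h4 h5 h6]
    simp

theorem sq (h : Is3 σ a b c) : Is3 (σ * σ) b a c := by
  refine ⟨h.ab.symm, h.ca.symm, h.bc.symm, ?_, ?_, ?_, ?_⟩
  · simp [h.hb, h.hc]
  · simp [h.ha, h.hb]
  · simp [h.hc, h.ha]
  · intro i h1 h2 h3
    simp [h.hi i h2 h1 h3]

theorem cube (h : Is3 σ a b c) : σ * σ * σ = 1 := by
  ext i
  congr 1
  by_cases h1 : i = a
  · simp [h1, h.ha, h.hb, h.hc]
  by_cases h2 : i = b
  · simp [h2, h.ha, h.hb, h.hc]
  by_cases h3 : i = c
  · simp [h3, h.ha, h.hb, h.hc]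
  simp [h.hi i h1 h2 h3]

theorem exists_even (hab : a ≠ b) (hbc : b ≠ c) (hca : c ≠ a) :
    ∃ σ : Perm (Fin n), Perm.sign σ = 1 ∧ Is3 σ a b c := by
  refine ⟨swap a b * swap b c, ?_, hab, hbc, hca, ?_, ?_, ?_, ?_⟩
  · rw [Perm.sign_mul, Perm.sign_swap hab, Perm.sign_swap hbc]
    decide
  · simp [swap_apply_of_ne_of_ne hab hca.symm]
  · simp [swap_apply_of_ne_of_ne hca hbc.symm]
  · simp
  · intro i h1 h2 h3
    simp [swap_apply_of_ne_of_ne h2 h3, swap_apply_of_ne_of_ne h1 h2]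

end Is3

/-- the vector `e_a + e_b`. -/
def edge {n : ℕ} (a b : Fin n) : Fin n → ZMod 2 := Pi.single a 1 + Pi.single b 1

theorem edge_comm {n : ℕ} (a b : Fin n) : edge a b = edge b a := add_comm _ _

theorem edge_sum {n : ℕ} (a b : Fin n) : ∑ i, edge a b i = 0 := by
  simp only [edge, Pi.add_apply]
  rw [Finset.sum_add_distrib]
  simp only [Finset.sum_pi_single', Finset.mem_univ, if_true]
  decide

theorem edge_perm {n : ℕ} (a b : Fin n) (σ : Perm (Fin n)) (v : Fin n → ZMod 2) (h : v = edge a b) :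
    (fun i => v (σ⁻¹ i)) = edge (σ a) (σ b) := by
  subst h
  ext i
  simp only [edge, Pi.add_apply, Pi.single_apply, Perm.inv_eq_iff_eq]

theorem edge_rot {n : ℕ} (a b c : Fin n) : edge b c + edge c a = edge a b := by
  ext i
  simp only [edge, Pi.add_apply]
  generalize (Pi.single a 1 : Fin n → ZMod 2) i = x
  generalize (Pi.single b 1 : Fin n → ZMod 2) i = y
  generalize (Pi.single c 1 : Fin n → ZMod 2) i = z
  revert x y z
  decide

/-- the data. -/
structure Setup {A M : Type*} [Group A] [CommGroup M] {n : ℕ} (ρ : A →* Perm (Fin n))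
    (T : A → M → M) (φ : M → Fin n → ZMod 2) : Prop where
  h2 : ∀ x : M, x * x = 1
  hodd : Odd n
  hrange : ∀ σ : Perm (Fin n), Perm.sign σ = 1 → ∃ a, ρ a = σ
  hmul : ∀ a b u, T (a * b) u = T a (T b u)
  hhom : ∀ a x y, T a (x * y) = T a x * T a y
  hker : ∀ a u, ρ a = 1 → T a u = u
  φmul : ∀ x y, φ (x * y) = φ x + φ y
  hsum : ∀ u, ∑ i, φ u i = 0
  hsurj : ∀ v : Fin n → ZMod 2, ∑ i, v i = 0 → ∃ u, φ u = v
  heq : ∀ a u i, φ (T a u) i = φ u ((ρ a)⁻¹ i)
  hZ : ∀ u, φ u = 0 → ∀ a, T a u = u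

/-- `1 + τ + τ²`. -/
def PP {A M : Type*} [Mul M] (T : A → M → M) (e : A) (y : M) : M := y * T e y * T e (T e y)

namespace Setup
variable {A M : Type*} [Group A] [CommGroup M] {n : ℕ} {ρ : A →* Perm (Fin n)}
    {T : A → M → M} {φ : M → Fin n → ZMod 2} (S : Setup ρ T φ)
include S

theorem T_congr {e e' : A} (h : ρ e = ρ e') (u : M) : T e u = T e' u := by
  have h1 : T (e * e'⁻¹) (T e' u) = T e' u := S.hker _ _ (by simp [h])
  rw [S.hmul] at h1
  have h2 : T e'⁻¹ (T e' u) = u := by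
    rw [← S.hmul]
    exact S.hker _ _ (by simp)
  rw [h2] at h1
  exact h1

theorem φ_one : φ 1 = 0 := by
  have := S.φmul 1 1
  rw [mul_one] at this
  exact left_eq_add.1 this

theorem φ_add_self (v : Fin n → ZMod 2) : v + v = 0 := by
  ext i
  simp only [Pi.add_apply, Pi.zero_apply]
  generalize v i = x
  revert x
  decide

theorem φ_prod_self {x y : M} (h : φ x = φ y) : φ (x * y) = 0 := by
  rw [S.φmul, h, S.φ_add_self]

theorem T_one (a : A) : T a 1 = 1 := by
  have := S.hhom a 1 1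
  rw [mul_one] at this
  exact left_eq_mul.1 this

theorem φ_T {a b : Fin n} {u : M} (h : φ u = edge a b) (g : A) :
    φ (T g u) = edge (ρ g a) (ρ g b) := by
  rw [← edge_perm a b (ρ g) (φ u) h]
  ext i
  exact S.heq g u i

theorem cube_T {e : A} (h : ρ e * ρ e * ρ e = 1) (y : M) : T e (T e (T e y)) = y := by
  have := S.hker (e * e * e) y (by simpa using h)
  rwa [S.hmul, S.hmul] at this

theorem inv_eq (x : M) : x⁻¹ = x := inv_eq_of_mul_eq_one_left (S.h2 x)

/-- uniqueness -/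
theorem PP_uniq {e : A} {y y' : M} (h : φ y = φ y') (h1 : PP T e y = 1) (h2 : PP T e y' = 1) :
    y = y' := by
  set z := y * y' with hz
  have hφ : φ z = 0 := S.φ_prod_self h
  have hT : ∀ a, T a z = z := S.hZ z hφ
  have hy' : y' = y * z := by
    rw [hz, ← mul_assoc, S.h2, one_mul]
  have h3 : PP T e y' = PP T e y * (z * z * z) := by
    rw [hy']
    simp only [PP, S.hhom, hT]
    ac_rfl
  rw [h2, h1, S.h2, one_mul, one_mul] at h3
  rw [hy', ← h3, mul_one]

/-- a fibre over a fixed vector is fixed by an element of order three -/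
theorem fix_of_cube {g : A} (h : ρ g * ρ g * ρ g = 1) {y : M} (hy : φ (T g y) = φ y) :
    T g y = y := by
  set z := y * T g y with hz
  have hφ : φ z = 0 := by
    apply S.φ_prod_self hy.symm
  have hT : ∀ a, T a z = z := S.hZ z hφ
  have h1 : T g y = y * z := by
    rw [hz, ← mul_assoc, S.h2, one_mul]
  have h2 : T g (T g y) = y := by
    rw [h1, S.hhom, h1, hT, mul_assoc, S.h2, mul_one]
  have h3 := S.cube_T h y
  rwa [h2] at h3

/-- the canonical lift of `e_a + e_b` -/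
def IsX (ρ : A →* Perm (Fin n)) (T : A → M → M) (φ : M → Fin n → ZMod 2) (a b : Fin n) (y : M) : Prop :=
  φ y = edge a b ∧ ∀ c e, Is3 (ρ e) a b c → PP T e y = 1

omit S in
theorem PP_T {g e e' : A} (h : e' * g = g * e) (hmul : ∀ a b u, T (a * b) u = T a (T b u))
    (hhom : ∀ a x y, T a (x * y) = T a x * T a y) (y : M) :
    PP T e' (T g y) = T g (PP T e y) := by
  have h1 : ∀ u, T e' (T g u) = T g (T e u) := fun u => by
    rw [← hmul, ← hmul, h]
  simp only [PP, hhom, h1]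

theorem exists_lift3 {a b c : Fin n} (hab : a ≠ b) (hbc : b ≠ c) (hca : c ≠ a) :
    ∃ e, Is3 (ρ e) a b c := by
  obtain ⟨σ, hσ, h3⟩ := Is3.exists_even (n := n) hab hbc hca
  obtain ⟨e, rfl⟩ := S.hrange σ hσ
  exact ⟨e, h3⟩

theorem exists_third {a b : Fin n} (hab : a ≠ b) : ∃ c, c ≠ a ∧ c ≠ b := by
  have h2 : 2 ≤ n := by
    have := Fintype.card_le_of_injective (fun i : Bool => if i then a else b) (by
      intro i j h
      cases i <;> cases j <;> simp_all [eq_comm])
    simpa using this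
  have h3 : 3 ≤ n := by
    obtain ⟨k, hk⟩ := S.hodd
    omega
  obtain ⟨k, -, hk⟩ := Finset.exists_mem_notMem_of_card_lt_card
    (s := {a, b}) (t := (Finset.univ : Finset (Fin n))) (by
      calc _ ≤ 2 := Finset.card_le_two
        _ < _ := by simp; omega)
  simp only [Finset.mem_insert, Finset.mem_singleton, not_or] at hk
  exact ⟨k, hk.1, hk.2⟩

theorem exists_fifth {a b c d : Fin n} (hab : a ≠ b) (hac : a ≠ c) (had : a ≠ d) (hbc : b ≠ c)
    (hbd : b ≠ d) (hcd : c ≠ d) : ∃ f, f ≠ a ∧ f ≠ b ∧ f ≠ c ∧ f ≠ d := by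
  have hc4 : ({a, b, c, d} : Finset (Fin n)).card = 4 := by
    rw [Finset.card_insert_of_notMem, Finset.card_insert_of_notMem, Finset.card_insert_of_notMem,
      Finset.card_singleton] <;> simp [*]
  have h4 : 4 ≤ n := by
    have := Finset.card_le_univ ({a, b, c, d} : Finset (Fin n))
    rw [hc4] at this
    simpa using this
  have h5 : 5 ≤ n := by
    obtain ⟨k, hk⟩ := S.hodd
    omega
  obtain ⟨k, -, hk⟩ := Finset.exists_mem_notMem_of_card_lt_card
    (s := {a, b, c, d}) (t := (Finset.univ : Finset (Fin n))) (by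
      rw [hc4]; simp; omega)
  simp only [Finset.mem_insert, Finset.mem_singleton, not_or] at hk
  exact ⟨k, hk.1, hk.2.1, hk.2.2.1, hk.2.2.2⟩

theorem PP_congr {e e' : A} (h : ρ e = ρ e') (y : M) : PP T e y = PP T e' y := by
  simp only [PP, S.T_congr h]

theorem exists_IsX {a b : Fin n} (hab : a ≠ b) : ∃ y, IsX ρ T φ a b y := by
  obtain ⟨c, hca, hcb⟩ := S.exists_third hab
  obtain ⟨e, he⟩ := S.exists_lift3 hab hcb.symm hca
  obtain ⟨w, hw⟩ := S.hsurj (edge a b) (edge_sum a b)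
  set p := T e w with hp
  set q := T e p with hq
  have hpφ : φ p = edge b c := by
    have := S.φ_T hw e
    rwa [he.ha, he.hb] at this
  have hqφ : φ q = edge c a := by
    have := S.φ_T hpφ e
    rwa [he.hb, he.hc] at this
  have hr : T e q = w := S.cube_T he.cube w
  have hyφ : φ (p * q) = edge a b := by
    rw [S.φmul, hpφ, hqφ, edge_rot]
  have hP : PP T e (p * q) = 1 := by
    simp only [PP, S.hhom]
    rw [← hq, hr, ← hp]
    have : p * q * (q * w) * (w * p) = (p * p) * (q * q) * (w * w) := by ac_rfl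
    rw [this]
    simp [S.h2]
  refine ⟨p * q, hyφ, fun c' e' he' => ?_⟩
  by_cases hcc : c' = c
  · subst hcc
    rw [S.PP_congr (he'.unique he)]
    exact hP
  · obtain ⟨f, hfa, hfb, hfc, hfc'⟩ := S.exists_fifth hab hca.symm he'.ca.symm hcb.symm he'.bc
      (Ne.symm hcc)
    obtain ⟨g, hg⟩ := S.exists_lift3 (Ne.symm hcc) hfc'.symm hfc
    have hga : ρ g a = a := hg.hi a hca.symm he'.ca.symm hfa.symm
    have hgb : ρ g b = b := hg.hi b hcb.symm he'.bc hfb.symm
    have hfix : T g (p * q) = p * q := by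
      apply S.fix_of_cube hg.cube
      rw [S.φ_T hyφ g, hga, hgb, hyφ]
    have h3 := hP
    have h4 : PP T (g * e * g⁻¹) (T g (p * q)) = T g (PP T e (p * q)) :=
      PP_T (by group) S.hmul S.hhom _
    rw [hP, S.T_one, hfix] at h4
    rw [S.PP_congr (e' := g * e * g⁻¹)]
    · exact h4
    · have h5 := he.conj (ρ g)
      rw [hga, hgb, hg.ha] at h5
      rw [map_mul, map_mul, map_inv]
      exact he'.unique h5

theorem IsX.symm' {a b : Fin n} {y : M} (h : IsX ρ T φ a b y) : IsX ρ T φ b a y := by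
  refine ⟨by rw [h.1, edge_comm], fun c e he => ?_⟩
  have h1 : Is3 (ρ (e * e)) a b c := by
    rw [map_mul]
    exact he.sq
  have h2 := h.2 c (e * e) h1
  simp only [PP, S.hmul] at h2
  rw [S.cube_T he.cube] at h2
  simp only [PP]
  rw [← h2]
  ac_rfl

theorem IsX.equiv {a b : Fin n} {y : M} (h : IsX ρ T φ a b y) (g : A) :
    IsX ρ T φ (ρ g a) (ρ g b) (T g y) := by
  refine ⟨S.φ_T h.1 g, fun c' e' he' => ?_⟩
  have h1 : Is3 (ρ (g⁻¹ * e' * g)) a b ((ρ g)⁻¹ c') := by
    have := he'.conj (ρ g)⁻¹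
    have e1 : (ρ g)⁻¹ (ρ g a) = a := by simp
    have e2 : (ρ g)⁻¹ (ρ g b) = b := by simp
    rw [e1, e2, inv_inv] at this
    rw [map_mul, map_mul, map_inv]
    exact this
  have h2 := h.2 _ _ h1
  have h3 : PP T e' (T g y) = T g (PP T (g⁻¹ * e' * g) y) :=
    PP_T (by group) S.hmul S.hhom _
  rw [h3, h2, S.T_one]

theorem IsX.uniq {a b : Fin n} (hab : a ≠ b) {y y' : M} (h : IsX ρ T φ a b y)
    (h' : IsX ρ T φ a b y') : y = y' := by
  obtain ⟨c, hca, hcb⟩ := S.exists_third hab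
  obtain ⟨e, he⟩ := S.exists_lift3 hab hcb.symm hca
  exact S.PP_uniq (h.1.trans h'.1.symm) (h.2 c e he) (h'.2 c e he)

theorem triangle {a b c : Fin n} (hab : a ≠ b) (hbc : b ≠ c) (hca : c ≠ a) {y₁ y₂ y₃ : M}
    (h₁ : IsX ρ T φ a b y₁) (h₂ : IsX ρ T φ b c y₂) (h₃ : IsX ρ T φ c a y₃) : y₁ * y₂ * y₃ = 1 := by
  obtain ⟨e, he⟩ := S.exists_lift3 hab hbc hca
  have h4 : T e y₁ = y₂ := by
    have := IsX.equiv S h₁ e
    rw [he.ha, he.hb] at this
    exact IsX.uniq S hbc this h₂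
  have h5 : T e y₂ = y₃ := by
    have := IsX.equiv S h₂ e
    rw [he.hb, he.hc] at this
    exact IsX.uniq S hca this h₃
  have h6 := h₁.2 c e he
  simp only [PP] at h6
  rwa [h4, h5] at h6

theorem pow_val_add (x : M) (s t : ZMod 2) : x ^ (s + t).val = x ^ s.val * x ^ t.val := by
  have key : ∀ s t : ZMod 2, (s = 0 ∧ s + t = t) ∨ (t = 0 ∧ s + t = s) ∨ (s = 1 ∧ t = 1 ∧ s + t = 0) := by
    decide
  rcases key s t with ⟨h1, h2⟩ | ⟨h1, h2⟩ | ⟨h1, h3, h2⟩
  · rw [h2, h1]; simp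
  · rw [h2, h1]; simp
  · rw [h2, h1, h3]
    have : (1 : ZMod 2).val = 1 := rfl
    rw [this, pow_one, S.h2]
    simp

theorem φ_pow_val (x : M) (s : ZMod 2) : φ (x ^ s.val) = s • φ x := by
  have key : ∀ s : ZMod 2, s = 0 ∨ s = 1 := by decide
  rcases key s with rfl | rfl
  · simp [S.φ_one]
  · have : (1 : ZMod 2).val = 1 := rfl
    rw [this, pow_one, one_smul]

theorem main_aux (hgen : ∀ X : Subgroup M, (∀ g u, u * (T g u)⁻¹ ∈ X) → X = ⊤) (u : M)
    (hu : φ u = 0) : u = 1 := by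
  classical
  have hnpos : 0 < n := S.hodd.pos
  let o : Fin n := ⟨0, hnpos⟩
  have hX : ∀ a : Fin n, ∃ y, φ y = edge o a ∧ (a ≠ o → IsX ρ T φ o a y) ∧ (a = o → y = 1) := by
    intro a
    by_cases h : a = o
    · refine ⟨1, ?_, fun h' => absurd h h', fun _ => rfl⟩
      rw [S.φ_one, h]
      exact (S.φ_add_self _).symm
    · obtain ⟨y, hy⟩ := S.exists_IsX (a := o) (b := a) (Ne.symm h)
      exact ⟨y, hy.1, fun _ => hy, fun h' => absurd h' h⟩
  choose X hX1 hX2 hX3 using hX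
  let tv : (Fin n → ZMod 2) → M := fun v => ∏ i, X i ^ (v i).val
  have tv_add : ∀ v w, tv (v + w) = tv v * tv w := by
    intro v w
    simp only [tv, Pi.add_apply, S.pow_val_add, Finset.prod_mul_distrib]
  have tv_zero : tv 0 = 1 := by
    simp [tv]
  have tv_single : ∀ a, tv (Pi.single a 1) = X a := by
    intro a
    simp only [tv]
    rw [Finset.prod_eq_single a]
    · have : (1 : ZMod 2).val = 1 := rfl
      simp [this]
    · intro b _ hb
      simp [Pi.single_eq_of_ne hb]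
    · simp
  have φ_prod : ∀ (v : Fin n → ZMod 2) (s : Finset (Fin n)),
      φ (∏ i ∈ s, X i ^ (v i).val) = ∑ i ∈ s, v i • edge o i := by
    intro v s
    induction s using Finset.induction_on with
    | empty => simp [S.φ_one]
    | insert a s ha ih =>
      rw [Finset.prod_insert ha, Finset.sum_insert ha, S.φmul, ih, S.φ_pow_val, hX1]
  have φ_tv : ∀ v : Fin n → ZMod 2, ∑ i, v i = 0 → φ (tv v) = v := by
    intro v hv
    simp only [tv]
    rw [φ_prod]
    ext i
    simp only [Finset.sum_apply, Pi.smul_apply, edge, Pi.add_apply, smul_eq_mul, mul_add]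
    rw [Finset.sum_add_distrib, ← Finset.sum_mul, hv, zero_mul, zero_add]
    simp [Pi.single_apply]
  let G : Subgroup M := Subgroup.closure {y | ∃ a b, a ≠ b ∧ IsX ρ T φ a b y}
  have hinv : ∀ g, ∀ y ∈ G, T g y ∈ G := by
    intro g y hy
    induction hy using Subgroup.closure_induction with
    | mem y hy =>
      obtain ⟨a, b, hab, h⟩ := hy
      exact Subgroup.subset_closure ⟨_, _, (ρ g).injective.ne hab, IsX.equiv S h g⟩
    | one => rw [S.T_one]; exact G.one_mem
    | mul x y _ _ hx hy => rw [S.hhom]; exact G.mul_mem hx hy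
    | inv x _ hx => rw [S.inv_eq]; exact hx
  have hgenfix : ∀ a b y, a ≠ b → IsX ρ T φ a b y → tv (φ y) = y := by
    intro a b y hab h
    have h1 : tv (φ y) = X a * X b := by
      rw [h.1]
      simp only [edge]
      rw [tv_add, tv_single, tv_single]
    rw [h1]
    by_cases ha : a = o
    · subst ha
      rw [hX3 _ rfl, one_mul]
      exact IsX.uniq S hab (hX2 b (Ne.symm hab)) h
    by_cases hb : b = o
    · subst hb
      rw [hX3 _ rfl, mul_one]
      exact IsX.uniq S (Ne.symm hab) (hX2 a hab) (IsX.symm' S h)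
    have h2 := S.triangle (a := o) (b := a) (c := b) (Ne.symm ha) hab hb (hX2 a ha) h
      (IsX.symm' S (hX2 b hb))
    have h3 : X a * X b = (X a * X b) * (X a * y * X b) := by rw [h2, mul_one]
    rw [h3]
    calc X a * X b * (X a * y * X b) = (X a * X a) * (X b * X b) * y := by ac_rfl
      _ = y := by simp [S.h2]
  have hfixG : ∀ y ∈ G, tv (φ y) = y := by
    intro y hy
    induction hy using Subgroup.closure_induction with
    | mem y hy =>
      obtain ⟨a, b, hab, h⟩ := hy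
      exact hgenfix a b y hab h
    | one => rw [S.φ_one, tv_zero]
    | mul x y _ _ hx hy => rw [S.φmul, tv_add, hx, hy]
    | inv x _ hx => rw [S.inv_eq]; exact hx
  have hXG : ∀ a, X a ∈ G := by
    intro a
    by_cases h : a = o
    · rw [hX3 a h]; exact G.one_mem
    · exact Subgroup.subset_closure ⟨o, a, Ne.symm h, hX2 a h⟩
  have htG : ∀ v, tv v ∈ G := fun v =>
    Subgroup.prod_mem _ fun i _ => G.pow_mem (hXG i) _
  have hcomm : ∀ g w, w * (T g w)⁻¹ ∈ G := by
    intro g w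
    have h1 : φ (tv (φ w)) = φ w := φ_tv _ (S.hsum w)
    set t := tv (φ w) with ht
    have hz : φ (t * w) = 0 := S.φ_prod_self h1
    have hT := S.hZ _ hz g
    have hw : w = t * (t * w) := by
      rw [← mul_assoc, S.h2, one_mul]
    have h2 : w * (T g w)⁻¹ = t * (T g t)⁻¹ := by
      rw [S.inv_eq, S.inv_eq]
      conv_lhs => rw [hw, S.hhom, hT]
      have h3 := S.h2 (t * w)
      calc t * (t * w) * (T g t * (t * w)) = t * T g t * ((t * w) * (t * w)) := by ac_rfl
        _ = t * T g t := by rw [h3, mul_one]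
    rw [h2]
    exact G.mul_mem (htG _) (G.inv_mem (hinv g _ (htG _)))
  have hG : G = ⊤ := hgen G hcomm
  have h1 : tv (φ u) = u := hfixG u (by rw [hG]; trivial)
  rw [hu, tv_zero] at h1
  exact h1.symm

end Setup
end AltZ
end Cfsg.Agent.Lib.BlockZ

namespace Cfsg.Agent.Lib.BlockZ
open Subgroup Cfsg Cfsg.Agent.Lib.BlockY Cfsg.Agent.Lib.PGroup.BaumannSect
open scoped commutatorElement

variable {G : Type*} [Group G] [Finite G] {E : Subgroup G}

/-- In the alternating case `Z_E = 1` (`H¹(A_n, even weight module) = 0`, `n` odd): `Z_E ≤ [W_E, E]`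
is impossible unless it is trivial. -/
theorem alt_ZZ_eq_bot (m : ℕ)
    (hiso : Nonempty (↥E ⧸ pCore 2 ↥E ≃* ↥(alternatingGroup (Fin (2 * m + 1)))))
    (hact : ActsAsOddPermModuleOnSection (2 * m + 1) (alternatingGroup (Fin (2 * m + 1))) E
      (omegaOneCenter 2 (pCoreOf 2 E)) (omegaOneCenter 2 (pCoreOf 2 E) ⊓ centralizer (E : Set G)))
    (hQW : pCoreOf 2 E = omegaOneCenter 2 (pCoreOf 2 E))
    (hQE : ⁅pCoreOf 2 E, E⁆ = pCoreOf 2 E) : ZZ 2 E = ⊥ := by
  classical
  obtain ⟨hEU, hU₀, ρ, ψ, hρ, h_sum, hsurj, hker, heq⟩ := hact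
  have hfix : ∀ x : E, (∀ u ∈ omegaOneCenter 2 (pCoreOf 2 E), (x : G) * u * (x : G)⁻¹ = u) → ρ x = 1 := by
    intro x hx
    by_cases hm : m = 0
    · subst hm
      apply Equiv.ext
      intro i
      apply Fin.ext
      have h1 := ((ρ x) i).2
      have h2 := i.2
      show ((ρ x) i).1 = i.1
      omega
    have h3n : 3 ≤ 2 * m + 1 := by omega
    apply FactsAux.perm_eq_one_of_fix h3n
    intro v hv i
    obtain ⟨u, hu⟩ := hsurj v hv
    obtain ⟨w, hw, hw2⟩ := heq x u
    have h10 : w = u := Subtype.ext (by rw [hw]; exact hx u u.2)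
    rw [h10, hu] at hw2
    exact (hw2 i).symm
  have hle : pCore 2 ↥E ≤ ρ.ker := by
    intro x hx
    rw [MonoidHom.mem_ker]
    apply hfix
    intro u hu
    have hq : (x : G) ∈ pCoreOf 2 E := ⟨x, hx, rfl⟩
    rw [mem_centralizer_iff.1 (omegaOneCenter_le_cent _ hu) _ hq]
    group
  have hcard : Nat.card ρ.ker = Nat.card (pCore 2 ↥E) := by
    have h1 : (ρ.ker).index = Nat.card ρ.range := Subgroup.index_ker ρ
    have h2 : (pCore 2 ↥E).index = Nat.card ↥(alternatingGroup (Fin (2 * m + 1))) :=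
      Nat.card_congr hiso.some.toEquiv
    have h3 := Subgroup.card_mul_index (ρ.ker)
    have h4 := Subgroup.card_mul_index (pCore 2 ↥E)
    rw [h1, hρ] at h3
    rw [h2] at h4
    have h5 : 0 < Nat.card ↥(alternatingGroup (Fin (2 * m + 1))) := Nat.card_pos
    exact Nat.eq_of_mul_eq_mul_right h5 (h3.trans h4.symm)
  have hker' : pCore 2 ↥E = ρ.ker := Subgroup.eq_of_le_of_card_ge hle hcard.le
  let _ : CommGroup ↥(omegaOneCenter 2 (pCoreOf 2 E)) :=
    { (inferInstance : Group ↥(omegaOneCenter 2 (pCoreOf 2 E))) with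
      mul_comm := fun a b => Subtype.ext (omegaOneCenter_comm a.2 b.2) }
  let T : ↥E → ↥(omegaOneCenter 2 (pCoreOf 2 E)) → ↥(omegaOneCenter 2 (pCoreOf 2 E)) :=
    fun e u => ⟨(e : G) * (u : G) * (e : G)⁻¹, (mem_normalizer_iff.1 (hEU e.2) u).1 u.2⟩
  let φ : ↥(omegaOneCenter 2 (pCoreOf 2 E)) → Fin (2 * m + 1) → ZMod 2 :=
    fun u => Multiplicative.toAdd (ψ u)
  have hS : AltZ.Setup ρ T φ :=
    { h2 := fun x => Subtype.ext (by
        have := pow_of_mem_omegaOneCenter x.2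
        show (x : G) * (x : G) = 1
        rw [← pow_two]
        exact this)
      hodd := ⟨m, rfl⟩
      hrange := fun σ hσ => by
        have : σ ∈ ρ.range := by
          rw [hρ]
          exact Equiv.Perm.mem_alternatingGroup.2 hσ
        exact this
      hmul := fun a b u => Subtype.ext (by
        show ((a : G) * b) * u * ((a : G) * b)⁻¹ = a * (b * u * (b : G)⁻¹) * (a : G)⁻¹
        group)
      hhom := fun a x y => Subtype.ext (by
        show (a : G) * (x * y) * (a : G)⁻¹ = (a * x * (a : G)⁻¹) * (a * y * (a : G)⁻¹)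
        group)
      hker := fun a u ha => Subtype.ext (by
        show (a : G) * u * (a : G)⁻¹ = u
        have h1 : a ∈ pCore 2 ↥E := by
          rw [hker', MonoidHom.mem_ker]
          exact ha
        have hq : (a : G) ∈ pCoreOf 2 E := ⟨a, h1, rfl⟩
        rw [mem_centralizer_iff.1 (omegaOneCenter_le_cent _ u.2) _ hq]
        group)
      φmul := fun x y => by
        show Multiplicative.toAdd (ψ (x * y)) = _
        rw [map_mul]
        rfl
      hsum := h_sum
      hsurj := hsurj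
      heq := fun a u i => by
        obtain ⟨w, hw, hw2⟩ := heq a u
        have : T a u = w := Subtype.ext hw.symm
        show Multiplicative.toAdd (ψ (T a u)) i = _
        rw [this]
        exact hw2 i
      hZ := fun u hu a => Subtype.ext (by
        show (a : G) * u * (a : G)⁻¹ = u
        have h1 : ψ u = 1 := Multiplicative.toAdd.injective hu
        have h2 := ((hker u).1 h1).2
        rw [mem_centralizer_iff.1 h2 a a.2]
        group) }
  have hgen : ∀ X : Subgroup ↥(omegaOneCenter 2 (pCoreOf 2 E)), (∀ g u, u * (T g u)⁻¹ ∈ X) → X = ⊤ := by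
    intro X hX
    have h1 : ⁅omegaOneCenter 2 (pCoreOf 2 E), E⁆ ≤ X.map (omegaOneCenter 2 (pCoreOf 2 E)).subtype := by
      rw [Subgroup.commutator_le]
      intro w hw e he
      refine ⟨_, hX ⟨e, he⟩ ⟨w, hw⟩, ?_⟩
      show w * (e * w * e⁻¹)⁻¹ = ⁅w, e⁆
      rw [commutatorElement_def]
      group
    have hW : ⁅omegaOneCenter 2 (pCoreOf 2 E), E⁆ = omegaOneCenter 2 (pCoreOf 2 E) := by
      rw [← hQW]
      exact hQE
    rw [hW] at h1
    rw [eq_top_iff]
    intro u _
    obtain ⟨x, hx, hxu⟩ := h1 u.2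
    have : x = u := Subtype.ext hxu
    rwa [← this]
  rw [eq_bot_iff]
  intro z hz
  have h1 : ψ ⟨z, hz.1⟩ = 1 := (hker ⟨z, hz.1⟩).2 hz
  have h2 : φ ⟨z, hz.1⟩ = 0 := by
    show Multiplicative.toAdd (ψ ⟨z, hz.1⟩) = 0
    rw [h1]
    rfl
  have h3 := AltZ.Setup.main_aux hS hgen _ h2
  rw [Subgroup.mem_bot]
  exact congrArg Subtype.val h3

/-- `V_E ⊓ Z_E = 1` in the alternating case. -/
theorem alt_inf_Z (m : ℕ)
    (hiso : Nonempty (↥E ⧸ pCore 2 ↥E ≃* ↥(alternatingGroup (Fin (2 * m + 1)))))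
    (hact : ActsAsOddPermModuleOnSection (2 * m + 1) (alternatingGroup (Fin (2 * m + 1))) E
      (omegaOneCenter 2 (pCoreOf 2 E)) (omegaOneCenter 2 (pCoreOf 2 E) ⊓ centralizer (E : Set G)))
    (hQW : pCoreOf 2 E = omegaOneCenter 2 (pCoreOf 2 E))
    (hQE : ⁅pCoreOf 2 E, E⁆ = pCoreOf 2 E) : VV 2 E ⊓ ZZ 2 E = ⊥ := by
  rw [alt_ZZ_eq_bot m hiso hact hQW hQE, inf_bot_eq]

end Cfsg.Agent.Lib.BlockZ
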