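import Mathlib
import Cfsg.Prelude.Def_BaumannBlocks
import Cfsg.Agent.Lib.PGroup.BaumannSect
import Cfsg.Agent.Lib.BlockY.Defs

/-! Piece Z3 of S2987 (A6-A10): from the facts (cross), (J ≤ N(E)) and (fixed vector) a subnormal
block is normalized by every `B(T')`, lies in `B(G)` and is a block for every Sylow subgroup. -/

set_option autoImplicit false

namespace Cfsg.Agent.Lib.BlockZ
open Subgroup Cfsg Cfsg.Agent.Lib.BlockY
open Cfsg.Agent.Lib.PGroup.ThompsonG Cfsg.Agent.Lib.PGroup.BaumannNorm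
open Cfsg.Agent.Lib.PGroup.BaumannSect Cfsg.Agent.Lib.Basic.PCore
open Cfsg.Agent.Lib.PGroup.LargeSub2
open scoped commutatorElement

variable {G : Type*} [Group G]

namespace BlockAllAux

/-- The trace of a fixed point of a subgroup. -/
theorem trace_fixed {A T : Type*} [CommGroup A] [Group T] (K : Subgroup T) [Fintype (T ⧸ K)]
    (act : T → A → A) (hmul : ∀ s t a, act (s * t) a = act s (act t a))
    (hhom : ∀ t a b, act t (a * b) = act t a * act t b) (v : A)
    (hK : ∀ k ∈ K, act k v = v) (t : T) :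
    act t (∏ c : T ⧸ K, act (Quotient.out c) v) = ∏ c : T ⧸ K, act (Quotient.out c) v := by
  classical
  let φ : A →* A := MonoidHom.mk' (act t) (hhom t)
  have h1 : act t (∏ c : T ⧸ K, act (Quotient.out c) v) =
      ∏ c : T ⧸ K, act t (act (Quotient.out c) v) :=
    map_prod φ _ _
  rw [h1]
  have h2 : ∀ c : T ⧸ K, act t (act (Quotient.out c) v) = act (Quotient.out (t • c)) v := by
    intro c
    have hk : (Quotient.out (t • c))⁻¹ * (t * Quotient.out c) ∈ K := by
      rw [← QuotientGroup.eq, QuotientGroup.out_eq']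
      have h0 : ((t * Quotient.out c : T) : T ⧸ K) = t • ((Quotient.out c : T) : T ⧸ K) := rfl
      rw [h0, QuotientGroup.out_eq']
    have h3 : t * Quotient.out c =
        Quotient.out (t • c) * ((Quotient.out (t • c))⁻¹ * (t * Quotient.out c)) := by group
    rw [← hmul, h3, hmul, hK _ hk]
  rw [Finset.prod_congr rfl (fun c _ => h2 c)]
  exact Equiv.prod_comp (MulAction.toPerm t) (fun c : T ⧸ K => act (Quotient.out c) v)

end BlockAllAux

variable [Finite G] {p : ℕ} [hp : Fact p.Prime] {E : Subgroup G}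

omit [Finite G] hp in
theorem Q_le_self : pCoreOf p E ≤ E := Subgroup.map_subtype_le _

theorem VV_le_self : VV p E ≤ E := by
  have h1 : E ≤ normalizer (omegaOneCenter p (pCoreOf p E) : Set G) :=
    Subgroup.le_normalizer.trans ((normalizer_le_normalizer_pCoreOf E).trans
      (normalizer_le_omegaOneCenter _))
  exact (commutator_le_of_normalizer h1).trans ((omegaOneCenter_le _).trans Q_le_self)

/-- An element of `M` centralized by `J(T')` lies in `Ω₁(Z(J(T')))`. -/
theorem mem_omega_center (T' : Sylow p G) {v : G} (hvM : v ∈ MM p G)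
    (hv : ∀ j ∈ thompsonSubgroupOf p (T' : Subgroup G), j * v * j⁻¹ = v) :
    v ∈ omegaOne p (centerThompsonOf p (T' : Subgroup G)) := by
  have hvT : v ∈ (T' : Subgroup G) := pCore_le_sylow T' (omegaOneCenter_le _ hvM)
  obtain ⟨A, hA⟩ := exists_mem_gMaxEA (p := p) (T' : Subgroup G)
  have hle : zpowers v ≤ A := by
    refine le_of_gMaxEA hA ((zpowers_le).2 hvT)
      (ea_mono (omegaOneCenter_ea (pCore p G)) ((zpowers_le).2 hvM)) ?_
    intro a ha b hb
    obtain ⟨k, rfl⟩ := Subgroup.mem_zpowers_iff.1 hb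
    have h1 : a * v * a⁻¹ = v := hv a (le_thompsonSubgroupOf hA ha)
    have h2 : Commute a v := by
      show a * v = v * a
      calc a * v = a * v * a⁻¹ * a := by group
        _ = v * a := by rw [h1]
    exact (h2.zpow_right k)
  have hvA : v ∈ A := hle (Subgroup.mem_zpowers v)
  refine Subgroup.subset_closure ⟨⟨le_thompsonSubgroupOf hA hvA, ?_⟩, ?_⟩
  · refine mem_centralizer_iff.2 ?_
    intro j hj
    have h1 := hv j hj
    calc j * v = j * v * j⁻¹ * j := by group
      _ = v * j := by rw [h1]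
  · exact pow_of_mem_omegaOneCenter hvM

/-- **A6.** -/
theorem baumann_normalizes (hVM : VV p E ≤ MM p G)
    (hcross : ∀ g : G, cjg g E = E ∨ ⁅E, cjg g E⁆ = ⊥)
    (hJ : ∀ T' : Sylow p G, thompsonSubgroupOf p (T' : Subgroup G) ≤ normalizer (E : Set G))
    (hfix : ∀ S : Subgroup G, IsPGroup p S → S ≤ normalizer (E : Set G) →
      ∃ v ∈ VV p E, v ∉ centralizer (E : Set G) ∧ ∀ s ∈ S, s * v * s⁻¹ = v)
    (T' : Sylow p G) : baumannSubgroupOf p (T' : Subgroup G) ≤ normalizer (E : Set G) := by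
  intro b hb
  obtain ⟨v, hvV, hvE, hvfix⟩ := hfix _ (T'.isPGroup'.to_le (thompsonSubgroupOf_le_self _)) (hJ T')
  have hvO := mem_omega_center T' (hVM hvV) hvfix
  have hbv : v * b = b * v := mem_centralizer_iff.1 hb.2 v hvO
  rw [mem_normalizer_iff_cjg]
  rcases hcross b with h | h
  · exact h
  · exfalso
    apply hvE
    have hv' : v ∈ cjg b E := by
      rw [mem_cjg]
      have h1 : b⁻¹ * v * b = v := by
        calc b⁻¹ * v * b = b⁻¹ * (v * b) := by group
          _ = v := by rw [hbv]; group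
      rw [h1]
      exact VV_le_self hvV
    have h2 := Subgroup.commutator_eq_bot_iff_le_centralizer.1 h
    rw [mem_centralizer_iff]
    intro e he
    exact (mem_centralizer_iff.1 (h2 he) v hv').symm

omit [Finite G] hp in
/-- The Sylow subgroup `g • T`. -/
theorem coe_smul_sylow (g : G) (T : Sylow p G) :
    ((g • T : Sylow p G) : Subgroup G) = cjg g (T : Subgroup G) := by
  rw [Sylow.coe_subgroup_smul]
  rfl

/-- **A7.** -/
theorem le_baumann (T₀ : Sylow p G) (hE2 : ⁅E, baumannSubgroupOf p (T₀ : Subgroup G)⁆ = E) :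
    E ≤ baumannSubgroup p G := by
  have h : ⁅E, baumannSubgroupOf p (T₀ : Subgroup G)⁆ ≤ baumannSubgroup p G := by
    rw [Subgroup.commutator_le]
    intro e _ b hb
    have hb0 : b ∈ baumannSubgroup p G :=
      (le_iSup (fun T : Sylow p G => baumannSubgroupOf p (T : Subgroup G)) T₀) hb
    have hb1 : e * b * e⁻¹ ∈ baumannSubgroup p G := by
      have h1 : e * b * e⁻¹ ∈ baumannSubgroupOf p ((e • T₀ : Sylow p G) : Subgroup G) := by
        rw [coe_smul_sylow, ← cjg_baumann, mem_cjg]
        have h2 : e⁻¹ * (e * b * e⁻¹) * e = b := by group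
        rw [h2]
        exact hb
      exact (le_iSup (fun T : Sylow p G => baumannSubgroupOf p (T : Subgroup G)) (e • T₀)) h1
    rw [commutatorElement_def]
    exact Subgroup.mul_mem _ hb1 (Subgroup.inv_mem _ hb0)
  rw [hE2] at h
  exact h

/-- **A8.** -/
theorem exists_conj_baumann
    (hN : ∀ T' : Sylow p G, baumannSubgroupOf p (T' : Subgroup G) ≤ normalizer (E : Set G))
    (T₀ T' : Sylow p G) :
    ∃ n ∈ normalizer (E : Set G), baumannSubgroupOf p (T' : Subgroup G) =
      cjg n (baumannSubgroupOf p (T₀ : Subgroup G)) := by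
  set N : Subgroup G := normalizer (E : Set G) with hNdef
  have hpS : ∀ T : Sylow p G, IsPGroup p ((baumannSubgroupOf p (T : Subgroup G)).subgroupOf N) := by
    intro T
    have h1 : IsPGroup p (baumannSubgroupOf p (T : Subgroup G)) :=
      T.isPGroup'.to_le (baumann_le _)
    exact IsPGroup.comap_of_injective h1 N.subtype N.subtype_injective
  obtain ⟨S', hS'⟩ := (hpS T').exists_le_sylow
  obtain ⟨S₀, hS₀⟩ := (hpS T₀).exists_le_sylow
  obtain ⟨n, hn⟩ := MulAction.exists_smul_eq N S₀ S'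
  have hp' : ∀ S : Sylow p N, IsPGroup p ((S : Subgroup N).map N.subtype) :=
    fun S => S.isPGroup'.map _
  obtain ⟨T₃, h₃⟩ := (hp' S').exists_le_sylow
  obtain ⟨T₁, h₁⟩ := (hp' S₀).exists_le_sylow
  have hle : ∀ (T : Sylow p G) (S : Sylow p N),
      (baumannSubgroupOf p (T : Subgroup G)).subgroupOf N ≤ S →
      baumannSubgroupOf p (T : Subgroup G) ≤ (S : Subgroup N).map N.subtype := by
    intro T S h x hx
    exact ⟨⟨x, hN T hx⟩, h hx, rfl⟩
  have e₃ := baumann_eq_of_le T' T₃ ((hle T' S' hS').trans h₃)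
  have e₁ := baumann_eq_of_le T₀ T₁ ((hle T₀ S₀ hS₀).trans h₁)
  have hle2 : (S' : Subgroup N).map N.subtype ≤ (((n : G) • T₁ : Sylow p G) : Subgroup G) := by
    rintro x ⟨y, hy, rfl⟩
    rw [coe_smul_sylow, mem_cjg]
    have hy' : y ∈ ((n • S₀ : Sylow p N) : Subgroup N) := by rw [hn]; exact hy
    rw [coe_smul_sylow, mem_cjg] at hy'
    exact h₁ ⟨_, hy', rfl⟩
  have e₄ := baumann_eq_of_le T₃ ((n : G) • T₁) (by
    rw [e₃]
    exact (hle T' S' hS').trans hle2)
  refine ⟨n, n.2, ?_⟩
  rw [← e₃, ← e₄, coe_smul_sylow, ← cjg_baumann, e₁]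

/-- **A9.** -/
theorem comm_omega_ne (hVM : VV p E ≤ MM p G)
    (hcross : ∀ g : G, cjg g E = E ∨ ⁅E, cjg g E⁆ = ⊥)
    (hfix : ∀ S : Subgroup G, IsPGroup p S → S ≤ normalizer (E : Set G) →
      ∃ v ∈ VV p E, v ∉ centralizer (E : Set G) ∧ ∀ s ∈ S, s * v * s⁻¹ = v)
    (T' : Sylow p G) : ⁅E, omegaOneCenter p (T' : Subgroup G)⁆ ≠ ⊥ := by
  classical
  set T : Subgroup G := (T' : Subgroup G) with hTdef
  set S : Subgroup G := T ⊓ normalizer (E : Set G) with hSdef
  obtain ⟨v, hvV, hvE, hvfix⟩ := hfix S (T'.isPGroup'.to_le inf_le_left) inf_le_right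
  have hMn : (MM p G).Normal := MM_normal p
  letI : CommGroup ↥(MM p G) :=
    { (inferInstance : Group ↥(MM p G)) with
      mul_comm := fun a b => Subtype.ext (omegaOneCenter_comm a.2 b.2) }
  let act : ↥T → ↥(MM p G) → ↥(MM p G) :=
    fun t a => ⟨(t : G) * a * (t : G)⁻¹, hMn.conj_mem _ a.2 _⟩
  let K : Subgroup ↥T := S.subgroupOf T
  let v' : ↥(MM p G) := ⟨v, hVM hvV⟩
  have hmul : ∀ s t a, act (s * t) a = act s (act t a) := by
    intro s t a
    apply Subtype.ext
    show ((s : G) * t) * a * ((s : G) * t)⁻¹ = (s : G) * ((t : G) * a * (t : G)⁻¹) * (s : G)⁻¹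
    group
  have hhom : ∀ t a b, act t (a * b) = act t a * act t b := by
    intro t a b
    apply Subtype.ext
    show (t : G) * ((a : G) * b) * (t : G)⁻¹ =
      ((t : G) * a * (t : G)⁻¹) * ((t : G) * b * (t : G)⁻¹)
    group
  have hK : ∀ k ∈ K, act k v' = v' := by
    intro k hk
    exact Subtype.ext (hvfix _ hk)
  haveI : Fintype (↥T ⧸ K) := Fintype.ofFinite _
  have hz := BlockAllAux.trace_fixed K act hmul hhom v' hK
  set z : ↥(MM p G) := ∏ c : ↥T ⧸ K, act (Quotient.out c) v' with hzdef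
  have hzO : (z : G) ∈ omegaOneCenter p T := by
    refine mem_omegaOneCenter (pCore_le_sylow T' (omegaOneCenter_le _ z.2)) ?_
      (pow_of_mem_omegaOneCenter z.2)
    rw [mem_centralizer_iff]
    intro t ht
    have h1 : (t : G) * z * (t : G)⁻¹ = z := congrArg Subtype.val (hz ⟨t, ht⟩)
    calc t * (z : G) = t * z * t⁻¹ * t := by group
      _ = z * t := by rw [h1]
  let c₀ : ↥T ⧸ K := ((1 : ↥T) : ↥T ⧸ K)
  have hc₀ : act (Quotient.out c₀) v' = v' := by
    apply hK
    have h1 : ((Quotient.out c₀ : ↥T) : ↥T ⧸ K) = ((1 : ↥T) : ↥T ⧸ K) := QuotientGroup.out_eq' _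
    have h2 := (QuotientGroup.eq (s := K)).1 h1
    have h3 := K.inv_mem h2
    simpa using h3
  set R : ↥(MM p G) := ∏ c ∈ Finset.univ.erase c₀, act (Quotient.out c) v' with hRdef
  have hzR : z = v' * R := by
    have h1 := Finset.mul_prod_erase Finset.univ (fun c : ↥T ⧸ K => act (Quotient.out c) v')
      (Finset.mem_univ c₀)
    rw [hc₀] at h1
    exact h1.symm
  have hR : ∀ e ∈ E, e * (R : G) = (R : G) * e := by
    intro e he
    rw [hRdef]
    refine Finset.prod_induction _ (fun a : ↥(MM p G) => e * (a : G) = (a : G) * e) ?_ ?_ ?_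
    · intro a b ha hb
      show e * ((a : G) * b) = ((a : G) * b) * e
      rw [← mul_assoc, ha, mul_assoc, hb, mul_assoc]
    · show e * (1 : G) = (1 : G) * e
      simp
    · intro c hc
      have hne : c ≠ c₀ := (Finset.mem_erase.1 hc).1
      have hnot : ((Quotient.out c : ↥T) : G) ∉ normalizer (E : Set G) := by
        intro hmem
        apply hne
        have h1 : Quotient.out c ∈ K := ⟨(Quotient.out c).2, hmem⟩
        rw [← QuotientGroup.out_eq' c]
        show ((Quotient.out c : ↥T) : ↥T ⧸ K) = ((1 : ↥T) : ↥T ⧸ K)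
        rw [QuotientGroup.eq]
        simpa using K.inv_mem h1
      rcases hcross ((Quotient.out c : ↥T) : G) with h | h
      · exact absurd (mem_normalizer_iff_cjg.2 h) hnot
      · have h2 := Subgroup.commutator_eq_bot_iff_le_centralizer.1 h
        have hmem : ((act (Quotient.out c) v' : ↥(MM p G)) : G) ∈
            cjg ((Quotient.out c : ↥T) : G) E := by
          rw [mem_cjg]
          have h3 : ((Quotient.out c : ↥T) : G)⁻¹ * ((act (Quotient.out c) v' : ↥(MM p G)) : G) *
              ((Quotient.out c : ↥T) : G) = v := by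
            show ((Quotient.out c : ↥T) : G)⁻¹ *
              (((Quotient.out c : ↥T) : G) * v * ((Quotient.out c : ↥T) : G)⁻¹) *
              ((Quotient.out c : ↥T) : G) = v
            group
          rw [h3]
          exact VV_le_self hvV
        exact (mem_centralizer_iff.1 (h2 he) _ hmem).symm
  intro hbot
  apply hvE
  rw [mem_centralizer_iff]
  intro e he
  have h2 := Subgroup.commutator_eq_bot_iff_le_centralizer.1 hbot
  have h1 : (z : G) * e = e * z := mem_centralizer_iff.1 (h2 he) _ hzO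
  have hzG : (z : G) = v * (R : G) := by rw [hzR]; rfl
  rw [hzG] at h1
  have h3 := hR e he
  have h4 : e * v * (R : G) = v * e * (R : G) := by
    calc e * v * (R : G) = e * (v * (R : G)) := by group
      _ = v * (R : G) * e := h1.symm
      _ = v * ((R : G) * e) := by group
      _ = v * (e * (R : G)) := by rw [h3]
      _ = v * e * (R : G) := by group
  exact mul_right_cancel h4

omit [Finite G] hp in
/-- **A10.** -/
theorem block_of_baumann_eq {T₁ T₂ : Subgroup G} (h : IsBaumannBlock p T₁ E)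
    (hB : baumannSubgroupOf p T₁ = baumannSubgroupOf p T₂) (hO : ⁅E, omegaOneCenter p T₂⁆ ≠ ⊥) :
    IsBaumannBlock p T₂ E := by
  unfold IsBaumannBlock at *
  rw [← hB]
  exact ⟨h.1, h.2.1, h.2.2.1, hO, h.2.2.2.2⟩

/-- **Z3.** From the cross fact, `J(T') ≤ N(E)` and the fixed vector: `E ≤ B(G) ≤ N(E)` and `E` is a
block for every Sylow subgroup. -/
theorem block_all (T₀ : Sylow p G) (hE2 : ⁅E, baumannSubgroupOf p (T₀ : Subgroup G)⁆ = E)
    (hconj : ∀ g : G, IsBaumannBlock p (cjg g (T₀ : Subgroup G)) (cjg g E))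
    (hVM : VV p E ≤ MM p G)
    (hcross : ∀ g : G, cjg g E = E ∨ ⁅E, cjg g E⁆ = ⊥)
    (hJ : ∀ T' : Sylow p G, thompsonSubgroupOf p (T' : Subgroup G) ≤ normalizer (E : Set G))
    (hfix : ∀ S : Subgroup G, IsPGroup p S → S ≤ normalizer (E : Set G) →
      ∃ v ∈ VV p E, v ∉ centralizer (E : Set G) ∧ ∀ s ∈ S, s * v * s⁻¹ = v) :
    E ≤ baumannSubgroup p G ∧ baumannSubgroup p G ≤ normalizer (E : Set G) ∧
      ∀ T' : Sylow p G, IsBaumannBlock p (T' : Subgroup G) E := by
  have hN := baumann_normalizes hVM hcross hJ hfix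
  refine ⟨le_baumann T₀ hE2, iSup_le hN, fun T' => ?_⟩
  obtain ⟨n, hn, hB⟩ := exists_conj_baumann hN T₀ T'
  have h1 := hconj n
  rw [mem_normalizer_iff_cjg.1 hn] at h1
  exact block_of_baumann_eq h1 (by rw [← cjg_baumann, hB]) (comm_omega_ne hVM hcross hfix T')

end Cfsg.Agent.Lib.BlockZ
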