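import Mathlib
import Cfsg.Prelude.Def_BaumannBlocks
import Cfsg.Agent.Lib.PGroup.BaumannSect
import Cfsg.Agent.Lib.Transfer.SectionBasic

/-!
# Conjugates of Baumann blocks

`IsBaumannBlock p T E → IsBaumannBlock p (cjg g T) (cjg g E)`.
-/

namespace Cfsg.Agent.Lib.BlockZ

open Subgroup Cfsg Cfsg.Agent.Lib.PGroup.BaumannNorm Cfsg.Agent.Lib.PGroup.BaumannSect

variable {G : Type*} [Group G]

/-- Conjugation restricted to a subgroup. -/
noncomputable abbrev cjgEquiv (g : G) (X : Subgroup G) : X ≃* cjg g X :=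
  (MulAut.conj g).subgroupMap X

theorem cjgEquiv_coe (g : G) (X : Subgroup G) (x : X) :
    ((cjgEquiv g X x : cjg g X) : G) = g * x * g⁻¹ := rfl

theorem cjgEquiv_symm_coe (g : G) (X : Subgroup G) (x : cjg g X) :
    (((cjgEquiv g X).symm x : X) : G) = g⁻¹ * x * g := by
  obtain ⟨y, rfl⟩ := (cjgEquiv g X).surjective x
  simp [cjgEquiv_coe, mul_assoc]

theorem le_normalizer_cjg (g : G) {E U : Subgroup G} (h : E ≤ normalizer (U : Set G)) :
    cjg g E ≤ normalizer (cjg g U : Set G) := by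
  intro e he
  rw [mem_cjg] at he
  have h1 := h he
  rw [Subgroup.mem_normalizer_iff] at h1 ⊢
  intro x
  simp only [SetLike.mem_coe, mem_cjg] at h1 ⊢
  have := h1 (g⁻¹ * x * g)
  have h2 : g⁻¹ * e * g * (g⁻¹ * x * g) * (g⁻¹ * e * g)⁻¹ = g⁻¹ * (e * x * e⁻¹) * g := by group
  rw [h2] at this
  exact this

section core
variable [Finite G] {p : ℕ} [Fact p.Prime]

theorem pCoreOf_cjg (g : G) (E : Subgroup G) :
    pCoreOf p (cjg g E) = cjg g (pCoreOf p E) := by
  have h1 := Cfsg.Agent.Lib.Transfer.SectionBasic.map_pCore_equiv (p := p) (cjgEquiv g E)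
  ext x
  unfold pCoreOf
  rw [← h1]
  constructor
  · rintro ⟨y, ⟨z, hz, rfl⟩, rfl⟩
    exact ⟨z, ⟨z, hz, rfl⟩, rfl⟩
  · rintro ⟨y, ⟨z, hz, rfl⟩, rfl⟩
    exact ⟨_, ⟨z, hz, rfl⟩, rfl⟩

end core

theorem pResidual_map_equiv {X Y : Type*} [Group X] [Group Y] (p : ℕ) (e : X ≃* Y) :
    (pResidual p X).map e.toMonoidHom = pResidual p Y := by
  unfold pResidual
  rw [MonoidHom.map_closure]
  congr 1
  ext y
  simp only [Set.mem_image, Set.mem_setOf_eq, MulEquiv.coe_toMonoidHom]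
  constructor
  · rintro ⟨x, hx, rfl⟩
    rwa [MulEquiv.orderOf_eq]
  · intro hy
    refine ⟨e.symm y, ?_, by simp⟩
    rwa [MulEquiv.orderOf_eq]

theorem pResidualOf_cjg (p : ℕ) (g : G) (E : Subgroup G) :
    pResidualOf p (cjg g E) = cjg g (pResidualOf p E) := by
  have h1 := pResidual_map_equiv p (cjgEquiv g E)
  ext x
  unfold pResidualOf
  rw [← h1]
  constructor
  · rintro ⟨y, ⟨z, hz, rfl⟩, rfl⟩
    exact ⟨z, ⟨z, hz, rfl⟩, rfl⟩
  · rintro ⟨y, ⟨z, hz, rfl⟩, rfl⟩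
    exact ⟨_, ⟨z, hz, rfl⟩, rfl⟩

theorem frattini_map_equiv {X Y : Type*} [Group X] [Group Y] (e : X ≃* Y) :
    (frattini X).map e.toMonoidHom = frattini Y := by
  have h := e.mapSubgroup.map_radical
  exact h

theorem comm_cjg (g : G) (A B : Subgroup G) : ⁅cjg g A, cjg g B⁆ = cjg g ⁅A, B⁆ :=
  (Subgroup.map_commutator _ _ _).symm

theorem actsSL2_cjg (g : G) {F : Type*} [Field F] {R : Subgroup (Matrix.SpecialLinearGroup (Fin 2) F)}
    {E U U₀ : Subgroup G} (h : ActsAsSL2OnSection F R E U U₀) :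
    ActsAsSL2OnSection F R (cjg g E) (cjg g U) (cjg g U₀) := by
  obtain ⟨hn, hle, ρ, ψ, hρ, hψ, hker, hact⟩ := h
  refine ⟨le_normalizer_cjg g hn, Subgroup.map_mono hle, ρ.comp (cjgEquiv g E).symm.toMonoidHom,
    ψ.comp (cjgEquiv g U).symm.toMonoidHom, ?_, ?_, ?_, ?_⟩
  · rw [MonoidHom.range_comp, MonoidHom.range_eq_top_of_surjective _ (cjgEquiv g E).symm.surjective,
      ← MonoidHom.range_eq_map, hρ]
  · exact hψ.comp (cjgEquiv g U).symm.surjective
  · intro u
    simp only [MonoidHom.comp_apply, MulEquiv.coe_toMonoidHom]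
    rw [hker, cjgEquiv_symm_coe, ← mem_cjg]
  · intro e u
    obtain ⟨w, hw, hw2⟩ := hact ((cjgEquiv g E).symm e) ((cjgEquiv g U).symm u)
    refine ⟨cjgEquiv g U w, ?_, ?_⟩
    · rw [cjgEquiv_coe, hw, cjgEquiv_symm_coe, cjgEquiv_symm_coe]
      group
    · simp only [MonoidHom.comp_apply, MulEquiv.coe_toMonoidHom, MulEquiv.symm_apply_apply]
      exact hw2

theorem actsPerm_cjg (g : G) {n : ℕ} {R : Subgroup (Equiv.Perm (Fin n))}
    {E U U₀ : Subgroup G} (h : ActsAsOddPermModuleOnSection n R E U U₀) :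
    ActsAsOddPermModuleOnSection n R (cjg g E) (cjg g U) (cjg g U₀) := by
  obtain ⟨hn, hle, ρ, ψ, hρ, hψ, hψ2, hker, hact⟩ := h
  refine ⟨le_normalizer_cjg g hn, Subgroup.map_mono hle, ρ.comp (cjgEquiv g E).symm.toMonoidHom,
    ψ.comp (cjgEquiv g U).symm.toMonoidHom, ?_, ?_, ?_, ?_, ?_⟩
  · rw [MonoidHom.range_comp, MonoidHom.range_eq_top_of_surjective _ (cjgEquiv g E).symm.surjective,
      ← MonoidHom.range_eq_map, hρ]
  · intro u
    exact hψ _
  · intro v hv
    obtain ⟨u, hu⟩ := hψ2 v hv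
    refine ⟨cjgEquiv g U u, ?_⟩
    simpa using hu
  · intro u
    simp only [MonoidHom.comp_apply, MulEquiv.coe_toMonoidHom]
    rw [hker, cjgEquiv_symm_coe, ← mem_cjg]
  · intro e u
    obtain ⟨w, hw, hw2⟩ := hact ((cjgEquiv g E).symm e) ((cjgEquiv g U).symm u)
    refine ⟨cjgEquiv g U w, ?_, ?_⟩
    · rw [cjgEquiv_coe, hw, cjgEquiv_symm_coe, cjgEquiv_symm_coe]
      group
    · simp only [MonoidHom.comp_apply, MulEquiv.coe_toMonoidHom, MulEquiv.symm_apply_apply]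
      exact hw2

theorem frattiniOf_cjg (g : G) (Q : Subgroup G) :
    (frattini ↥(cjg g Q)).map (cjg g Q).subtype = cjg g ((frattini ↥Q).map Q.subtype) := by
  have h1 := frattini_map_equiv (cjgEquiv g Q)
  ext x
  rw [← h1]
  constructor
  · rintro ⟨y, ⟨z, hz, rfl⟩, rfl⟩
    exact ⟨z, ⟨z, hz, rfl⟩, rfl⟩
  · rintro ⟨y, ⟨z, hz, rfl⟩, rfl⟩
    exact ⟨_, ⟨z, hz, rfl⟩, rfl⟩

theorem zpowers_cjg (g b : G) :
    zpowers (g * b * g⁻¹) = cjg g (zpowers b) := by
  unfold cjg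
  rw [MonoidHom.map_zpowers]
  rfl

theorem cjg_le_cjg_iff (g : G) {A B : Subgroup G} : cjg g A ≤ cjg g B ↔ A ≤ B :=
  Subgroup.map_le_map_iff_of_injective (MulAut.conj g).injective

theorem cjg_eq_bot_iff (g : G) {A : Subgroup G} : cjg g A = ⊥ ↔ A = ⊥ :=
  Subgroup.map_eq_bot_iff_of_injective _ (MulAut.conj g).injective

/-- A conjugate of a Baumann block is a Baumann block (of the conjugate subgroup). -/
theorem block_conj [Finite G] {p : ℕ} [Fact p.Prime] (g : G) {T E : Subgroup G}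
    (h : IsBaumannBlock p T E) : IsBaumannBlock p (cjg g T) (cjg g E) := by
  obtain ⟨h1, h2, h3, h4, h5⟩ := h
  have hW : omegaOneCenter p (pCoreOf p (cjg g E)) = cjg g (omegaOneCenter p (pCoreOf p E)) := by
    rw [pCoreOf_cjg, cjg_omegaOneCenter]
  have hZ : omegaOneCenter p (pCoreOf p (cjg g E)) ⊓ centralizer (cjg g E : Set G) =
      cjg g (omegaOneCenter p (pCoreOf p E) ⊓ centralizer (E : Set G)) := by
    rw [hW, cjg_inf, cjg_centralizer]
  have hEE : cjg g E ⊓ centralizer (cjg g E : Set G) = cjg g (E ⊓ centralizer (E : Set G)) := by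
    rw [cjg_inf, cjg_centralizer]
  have hq : ∀ (R : Type _) [Group R], Nonempty (↥E ⧸ pCore p ↥E ≃* R) →
      Nonempty (↥(cjg g E) ⧸ pCore p ↥(cjg g E) ≃* R) := by
    rintro R _ ⟨e⟩
    have h0 : (pCore p ↥E).map (cjgEquiv g E).toMonoidHom = pCore p ↥(cjg g E) :=
      Cfsg.Agent.Lib.Transfer.SectionBasic.map_pCore_equiv (p := p) (cjgEquiv g E)
    exact ⟨(QuotientGroup.congr (pCore p ↥E) (pCore p ↥(cjg g E)) (cjgEquiv g E) h0).symm.trans e⟩
  refine ⟨?_, ?_, ?_, ?_, ?_⟩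
  · rw [pResidualOf_cjg, h1]
  · rw [← cjg_baumann, comm_cjg, h2]
  · rw [pCoreOf_cjg, comm_cjg, h3]
  · rw [← cjg_omegaOneCenter, comm_cjg]
    intro h
    exact h4 ((cjg_eq_bot_iff g).1 h)
  · rcases h5 with ⟨F, iF, iFt, n, hc, he, hact, hQ⟩ | ⟨hp, m, he, hact, hQ⟩
    · refine Or.inl ⟨F, iF, iFt, n, hc, hq _ he, ?_, ?_⟩
      · rw [hZ, hW]
        exact actsSL2_cjg g hact
      · rcases hQ with hQ | ⟨hp, hA, hc1, hc2, hc3, hc4, hc5⟩
        · left
          rw [hW, pCoreOf_cjg, ← hQ]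
        · right
          refine ⟨hp, ?_, ?_, ?_, ?_, ?_, ?_⟩
          · rw [hW, pCoreOf_cjg]
            exact actsSL2_cjg g hA
          · rw [hZ, pCoreOf_cjg, comm_cjg, hc1]
          · rw [hZ, pCoreOf_cjg, frattiniOf_cjg, hc2]
          · rw [hZ, hEE, hc3]
          · rw [hEE, card_cjg, hc4]
          · intro b hb hbW hle
            have hb1 : g⁻¹ * b * g ∈ baumannSubgroupOf p T := by
              rw [← cjg_baumann] at hb
              exact mem_cjg.1 hb
            refine hc5 _ hb1 ?_ ?_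
            · intro hmem
              apply hbW
              rw [hW, ← cjg_centralizer, mem_cjg]
              exact hmem
            · have hz : zpowers b = cjg g (zpowers (g⁻¹ * b * g)) := by
                rw [← zpowers_cjg]
                congr 1
                group
              rw [hz, pCoreOf_cjg, comm_cjg, comm_cjg, hEE] at hle
              exact (cjg_le_cjg_iff g).1 hle
    · refine Or.inr ⟨hp, m, hq _ he, ?_, ?_⟩
      · rw [hZ, hW]
        exact actsPerm_cjg g hact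
      · rw [hW, pCoreOf_cjg, ← hQ]

/-- Conjugates of subnormal subgroups are subnormal. -/
theorem isSubnormal_cjg (g : G) {E : Subgroup G} (h : E.IsSubnormal) : (cjg g E).IsSubnormal :=
  h.map (MulAut.conj g).surjective

end Cfsg.Agent.Lib.BlockZ
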