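import Mathlib
import Cfsg.Prelude.Def_BaumannBlocks
import Cfsg.Agent.Lib.BlockX.RawQuad
import Cfsg.Agent.Lib.BlockX.RawOf
import Cfsg.Agent.Lib.BlockY.Facts

/-! Z4: the additive maps induced on `W/Z` by the normalizer of a block. -/

set_option linter.unusedSectionVars false
set_option linter.unusedVariables false
set_option linter.style.longLine false

namespace Cfsg.Agent.Lib.BlockZ
open Subgroup Cfsg Matrix Cfsg.Agent.Lib.BlockX Cfsg.Agent.Lib.BlockY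
open Cfsg.Agent.Lib.PGroup.BaumannSect Cfsg.Agent.Lib.PGroup.LargeSub2
open scoped commutatorElement

variable {G : Type*} [Group G] [Finite G] {p : ℕ} [Fact p.Prime] {E : Subgroup G}

/-- `g ∈ N(E)` normalizes `W`. -/
theorem norm_WW {g : G} (hg : g ∈ normalizer (E : Set G)) : g ∈ normalizer (WW p E : Set G) :=
  normalizer_le_omegaOneCenter _ (normalizer_le_normalizer_pCoreOf E hg)

theorem norm_cent {g : G} (hg : g ∈ normalizer (E : Set G)) : g ∈ normalizer (centralizer (E : Set G) : Set G) := by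
  rw [mem_normalizer_iff]
  intro x
  simp only [SetLike.mem_coe, mem_centralizer_iff]
  constructor
  · intro h e he
    have h1 : g⁻¹ * e * g ∈ E := by
      have := (mem_normalizer_iff.1 (Subgroup.inv_mem _ hg) e).1 he
      simpa using this
    have h2 := h _ h1
    calc e * (g * x * g⁻¹) = g * ((g⁻¹ * e * g) * x) * g⁻¹ := by group
      _ = g * (x * (g⁻¹ * e * g)) * g⁻¹ := by rw [h2]
      _ = _ := by group
  · intro h e he
    have h1 : g * e * g⁻¹ ∈ E := (mem_normalizer_iff.1 hg e).1 he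
    have h2 := h _ h1
    have h3 : g * (e * x) * g⁻¹ = g * (x * e) * g⁻¹ := by
      calc g * (e * x) * g⁻¹ = (g * e * g⁻¹) * (g * x * g⁻¹) := by group
        _ = (g * x * g⁻¹) * (g * e * g⁻¹) := h2
        _ = _ := by group
    have h4 := mul_left_cancel (mul_right_cancel h3)
    exact h4

/-- `g ∈ N(E)` normalizes `Z`. -/
theorem norm_ZZ {g : G} (hg : g ∈ normalizer (E : Set G)) : g ∈ normalizer (ZZ p E : Set G) :=
  mem_normalizer_inf (norm_WW hg) (norm_cent hg)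

/-- Elementwise data of a block on `W/Z`. -/
structure SecL (p : ℕ) (𝔽 : Type*) [Field 𝔽] (E : Subgroup G) (ψ : G → F2 𝔽) (ρ : G → SL2 𝔽) : Prop where
  a1 : ∀ x ∈ WW p E, ∀ y ∈ WW p E, ψ (x * y) = ψ x + ψ y
  a2 : ∀ b : F2 𝔽, ∃ u ∈ WW p E, ψ u = b
  a3 : ∀ u ∈ WW p E, ψ u = 0 ↔ u ∈ ZZ p E
  a4 : ∀ x ∈ E, ∀ y ∈ E, ρ (x * y) = ρ x * ρ y
  a5 : ∀ e ∈ E, ρ e ∈ commutator (SL2 𝔽)
  a6 : ∀ k ∈ commutator (SL2 𝔽), ∃ e ∈ E, ρ e = k
  a7 : ∀ e ∈ E, ∀ u ∈ WW p E, ψ (e * u * e⁻¹) = sact (ρ e) (ψ u)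

theorem secL_of {𝔽 : Type*} [Field 𝔽]
    (hact : ActsAsSL2OnSection 𝔽 (commutator (Matrix.SpecialLinearGroup (Fin 2) 𝔽)) E
      (omegaOneCenter p (pCoreOf p E)) (omegaOneCenter p (pCoreOf p E) ⊓ Subgroup.centralizer (E : Set G))) :
    ∃ (ψ : G → F2 𝔽) (ρ : G → SL2 𝔽), SecL p 𝔽 E ψ ρ := by
  obtain ⟨ψ, ρ, a1, a2, a3, a4, a5, a6, a7⟩ := RawOf.extract hact
  exact ⟨ψ, ρ, ⟨a1, a2, a3, a4, a5, a6, a7⟩⟩

variable {𝔽 : Type*} [Field 𝔽] {ψ : G → F2 𝔽} {ρ : G → SL2 𝔽}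

/-- the family of induced maps -/
theorem exists_phi (d : SecL p 𝔽 E ψ ρ) : ∃ φ : G → F2 𝔽 → F2 𝔽, ∀ g ∈ normalizer (E : Set G),
    (∀ u ∈ WW p E, φ g (ψ u) = ψ (g * u * g⁻¹)) ∧ (∀ x y, φ g (x + y) = φ g x + φ g y) ∧
      Function.Injective (φ g) ∧ (∀ u ∈ WW p E, ⁅u, g⁆ ∈ WW p E ∧ ψ ⁅u, g⁆ = ψ u - φ g (ψ u)) := by
  classical
  have h : ∀ g : G, ∃ f : F2 𝔽 → F2 𝔽, g ∈ normalizer (E : Set G) →
      (∀ u ∈ WW p E, f (ψ u) = ψ (g * u * g⁻¹)) ∧ (∀ x y, f (x + y) = f x + f y) ∧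
      Function.Injective f ∧ (∀ u ∈ WW p E, ⁅u, g⁆ ∈ WW p E ∧ ψ ⁅u, g⁆ = ψ u - f (ψ u)) := by
    intro g
    by_cases hg : g ∈ normalizer (E : Set G)
    · obtain ⟨f, hf⟩ := RawQuad.exists_induced d.a1 d.a2 d.a3 (norm_WW hg) (norm_ZZ hg)
      exact ⟨f, fun _ => hf⟩
    · exact ⟨id, fun h => (hg h).elim⟩
  choose φ hφ using h
  exact ⟨φ, fun g hg => hφ g hg⟩

/-- A bundled choice of the maps. -/
structure Phi (d : SecL p 𝔽 E ψ ρ) (φ : G → F2 𝔽 → F2 𝔽) : Prop where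
  h1 : ∀ g ∈ normalizer (E : Set G), ∀ u ∈ WW p E, φ g (ψ u) = ψ (g * u * g⁻¹)
  hadd : ∀ g ∈ normalizer (E : Set G), ∀ x y, φ g (x + y) = φ g x + φ g y
  hinj : ∀ g ∈ normalizer (E : Set G), Function.Injective (φ g)
  hcomm : ∀ g ∈ normalizer (E : Set G), ∀ u ∈ WW p E, ⁅u, g⁆ ∈ WW p E ∧ ψ ⁅u, g⁆ = ψ u - φ g (ψ u)

theorem exists_Phi (d : SecL p 𝔽 E ψ ρ) : ∃ φ, Phi d φ := by
  obtain ⟨φ, h⟩ := exists_phi d
  exact ⟨φ, ⟨fun g hg => (h g hg).1, fun g hg => (h g hg).2.1, fun g hg => (h g hg).2.2.1, fun g hg => (h g hg).2.2.2⟩⟩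

namespace Phi
variable {d : SecL p 𝔽 E ψ ρ} {φ : G → F2 𝔽 → F2 𝔽}

theorem hU {g u : G} (hg : g ∈ normalizer (E : Set G)) (hu : u ∈ WW p E) : g * u * g⁻¹ ∈ WW p E :=
  (mem_normalizer_iff.1 (norm_WW hg) u).1 hu

theorem mul (P : Phi d φ) {g h : G} (hg : g ∈ normalizer (E : Set G)) (hh : h ∈ normalizer (E : Set G)) (x : F2 𝔽) :
    φ (g * h) x = φ g (φ h x) := by
  obtain ⟨u, hu, rfl⟩ := d.a2 x
  rw [P.h1 _ (mul_mem hg hh) u hu, P.h1 h hh u hu, P.h1 g hg _ (hU hh hu)]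
  congr 1
  group

theorem one (P : Phi d φ) (x : F2 𝔽) : φ 1 x = x := by
  obtain ⟨u, hu, rfl⟩ := d.a2 x
  rw [P.h1 1 (one_mem _) u hu]
  congr 1
  group

theorem inv_left (P : Phi d φ) {g : G} (hg : g ∈ normalizer (E : Set G)) (x : F2 𝔽) : φ g⁻¹ (φ g x) = x := by
  rw [← P.mul (inv_mem hg) hg, inv_mul_cancel, P.one]

theorem inv_right (P : Phi d φ) {g : G} (hg : g ∈ normalizer (E : Set G)) (x : F2 𝔽) : φ g (φ g⁻¹ x) = x := by
  rw [← P.mul hg (inv_mem hg), mul_inv_cancel, P.one]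

theorem of_mem (P : Phi d φ) {e : G} (he : e ∈ E) (x : F2 𝔽) : φ e x = sact (ρ e) x := by
  obtain ⟨u, hu, rfl⟩ := d.a2 x
  rw [P.h1 e (le_normalizer he) u hu, d.a7 e he u hu]

/-- normalizes the image of `ρ`. -/
theorem normalizes (P : Phi d φ) {g : G} (hg : g ∈ normalizer (E : Set G)) {k : SL2 𝔽}
    (hk : k ∈ commutator (SL2 𝔽)) : ∃ k' ∈ commutator (SL2 𝔽), ∀ x, φ g (sact k x) = sact k' (φ g x) := by
  obtain ⟨e, he, rfl⟩ := d.a6 k hk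
  have he' : g * e * g⁻¹ ∈ E := (mem_normalizer_iff.1 hg e).1 he
  refine ⟨ρ (g * e * g⁻¹), d.a5 _ he', fun x => ?_⟩
  rw [← P.of_mem he, ← P.of_mem he', ← P.mul hg (le_normalizer he), ← P.mul (le_normalizer he') hg]
  have e1 : g * e * g⁻¹ * g = g * e := by group
  rw [e1]

/-- trivial on `W/Z`. -/
theorem comm_mem_Z (P : Phi d φ) {g : G} (hg : g ∈ normalizer (E : Set G)) (h : ∀ x, φ g x = x) :
    ∀ w ∈ WW p E, ⁅w, g⁆ ∈ ZZ p E := by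
  intro w hw
  obtain ⟨h1, h2⟩ := P.hcomm g hg w hw
  rw [← d.a3 _ h1, h2, h, sub_self]

/-- If `x` and `e` act in the same way on `W/Z` then `e⁻¹ x` is trivial on `W/Z`. -/
theorem comm_mem_Z_of_eq (P : Phi d φ) {x e : G} (hx : x ∈ normalizer (E : Set G)) (he : e ∈ E)
    (h : ∀ a, φ x a = sact (ρ e) a) : ∀ w ∈ WW p E, ⁅w, e⁻¹ * x⁆ ∈ ZZ p E := by
  apply P.comm_mem_Z (mul_mem (inv_mem (le_normalizer he)) hx)
  intro a
  rw [P.mul (inv_mem (le_normalizer he)) hx, h, ← P.of_mem he, P.inv_left (le_normalizer he)]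

end Phi

/-- If `c = e⁻¹ x` centralizes `V` then `x` and `e` act in the same way on `V`. -/
theorem same_of_cent {V : Subgroup G} {x e : G} (h : e⁻¹ * x ∈ centralizer (V : Set G)) :
    ∀ v ∈ V, x * v * x⁻¹ = e * v * e⁻¹ := by
  intro v hv
  have h1 := mem_centralizer_iff.1 h v hv
  have h2 : x = e * (e⁻¹ * x) := by group
  rw [h2]
  calc e * (e⁻¹ * x) * v * (e * (e⁻¹ * x))⁻¹ = e * ((e⁻¹ * x) * v) * (e⁻¹ * x)⁻¹ * e⁻¹ := by group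
    _ = e * (v * (e⁻¹ * x)) * (e⁻¹ * x)⁻¹ * e⁻¹ := by rw [← h1]
    _ = _ := by group

end Cfsg.Agent.Lib.BlockZ
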