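import Mathlib
import Cfsg.Prelude.Def_BaumannBlocks
import Cfsg.Agent.Lib.BlockZ.Phi
import Cfsg.Agent.Lib.BlockZ.Lift
import Cfsg.Agent.Lib.BlockZ.AltNorm

/-! Z4 piece CAL: covers when `E` is alternating of degree at least five. -/

set_option linter.unusedSectionVars false
set_option linter.unusedVariables false
set_option linter.style.longLine false

namespace Cfsg.Agent.Lib.BlockZ
open Subgroup Cfsg Cfsg.Agent.Lib.BlockY
open Cfsg.Agent.Lib.PGroup.BaumannSect Cfsg.Agent.Lib.PGroup.BaumannNorm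
open scoped commutatorElement

namespace CoverAltAux

theorem extract {G : Type*} [Group G] {n : ℕ} {R : Subgroup (Equiv.Perm (Fin n))} {E U U₀ : Subgroup G}
    (hact : ActsAsOddPermModuleOnSection n R E U U₀) :
    ∃ (ψ : G → Fin n → ZMod 2) (ρ : G → Equiv.Perm (Fin n)),
      (∀ x ∈ U, ∀ y ∈ U, ψ (x * y) = ψ x + ψ y) ∧
      (∀ u ∈ U, EvenW (ψ u)) ∧
      (∀ v, EvenW v → ∃ u ∈ U, ψ u = v) ∧
      (∀ u ∈ U, ψ u = 0 ↔ u ∈ U₀) ∧
      (∀ e ∈ E, ρ e ∈ R) ∧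
      (∀ σ ∈ R, ∃ e ∈ E, ρ e = σ) ∧
      (∀ e ∈ E, ∀ u ∈ U, ψ (e * u * e⁻¹) = permAct (ρ e) (ψ u)) := by
  classical
  obtain ⟨hEU, hU₀, ρ, ψ, hρ, h_sum, hsurj, hker, heq⟩ := hact
  refine ⟨fun g => if h : g ∈ U then Multiplicative.toAdd (ψ ⟨g, h⟩) else 0,
    fun g => if h : g ∈ E then ρ ⟨g, h⟩ else 1, ?_, ?_, ?_, ?_, ?_, ?_, ?_⟩
  · intro x hx y hy
    simp only [dif_pos hx, dif_pos hy, dif_pos (U.mul_mem hx hy)]
    have : (⟨x * y, U.mul_mem hx hy⟩ : U) = ⟨x, hx⟩ * ⟨y, hy⟩ := rfl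
    rw [this, map_mul]
    rfl
  · intro u hu
    simp only [dif_pos hu]
    exact h_sum _
  · intro v hv
    obtain ⟨u, hu⟩ := hsurj v hv
    refine ⟨u, u.2, ?_⟩
    simp only [dif_pos u.2]
    exact hu
  · intro u hu
    simp only [dif_pos hu]
    rw [← hker ⟨u, hu⟩]
    exact toAdd_eq_zero
  · intro e he
    simp only [dif_pos he]
    rw [← hρ]
    exact ⟨_, rfl⟩
  · intro σ hσ
    rw [← hρ] at hσ
    obtain ⟨e, rfl⟩ := hσ
    refine ⟨e, e.2, ?_⟩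
    simp only [dif_pos e.2]
  · intro e he u hu
    obtain ⟨w, hw, hw2⟩ := heq ⟨e, he⟩ ⟨u, hu⟩
    have hm : e * u * e⁻¹ ∈ U := hw ▸ w.2
    simp only [dif_pos hu, dif_pos he, dif_pos hm]
    have : (⟨e * u * e⁻¹, hm⟩ : U) = w := Subtype.ext hw.symm
    rw [this]
    funext i
    exact hw2 i

theorem permAct_mul {n : ℕ} (σ τ : Equiv.Perm (Fin n)) (v : Fin n → ZMod 2) :
    permAct (σ * τ) v = permAct σ (permAct τ v) := by
  funext i
  simp only [permAct, mul_inv_rev, Equiv.Perm.mul_apply]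

theorem permAct_one {n : ℕ} (v : Fin n → ZMod 2) : permAct 1 v = v := by
  funext i
  simp only [permAct, inv_one, Equiv.Perm.one_apply]

variable {G : Type*} [Group G] [Finite G] {E : Subgroup G}

/-- the subgroup of elements of `N(E)` acting on `V_E` as elements of `E` do -/
def X (E : Subgroup G) : Subgroup G where
  carrier := {f | f ∈ normalizer (E : Set G) ∧ ∃ e ∈ E, ∀ v ∈ VV 2 E, f * v * f⁻¹ = e * v * e⁻¹}
  one_mem' := ⟨one_mem _, 1, one_mem _, fun v _ => rfl⟩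
  mul_mem' := by
    rintro a b ⟨ha, e, he, hae⟩ ⟨hb, e', he', hbe⟩
    refine ⟨mul_mem ha hb, e * e', mul_mem he he', fun v hv => ?_⟩
    have h1 : e' * v * e'⁻¹ ∈ VV 2 E := (mem_normalizer_iff.1 (norm_V (le_normalizer he')) v).1 hv
    calc a * b * v * (a * b)⁻¹ = a * (b * v * b⁻¹) * a⁻¹ := by group
      _ = a * (e' * v * e'⁻¹) * a⁻¹ := by rw [hbe v hv]
      _ = e * (e' * v * e'⁻¹) * e⁻¹ := hae _ h1
      _ = _ := by group
  inv_mem' := by
    rintro a ⟨ha, e, he, hae⟩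
    refine ⟨inv_mem ha, e⁻¹, inv_mem he, fun v hv => ?_⟩
    have h1 : e⁻¹ * v * e⁻¹⁻¹ ∈ VV 2 E :=
      (mem_normalizer_iff.1 (norm_V (le_normalizer (inv_mem he))) v).1 hv
    have h2 := hae _ h1
    have h3 : e * (e⁻¹ * v * e⁻¹⁻¹) * e⁻¹ = v := by group
    rw [h3] at h2
    calc a⁻¹ * v * a⁻¹⁻¹ = a⁻¹ * (a * (e⁻¹ * v * e⁻¹⁻¹) * a⁻¹) * a⁻¹⁻¹ := by rw [h2]
      _ = _ := by group

/-- the action of an element of odd order normalizing `E` -/
theorem odd_case {T₁ : Sylow 2 G} (hG : centralizer (YY 2 G : Set G) ≤ YY 2 G)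
    (hE : IsBaumannBlock 2 (T₁ : Subgroup G) E) {m : ℕ} (hm : 2 ≤ m)
    (hact : ActsAsOddPermModuleOnSection (2 * m + 1) (alternatingGroup (Fin (2 * m + 1))) E
      (omegaOneCenter 2 (pCoreOf 2 E)) (omegaOneCenter 2 (pCoreOf 2 E) ⊓ Subgroup.centralizer (E : Set G)))
    {f : G} (hf : f ∈ normalizer (E : Set G)) (hodd : Odd (orderOf f)) :
    ∃ e ∈ E, ∀ v ∈ VV 2 E, f * v * f⁻¹ = e * v * e⁻¹ := by
  classical
  obtain ⟨ψ, ρ, a1, a0, a2, a3, a5, a6, a7⟩ := extract hact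
  have hn : 5 ≤ 2 * m + 1 := by omega
  have hnodd : Odd (2 * m + 1) := ⟨m, rfl⟩
  have hW : ∀ g ∈ normalizer (E : Set G), ∀ u ∈ WW 2 E, g * u * g⁻¹ ∈ WW 2 E :=
    fun g hg u hu => (mem_normalizer_iff.1 (norm_WW hg) u).1 hu
  have hZ : ∀ g ∈ normalizer (E : Set G), ∀ u ∈ ZZ 2 E, g * u * g⁻¹ ∈ ZZ 2 E :=
    fun g hg u hu => (mem_normalizer_iff.1 (norm_ZZ hg) u).1 hu
  have hone : ψ 1 = 0 := by
    have := a1 1 (one_mem _) 1 (one_mem _)
    rw [mul_one] at this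
    exact left_eq_add.mp this
  have hinv : ∀ y ∈ WW 2 E, ψ y⁻¹ = -ψ y := by
    intro y hy
    have := a1 y hy y⁻¹ (inv_mem hy)
    rw [mul_inv_cancel, hone] at this
    exact (neg_eq_of_add_eq_zero_right this.symm).symm
  have hdiff : ∀ x ∈ WW 2 E, ∀ y ∈ WW 2 E, ψ (x * y⁻¹) = ψ x - ψ y := by
    intro x hx y hy
    rw [a1 x hx _ (inv_mem hy), hinv y hy, sub_eq_add_neg]
  have heq : ∀ x ∈ WW 2 E, ∀ y ∈ WW 2 E, ψ x = ψ y ↔ x * y⁻¹ ∈ ZZ 2 E := by
    intro x hx y hy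
    rw [← a3 _ (mul_mem hx (inv_mem hy)), hdiff x hx y hy, sub_eq_zero]
  have hkey : ∀ g ∈ normalizer (E : Set G), ∀ x ∈ WW 2 E, ∀ y ∈ WW 2 E, ψ x = ψ y →
      ψ (g * x * g⁻¹) = ψ (g * y * g⁻¹) := by
    intro g hg x hx y hy h
    rw [heq _ (hW g hg x hx) _ (hW g hg y hy)]
    have h1 := hZ g hg _ ((heq x hx y hy).1 h)
    have e1 : g * x * g⁻¹ * (g * y * g⁻¹)⁻¹ = g * (x * y⁻¹) * g⁻¹ := by group
    rw [e1]
    exact h1
  -- the induced map
  choose! lift hliftW hliftψ using a2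
  let φ : (Fin (2 * m + 1) → ZMod 2) → (Fin (2 * m + 1) → ZMod 2) :=
    fun v => ψ (f * lift v * f⁻¹)
  have hφ : ∀ u ∈ WW 2 E, φ (ψ u) = ψ (f * u * f⁻¹) := by
    intro u hu
    exact hkey f hf _ (hliftW _ (a0 u hu)) u hu (hliftψ _ (a0 u hu))
  have hev : ∀ v, EvenW v → EvenW (φ v) := by
    intro v hv
    exact a0 _ (hW f hf _ (hliftW v hv))
  have hadd : ∀ u v, EvenW u → EvenW v → φ (u + v) = φ u + φ v := by
    intro u v hu hv
    have hx := hliftW u hu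
    have hy := hliftW v hv
    have e0 : u + v = ψ (lift u * lift v) := by
      rw [a1 _ hx _ hy, hliftψ u hu, hliftψ v hv]
    have e1 : φ u = ψ (f * lift u * f⁻¹) := rfl
    have e2 : φ v = ψ (f * lift v * f⁻¹) := rfl
    rw [e0, hφ _ (mul_mem hx hy), e1, e2, ← a1 _ (hW f hf _ hx) _ (hW f hf _ hy)]
    congr 1
    group
  have hinj : ∀ u v, EvenW u → EvenW v → φ u = φ v → u = v := by
    intro u v hu hv h
    have hx := hliftW u hu
    have hy := hliftW v hv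
    have h1 := hkey f⁻¹ (inv_mem hf) _ (hW f hf _ hx) _ (hW f hf _ hy) h
    have e1 : f⁻¹ * (f * lift u * f⁻¹) * f⁻¹⁻¹ = lift u := by group
    have e2 : f⁻¹ * (f * lift v * f⁻¹) * f⁻¹⁻¹ = lift v := by group
    rw [e1, e2, hliftψ u hu, hliftψ v hv] at h1
    exact h1
  have hnorm : ∀ σ ∈ alternatingGroup (Fin (2 * m + 1)), ∃ σ' ∈ alternatingGroup (Fin (2 * m + 1)),
      ∀ v, EvenW v → φ (permAct σ v) = permAct σ' (φ v) := by
    intro σ hσ
    obtain ⟨e, he, rfl⟩ := a6 σ hσ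
    have he' : f * e * f⁻¹ ∈ E := (mem_normalizer_iff.1 hf e).1 he
    refine ⟨ρ (f * e * f⁻¹), a5 _ he', fun v hv => ?_⟩
    have hx := hliftW v hv
    have h1 : v = ψ (lift v) := (hliftψ v hv).symm
    rw [h1, ← a7 e he _ hx, hφ _ (hW e (le_normalizer he) _ hx), hφ _ hx,
      ← a7 _ he' _ (hW f hf _ hx)]
    congr 1
    group
  obtain ⟨π, hπ⟩ := alt_normalizer hn hnodd φ hev hadd hinj hnorm
  have hact1 : ∀ u ∈ WW 2 E, ψ (f * u * f⁻¹) = permAct π (ψ u) := by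
    intro u hu
    rw [← hφ u hu]
    exact hπ _ (a0 u hu)
  have hpow : ∀ k : ℕ, ∀ u ∈ WW 2 E, ψ (f ^ k * u * (f ^ k)⁻¹) = permAct (π ^ k) (ψ u) := by
    intro k
    induction k with
    | zero =>
      intro u hu
      simp only [pow_zero, one_mul, inv_one, mul_one]
      exact (permAct_one _).symm
    | succ k ih =>
      intro u hu
      have hfk : f ^ k ∈ normalizer (E : Set G) := pow_mem hf k
      have e1 : f ^ (k + 1) * u * (f ^ (k + 1))⁻¹ = f * (f ^ k * u * (f ^ k)⁻¹) * f⁻¹ := by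
        rw [pow_succ']; group
      rw [e1, hact1 _ (hW _ hfk u hu), ih u hu, pow_succ', permAct_mul]
  have hπk : π ^ orderOf f = 1 := by
    apply eq_of_permAct_eq _ hnodd
    intro v hv
    have hx := hliftW v hv
    have h1 := hpow (orderOf f) _ hx
    rw [pow_orderOf_eq_one, hliftψ v hv] at h1
    simp only [one_mul, inv_one, mul_one] at h1
    rw [hliftψ v hv] at h1
    rw [← h1, permAct_one]
  have hsign : π ∈ alternatingGroup (Fin (2 * m + 1)) := by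
    rw [Equiv.Perm.mem_alternatingGroup]
    have h1 : (Equiv.Perm.sign π) ^ orderOf f = 1 := by
      rw [← map_pow, hπk, map_one]
    rcases Int.units_eq_one_or (Equiv.Perm.sign π) with h | h
    · exact h
    · rw [h, hodd.neg_one_pow] at h1
      exact absurd h1 (by decide)
  obtain ⟨e, he, hρe⟩ := a6 π hsign
  refine ⟨e, he, ?_⟩
  apply same_of_cent
  have hEN : e ∈ normalizer (E : Set G) := le_normalizer he
  apply lift_action hG T₁ hE (mul_mem (inv_mem hEN) hf)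
  intro w hw
  have h1 : ψ (f * w * f⁻¹) = ψ (e * w * e⁻¹) := by
    rw [hact1 w hw, a7 e he w hw, hρe]
  have h2 := (heq _ (hW f hf w hw) _ (hW e hEN w hw)).1 h1
  have h3 := inv_mem (hZ e⁻¹ (inv_mem hEN) _ h2)
  have e1 : ⁅w, e⁻¹ * f⁆ = (e⁻¹ * (f * w * f⁻¹ * (e * w * e⁻¹)⁻¹) * e⁻¹⁻¹)⁻¹ := by
    rw [commutatorElement_def]; group
  rw [e1]
  exact h3

end CoverAltAux

/-- PIECE CAL -/
theorem cover_alt {G : Type*} [Group G] [Finite G] {E F : Subgroup G} {T₁ T₂ : Sylow 2 G}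
    (hG : centralizer (YY 2 G : Set G) ≤ YY 2 G)
    (hE : IsBaumannBlock 2 (T₁ : Subgroup G) E) (hF : IsBaumannBlock 2 (T₂ : Subgroup G) F)
    (hFN : F ≤ normalizer (E : Set G)) {m : ℕ} (hm : 2 ≤ m)
    (hact : ActsAsOddPermModuleOnSection (2 * m + 1) (alternatingGroup (Fin (2 * m + 1))) E
      (omegaOneCenter 2 (pCoreOf 2 E)) (omegaOneCenter 2 (pCoreOf 2 E) ⊓ Subgroup.centralizer (E : Set G))) :
    ∀ f ∈ F, ∃ e ∈ E, ∀ v ∈ VV 2 E, f * v * f⁻¹ = e * v * e⁻¹ := by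
  have h : F ≤ CoverAltAux.X E := by
    apply forall_mem_of_pResidualOf hF.1
    intro f hf hco
    refine ⟨hFN hf, CoverAltAux.odd_case hG hE hm hact (hFN hf) ?_⟩
    rcases Nat.even_or_odd (orderOf f) with h | h
    · exfalso
      have h2 : 2 ∣ Nat.gcd (orderOf f) 2 := Nat.dvd_gcd h.two_dvd dvd_rfl
      rw [hco] at h2
      omega
    · exact h
  intro f hf
  exact (h hf).2

end Cfsg.Agent.Lib.BlockZ
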