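import Mathlib
import Cfsg.Prelude.Def_BaumannBlocks
import Cfsg.Agent.Lib.BlockY.Cases

/-! Piece CC of S2987 (Z4): homomorphisms of a Baumann block to an abelian group without `p`-torsion. -/

set_option autoImplicit false

namespace Cfsg.Agent.Lib.BlockZ
open Subgroup Cfsg Matrix Cfsg.Agent.Lib.BlockX Cfsg.Agent.Lib.BlockY
open Cfsg.Agent.Lib.BlockX.SLn Cfsg.Agent.Lib.BlockY.CasesMat Cfsg.Agent.Lib.BlockY.CasesCore
open Cfsg.Agent.Lib.PGroup.BaumannSect
open scoped commutatorElement

section ftype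
variable {G : Type*} [Group G] [Finite G] {p : ℕ} [Fact p.Prime] {F : Subgroup G}

namespace FTypeAux

theorem hom_trivial_of_perfect {Q A : Type*} [Group Q] [CommGroup A] (h : commutator Q = ⊤) (f : Q →* A)
    (x : Q) : f x = 1 := by
  have hx : x ∈ commutator Q := h ▸ mem_top x
  exact Abelianization.commutator_subset_ker f hx

theorem eq_one_of_pow {A : Type*} [CommGroup A] {p : ℕ} (hA : ∀ a : A, a ^ p = 1 → a = 1) (k : ℕ) :
    ∀ a : A, a ^ (p ^ k) = 1 → a = 1 := by
  induction k with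
  | zero => intro a ha; simpa using ha
  | succ k ih =>
    intro a ha
    apply ih a
    apply hA
    rw [← pow_mul, ← pow_succ]
    exact ha

end FTypeAux

open FTypeAux in
/-- CC. `χ` kills `O_p(F)` (`p`-group, no `p`-torsion). -/
theorem block_hom_types (T : Sylow p G) (hF : IsBaumannBlock p (T : Subgroup G) F)
    {A : Type*} [CommGroup A] (hA : ∀ a : A, a ^ p = 1 → a = 1) (χ : ↥F →* A) :
    (∀ x, χ x = 1) ∨ (p = 3 ∧ ∀ x, χ x ^ 2 = 1) ∨
      (p = 2 ∧ ∃ (ψ : G → F2 (ZMod 2)) (ρ : G → SL2 (ZMod 2)),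
        CasesCore.D 2 F (QQ 2 F) (WW 2 F) (ZZ 2 F) ψ ρ) := by
  have hpr : p.Prime := Fact.out
  have hker : ∀ x ∈ pCore p ↥F, χ x = 1 := by
    intro x hx
    obtain ⟨k, hk⟩ := Cfsg.Agent.Lib.Basic.PCore.pCore_isPGroup (G := ↥F) p ⟨x, hx⟩
    apply eq_one_of_pow hA k
    rw [← map_pow]
    have : x ^ p ^ k = 1 := congrArg Subtype.val hk
    rw [this, map_one]
  let χbar : (↥F ⧸ pCore p ↥F) →* A := QuotientGroup.lift _ χ hker
  have hperf : commutator (↥F ⧸ pCore p ↥F) = ⊤ → ∀ x, χ x = 1 := by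
    intro h x
    exact hom_trivial_of_perfect h χbar (x : ↥F ⧸ pCore p ↥F)
  rcases hF.2.2.2.2 with ⟨F₀, _, _, n, hc, ⟨hiso⟩, hact, _⟩ | ⟨hp2, m, ⟨hiso⟩, hact, _⟩
  · by_cases hq : 3 < Fintype.card F₀
    · left
      have hS := Cases.sl2_quasi' hq
      have hK : commutator (Matrix.SpecialLinearGroup (Fin 2) F₀) = ⊤ := hS.1.commutator_eq_top
      have hQ := Cfsg.Agent.Lib.Components.Basic.isQuasisimple_of_mulEquiv
        (hiso.trans ((MulEquiv.subgroupCongr hK).trans Subgroup.topEquiv)).symm hS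
      exact hperf hQ.1.commutator_eq_top
    · have h2 := Fintype.one_lt_card (α := F₀)
      have hn : n = 1 := by
        rcases n with _ | _ | n
        · simp at hc; omega
        · rfl
        · exfalso
          have h3 : p ^ 2 ≤ p ^ (n + 1 + 1) := Nat.pow_le_pow_right hpr.pos (by omega)
          have h4 : 2 ^ 2 ≤ p ^ 2 := Nat.pow_le_pow_left hpr.two_le 2
          omega
      subst hn
      rw [pow_one] at hc
      have hp : p = 2 ∨ p = 3 := by
        have := hpr.two_le
        omega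
      obtain ⟨ψ, ρ, d⟩ := Cases.data_of_linear hc ⟨hiso⟩ hact
      rcases hp with rfl | rfl
      · exact Or.inr (Or.inr ⟨rfl, ψ, ρ, d⟩)
      · right; left
        refine ⟨rfl, ?_⟩
        -- elements with `ρ = 1`
        have hρ1 : ∀ y : ↥F, ρ y = 1 → χ y = 1 := by
          intro y hy
          have hy2 : (y : G) ∈ QQ 3 F := (d.a8 y y.2).1 hy
          obtain ⟨z, hz, hzy⟩ := hy2
          have : z = y := Subtype.ext hzy
          rw [← this]
          exact hker z hz
        obtain ⟨e₁, he₁, h₁⟩ := d.a6 ii ii_mem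
        obtain ⟨e₂, he₂, h₂⟩ := d.a6 jj jj_mem
        have hneg : ∀ y : ↥F, ρ y = -1 → χ y = 1 := by
          intro y hy
          let a : ↥F := ⟨e₁, he₁⟩
          let b : ↥F := ⟨e₂, he₂⟩
          let c : ↥F := a * b * a⁻¹ * b⁻¹
          have hcρ : ρ (c : G) = -1 := by
            have hc1 : (c : G) = e₁ * e₂ * e₁⁻¹ * e₂⁻¹ := rfl
            have hm1 : e₁ * e₂ ∈ F := F.mul_mem he₁ he₂
            have hm2 : e₁ * e₂ * e₁⁻¹ ∈ F := F.mul_mem hm1 (F.inv_mem he₁)
            rw [hc1, d.a4 _ hm2 _ (F.inv_mem he₂), d.a4 _ hm1 _ (F.inv_mem he₁), d.a4 _ he₁ _ he₂,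
              D.rho_inv d he₁, D.rho_inv d he₂, h₁, h₂]
            exact ii_jj_comm
          have hcχ : χ c = 1 := by
            simp only [c, map_mul, map_inv]
            rw [mul_comm (χ a) (χ b), mul_assoc (χ b), mul_inv_cancel, mul_one, mul_inv_cancel]
          have hd : ρ ((c⁻¹ * y : ↥F) : G) = 1 := by
            have h3 : ((c⁻¹ * y : ↥F) : G) = (c : G)⁻¹ * (y : G) := rfl
            rw [h3, d.a4 _ (F.inv_mem c.2) _ y.2, D.rho_inv d c.2, hcρ, hy]
            simp
          have hy2 : y = c * (c⁻¹ * y) := by group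
          rw [hy2, map_mul, hcχ, hρ1 _ hd, one_mul]
        intro x
        have hk := d.a5 x x.2
        have hsq : ρ ((x * x : ↥F) : G) = 1 ∨ ρ ((x * x : ↥F) : G) = -1 := by
          have h3 : ρ ((x * x : ↥F) : G) = ρ x * ρ x := d.a4 _ x.2 _ x.2
          rw [h3]
          by_cases hk1 : ρ (x : G) = 1
          · left; rw [hk1, one_mul]
          · by_cases hkn : ρ (x : G) = -1
            · left; rw [hkn]; simp
            · right
              have := matFacts3.typeS _ hk hk1 hkn
              simpa using this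
        have h4 : χ x ^ 2 = χ (x * x) := by rw [map_mul, sq]
        rw [h4]
        rcases hsq with h5 | h5
        · exact hρ1 _ h5
        · exact hneg _ h5
  · subst hp2
    rcases m with _ | _ | m
    · exact (not_alt_one hF ⟨hiso⟩).elim
    · right; right
      obtain ⟨ψ, ρ, d⟩ := Cases.data_of_alt ⟨hiso⟩ hact
      exact ⟨rfl, ψ, ρ, d⟩
    · left
      have h5 : 5 ≤ Nat.card (Fin (2 * (m + 1 + 1) + 1)) := by
        simp; omega
      have hs : IsSimpleGroup ↥(alternatingGroup (Fin (2 * (m + 1 + 1) + 1))) := alternatingGroup.isSimpleGroup h5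
      have hZ := alternatingGroup.center_eq_bot (α := Fin (2 * (m + 1 + 1) + 1)) (by omega)
      have hQ := Cfsg.Agent.Lib.Components.Basic.isQuasisimple_of_mulEquiv hiso.symm
        (Cases.quasi_of_simple_center hs hZ)
      exact hperf hQ.1.commutator_eq_top

end ftype

end Cfsg.Agent.Lib.BlockZ
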