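import Mathlib
import Cfsg.Agent.Lib.BlockX.RawQuad

/-!
# Piece CG1 of `Z4`: the offender inequality fails for a semilinear element over `F₄`
-/

set_option autoImplicit false

namespace Cfsg.Agent.Lib.BlockZ

open Cfsg.Agent.Lib.BlockX Cfsg.Agent.Lib.BlockX.RawQuad

namespace FourOffAux

variable {𝔽 : Type*} [Field 𝔽] [Fintype 𝔽]

theorem two_eq_zero (hq : Fintype.card 𝔽 = 4) : (2 : 𝔽) = 0 := by
  have h : (Fintype.card 𝔽 : 𝔽) = 0 := FiniteField.cast_card_eq_zero 𝔽
  rw [hq] at h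
  have h2 : (2 : 𝔽) * 2 = 0 := by
    have : (2 : 𝔽) * 2 = ((4 : ℕ) : 𝔽) := by push_cast; norm_num
    rw [this, h]
  exact mul_self_eq_zero.1 h2

theorem sub_self_two (h2 : (2 : 𝔽) = 0) (a : 𝔽) : a + a = 0 := by
  rw [← two_mul, h2, zero_mul]

theorem vec_add_self (h2 : (2 : 𝔽) = 0) (v : F2 𝔽) : v + v = 0 := by
  rw [← two_smul 𝔽 v, h2, zero_smul]

theorem four_elts (hq : Fintype.card 𝔽 = 4) {l : 𝔽} (h0 : l ≠ 0) (h1 : l ≠ 1) (y : 𝔽) :
    y = 0 ∨ y = 1 ∨ y = l ∨ y = l + 1 := by
  classical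
  have h2 := two_eq_zero hq
  have h3 : l + 1 ≠ 0 := by
    intro h
    apply h1
    have h4 : l + 1 + 1 = 1 := by rw [h, zero_add]
    rwa [add_assoc, sub_self_two h2, add_zero] at h4
  have h4 : l + 1 ≠ 1 := by
    intro h
    exact h0 (add_eq_right.1 h)
  have h5 : l + 1 ≠ l := by
    intro h
    exact one_ne_zero (add_eq_left.1 h)
  have hcard : ({0, 1, l, l + 1} : Finset 𝔽).card = Fintype.card 𝔽 := by
    rw [hq, Finset.card_insert_of_notMem, Finset.card_insert_of_notMem, Finset.card_insert_of_notMem,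
      Finset.card_singleton]
    · simpa using h5.symm
    · simp only [Finset.mem_insert, Finset.mem_singleton, not_or]
      exact ⟨h1.symm, h4.symm⟩
    · simp only [Finset.mem_insert, Finset.mem_singleton, not_or]
      exact ⟨zero_ne_one, h0.symm, h3.symm⟩
  have hu := Finset.eq_univ_of_card _ hcard
  have hy : y ∈ ({0, 1, l, l + 1} : Finset 𝔽) := hu ▸ Finset.mem_univ y
  simpa only [Finset.mem_insert, Finset.mem_singleton] using hy

theorem exists_elt (hq : Fintype.card 𝔽 = 4) : ∃ l : 𝔽, l ≠ 0 ∧ l ≠ 1 := by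
  classical
  by_contra h
  push_neg at h
  have h1 : (Finset.univ : Finset 𝔽) ⊆ {0, 1} := by
    intro y _
    by_cases hy : y = 0
    · simp [hy]
    · simp [h y hy]
  have h2 := Finset.card_le_card h1
  rw [Finset.card_univ, hq] at h2
  have h3 : ({0, 1} : Finset 𝔽).card ≤ 2 := Finset.card_le_two
  omega

theorem sq_eq_add_one (hq : Fintype.card 𝔽 = 4) {l : 𝔽} (h0 : l ≠ 0) (h1 : l ≠ 1) : l ^ 2 = l + 1 := by
  have h2 := two_eq_zero hq
  rcases four_elts hq h0 h1 (l ^ 2) with h | h | h | h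
  · exact absurd (pow_eq_zero_iff (two_ne_zero)|>.1 h) h0
  · exfalso
    apply h1
    have h3 : (l - 1) * (l - 1) = 0 := by
      have : (l - 1) * (l - 1) = l ^ 2 - 2 * l + 1 := by ring
      rw [this, h, h2]
      rw [zero_mul, sub_zero]
      have := sub_self_two h2 (1 : 𝔽)
      exact this
    exact sub_eq_zero.1 (mul_self_eq_zero.1 h3)
  · exfalso
    have h3 : l * (l - 1) = 0 := by
      have : l * (l - 1) = l ^ 2 - l := by ring
      rw [this, h, sub_self]
    rcases mul_eq_zero.1 h3 with h4 | h4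
    · exact h0 h4
    · exact h1 (sub_eq_zero.1 h4)
  · exact h

/-- A ring endomorphism of `F₄` other than the identity is the square map. -/
theorem hom_eq_sq (hq : Fintype.card 𝔽 = 4) (τ : 𝔽 →+* 𝔽) (hτ : τ ≠ RingHom.id 𝔽) (l : 𝔽) : τ l = l ^ 2 := by
  by_cases h0 : l = 0
  · simp [h0]
  by_cases h1 : l = 1
  · simp [h1]
  rw [sq_eq_add_one hq h0 h1]
  rcases four_elts hq h0 h1 (τ l) with h | h | h | h
  · exact absurd ((map_eq_zero τ).1 h) h0
  · exfalso
    apply h1
    apply τ.injective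
    rw [h, map_one]
  · exfalso
    apply hτ
    ext y
    rcases four_elts hq h0 h1 y with rfl | rfl | rfl | rfl
    · simp
    · simp
    · simpa using h
    · simp [h]
  · exact h

theorem pow_four (hq : Fintype.card 𝔽 = 4) (l : 𝔽) : (l ^ 2) ^ 2 = l := by
  have := FiniteField.pow_card l
  rw [hq] at this
  rw [← pow_mul]
  exact this

theorem eq_one_of_sq_eq_self {c : 𝔽} (h : c ^ 2 = c) (h0 : c ≠ 0) : c = 1 := by
  have h3 : c * (c - 1) = 0 := by
    have : c * (c - 1) = c ^ 2 - c := by ring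
    rw [this, h, sub_self]
  rcases mul_eq_zero.1 h3 with h4 | h4
  · exact absurd h4 h0
  · exact sub_eq_zero.1 h4

/-- The normal form of a linear involution other than the identity. -/
theorem exists_basis (h2 : (2 : 𝔽) = 0) {u : F2 𝔽 → F2 𝔽} (hadd : ∀ a b, u (a + b) = u a + u b)
    (hlin : ∀ (l : 𝔽) v, u (l • v) = l • u v) (hinv : u ∘ u = id) (hne : u ≠ id) :
    ∃ w y : F2 𝔽, u w = w ∧ u y = y + w ∧ dt w y ≠ 0 ∧ w ≠ 0 := by
  have hu2 : ∀ v, u (u v) = v := fun v => congrFun hinv v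
  obtain ⟨y, hy⟩ : ∃ y, u y ≠ y := by
    by_contra h
    push_neg at h
    exact hne (funext h)
  have hw : u (u y + y) = u y + y := by
    rw [hadd, hu2, add_comm]
  have hyw : u y = y + (u y + y) := by
    rw [add_comm (u y) y, ← add_assoc, vec_add_self h2, zero_add]
  have hw0 : u y + y ≠ 0 := by
    intro h
    apply hy
    have h3 := vec_add_self h2 y
    exact add_right_cancel (h.trans h3.symm)
  refine ⟨u y + y, y, hw, hyw, ?_, hw0⟩
  intro hd
  obtain ⟨c, hc⟩ := eq_smul_of_dt hw0 hd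
  apply hy
  have h3 : u y = c • (u y + y) := by
    conv_lhs => rw [hc]
    rw [hlin, hw]
  rw [h3, ← hc]

/-- The values of a linear involution in normal form. -/
theorem apply_of_basis {u : F2 𝔽 → F2 𝔽} (hadd : ∀ a b, u (a + b) = u a + u b)
    (hlin : ∀ (l : 𝔽) v, u (l • v) = l • u v) {w y : F2 𝔽} {p : 𝔽} (hw : u w = w) (hy : u y = y + p • w)
    (hd : dt w y ≠ 0) (z : F2 𝔽) : u z = z + (p * (dt w z / dt w y)) • w := by
  have hz := basis_eq w y z hd
  set α := dt z y / dt w y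
  set β := dt w z / dt w y
  conv_lhs => rw [hz]
  conv_rhs => rw [hz]
  rw [hadd, hlin, hlin, hw, hy, smul_add, add_assoc, mul_comm, smul_smul]

/-- Two linear involutions other than the identity commuting with a semilinear map are equal. -/
theorem lin_unique (h2 : (2 : 𝔽) = 0) {u₁ u₂ a : F2 𝔽 → F2 𝔽}
    (hadd₁ : ∀ a b, u₁ (a + b) = u₁ a + u₁ b) (hlin₁ : ∀ (l : 𝔽) v, u₁ (l • v) = l • u₁ v)
    (hinv₁ : u₁ ∘ u₁ = id) (hne₁ : u₁ ≠ id)
    (hadd₂ : ∀ a b, u₂ (a + b) = u₂ a + u₂ b) (hlin₂ : ∀ (l : 𝔽) v, u₂ (l • v) = l • u₂ v)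
    (hinv₂ : u₂ ∘ u₂ = id) (hne₂ : u₂ ≠ id) (hc12 : u₁ ∘ u₂ = u₂ ∘ u₁)
    (hadda : ∀ x y, a (x + y) = a x + a y) (hsa : ∀ (l : 𝔽) v, a (l • v) = l ^ 2 • a v)
    (hinva : a ∘ a = id) (hc1 : a ∘ u₁ = u₁ ∘ a) (hc2 : a ∘ u₂ = u₂ ∘ a) : u₁ = u₂ := by
  have hu₂ : ∀ v, u₂ (u₂ v) = v := fun v => congrFun hinv₂ v
  obtain ⟨w, y, hw, hy, hd, hw0⟩ := exists_basis h2 hadd₁ hlin₁ hinv₁ hne₁
  have hy' : u₁ y = y + (1 : 𝔽) • w := by rw [one_smul]; exact hy
  have hform₁ : ∀ z, u₁ z = z + (1 * (dt w z / dt w y)) • w := apply_of_basis hadd₁ hlin₁ hw hy' hd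
  -- `u₂` fixes `w`
  have hfix₁ : ∀ z, u₁ z = z → dt w z = 0 := by
    intro z hz
    have h3 := hform₁ z
    rw [hz] at h3
    have h4 : (1 * (dt w z / dt w y)) • w = 0 := by
      have := left_eq_add.1 h3
      exact this
    rcases smul_eq_zero.1 h4 with h5 | h5
    · rw [one_mul, div_eq_zero_iff] at h5
      exact h5.resolve_right hd
    · exact absurd h5 hw0
  have hu2w : u₂ w = w := by
    have h3 : u₁ (u₂ w) = u₂ w := by
      have := congrFun hc12 w
      simp only [Function.comp_apply] at this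
      rw [this, hw]
    obtain ⟨c, hc⟩ := eq_smul_of_dt hw0 (hfix₁ _ h3)
    have h4 : c ^ 2 • w = w := by
      have h5 := hu₂ w
      rw [hc, hlin₂, hc, smul_smul] at h5
      rwa [sq]
    have h5 : (c ^ 2 - 1) • w = 0 := by
      rw [sub_smul, h4, one_smul, sub_self]
    have h6 : c ^ 2 - 1 = 0 := (smul_eq_zero.1 h5).resolve_right hw0
    have h7 : (c - 1) * (c - 1) = 0 := by
      have : (c - 1) * (c - 1) = (c ^ 2 - 1) + (1 + 1 - 2 * c) := by ring
      rw [this, h6, h2, zero_mul, sub_zero, zero_add]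
      exact sub_self_two h2 1
    have h8 : c = 1 := sub_eq_zero.1 (mul_self_eq_zero.1 h7)
    rw [hc, h8, one_smul]
  -- `u₂ y = y + p w`
  have hN : ∃ p : 𝔽, u₂ y = y + p • w := by
    have hb := basis_eq w y (u₂ y + y) hd
    set P := dt (u₂ y + y) y / dt w y
    set Q := dt w (u₂ y + y) / dt w y
    have hQ : Q = 0 := by
      by_contra hQ
      -- apply `u₂ + 1` to both sides
      have h3 : u₂ (u₂ y + y) + (u₂ y + y) = 0 := by
        rw [hadd₂, hu₂, add_comm y (u₂ y), vec_add_self h2]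
      have h4 : u₂ (u₂ y + y) = P • w + Q • u₂ y := by
        conv_lhs => rw [hb]
        rw [hadd₂, hlin₂, hlin₂, hu2w]
      have h5 : Q • (u₂ y + y) = 0 := by
        have h6 : u₂ (u₂ y + y) + (u₂ y + y) = P • w + Q • u₂ y + (P • w + Q • y) := by
          rw [h4]
          conv_lhs => rw [hb]
        rw [h3] at h6
        have h7 : P • w + Q • u₂ y + (P • w + Q • y) = (P • w + P • w) + Q • (u₂ y + y) := by
          rw [smul_add]; abel
        rw [h7, vec_add_self h2, zero_add] at h6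
        exact h6.symm
      have h6 : u₂ y + y = 0 := (smul_eq_zero.1 h5).resolve_left hQ
      -- so `u₂ = id`
      apply hne₂
      have h7 : u₂ y = y := by
        have := vec_add_self h2 y
        exact add_right_cancel (h6.trans this.symm)
      funext z
      have h8 : u₂ y = y + (0 : 𝔽) • w := by rw [zero_smul, add_zero]; exact h7
      have h9 := apply_of_basis hadd₂ hlin₂ hu2w h8 hd z
      rw [zero_mul, zero_smul, add_zero] at h9
      exact h9
    refine ⟨P, ?_⟩
    rw [hQ, zero_smul, add_zero] at hb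
    rw [← hb, add_comm y, add_assoc, vec_add_self h2, add_zero]
  obtain ⟨p, hp⟩ := hN
  have hform₂ : ∀ z, u₂ z = z + (p * (dt w z / dt w y)) • w := apply_of_basis hadd₂ hlin₂ hu2w hp hd
  have hn : ∀ z, u₂ z = z + p • (u₁ z + z) := by
    intro z
    rw [hform₂ z, hform₁ z]
    congr 1
    rw [add_comm z, add_assoc, vec_add_self h2, add_zero, smul_smul, one_mul]
  have hp0 : p ≠ 0 := by
    rintro rfl
    apply hne₂
    funext z
    rw [hn z, zero_smul, add_zero]
    rfl
  have ha2 : ∀ v, a (a v) = v := fun v => congrFun hinva v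
  have hac1 : ∀ z, a (u₁ z) = u₁ (a z) := fun z => congrFun hc1 z
  have hac2 : ∀ z, a (u₂ z) = u₂ (a z) := fun z => congrFun hc2 z
  have hpp : p ^ 2 = p := by
    have hkey : ∀ z, a z + p ^ 2 • (u₁ (a z) + a z) = a z + p • (u₁ (a z) + a z) := by
      intro z
      have h3 := hac2 z
      rw [hn z, hadda, hsa, hadda, hac1, hn (a z)] at h3
      exact h3
    have h4 := hkey (a y)
    rw [ha2] at h4
    have hwy : u₁ y + y = w := by rw [hy, add_comm y w, add_assoc, vec_add_self h2, add_zero]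
    rw [hwy] at h4
    have h5 := add_left_cancel h4
    have h6 : (p ^ 2 - p) • w = 0 := by rw [sub_smul, h5, sub_self]
    exact sub_eq_zero.1 ((smul_eq_zero.1 h6).resolve_right hw0)
  have hp1 := eq_one_of_sq_eq_self hpp hp0
  funext z
  rw [hn z, hp1, one_smul, add_comm (u₁ z), ← add_assoc, vec_add_self h2, zero_add]

/-- The fixed vectors of a linear involution in normal form lie on a line. -/
theorem dt_eq_zero_of_fixed {u : F2 𝔽 → F2 𝔽} (hadd : ∀ a b, u (a + b) = u a + u b)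
    (hlin : ∀ (l : 𝔽) v, u (l • v) = l • u v) {w y : F2 𝔽} (hw : u w = w) (hy : u y = y + w)
    (hd : dt w y ≠ 0) (hw0 : w ≠ 0) {z : F2 𝔽} (hz : u z = z) : dt w z = 0 := by
  have hy' : u y = y + (1 : 𝔽) • w := by rw [one_smul]; exact hy
  have h3 := apply_of_basis hadd hlin hw hy' hd z
  rw [hz] at h3
  have h4 : (1 * (dt w z / dt w y)) • w = 0 := left_eq_add.1 h3
  rcases smul_eq_zero.1 h4 with h5 | h5
  · rw [one_mul, div_eq_zero_iff] at h5
    exact h5.resolve_right hd
  · exact absurd h5 hw0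

/-- A semilinear involution has at most four fixed vectors in a given set. -/
theorem card_fix_le_four (hq : Fintype.card 𝔽 = 4) {a : F2 𝔽 → F2 𝔽} (hadda : ∀ x y, a (x + y) = a x + a y)
    (hsa : ∀ (l : 𝔽) v, a (l • v) = l ^ 2 • a v) (fix : Finset (F2 𝔽)) (hfix : ∀ v ∈ fix, a v = v) :
    fix.card ≤ 4 := by
  classical
  obtain ⟨l, hl0, hl1⟩ := exists_elt hq
  have hll : l ^ 2 - l ≠ 0 := fun h => hl1 (eq_one_of_sq_eq_self (sub_eq_zero.1 h) hl0)
  have hinj : Set.InjOn (fun q : F2 𝔽 × F2 𝔽 => q.1 + l • q.2) (fix ×ˢ fix : Finset (F2 𝔽 × F2 𝔽)) := by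
    rintro ⟨p, q⟩ hpq ⟨p', q'⟩ hpq' e1
    simp only [Finset.coe_product, Set.mem_prod, Finset.mem_coe] at hpq hpq'
    have e1' : p + l • q = p' + l • q' := e1
    have e2 : p + l ^ 2 • q = p' + l ^ 2 • q' := by
      have := congrArg a e1'
      rw [hadda, hadda, hsa, hsa, hfix p hpq.1, hfix q hpq.2, hfix p' hpq'.1, hfix q' hpq'.2] at this
      exact this
    have e3 : (l ^ 2 - l) • q = (l ^ 2 - l) • q' := by
      have h1 : (l ^ 2 - l) • q = (p + l ^ 2 • q) - (p + l • q) := by rw [sub_smul]; abel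
      have h2 : (l ^ 2 - l) • q' = (p' + l ^ 2 • q') - (p' + l • q') := by rw [sub_smul]; abel
      rw [h1, h2, e1', e2]
    have e4 : q = q' := smul_right_injective _ hll e3
    subst e4
    have e5 : p = p' := add_right_cancel e1'
    rw [e5]
  have h := Finset.card_le_card_of_injOn (t := (Finset.univ : Finset (F2 𝔽))) _ (fun _ _ => Finset.mem_univ _) hinj
  rw [Finset.card_product, Finset.card_univ] at h
  have h16 : Fintype.card (F2 𝔽) = 16 := by
    simp [F2, hq]
  rw [h16] at h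
  by_contra hc
  have hc5 : 5 ≤ fix.card := by omega
  have := Nat.mul_le_mul hc5 hc5
  omega

end FourOffAux

open FourOffAux in
/-- CG1. `𝔽` has 4 elements. `X` a set of additive maps of `F2 𝔽`, closed under composition, containing `id`, pairwise
commuting, each an involution, each semilinear. If some `a ∈ X` is not linear then `card X * card (common fixed points) < 16`. -/
theorem off_four {𝔽 : Type*} [Field 𝔽] [Fintype 𝔽] (hq : Fintype.card 𝔽 = 4) (X : Finset (F2 𝔽 → F2 𝔽))
    (h1 : id ∈ X) (hmul : ∀ x ∈ X, ∀ y ∈ X, x ∘ y ∈ X)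
    (hcomm : ∀ x ∈ X, ∀ y ∈ X, x ∘ y = y ∘ x) (hinv : ∀ x ∈ X, x ∘ x = id)
    (hadd : ∀ x ∈ X, ∀ a b, x (a + b) = x a + x b)
    (hsemi : ∀ x ∈ X, ∃ σ : 𝔽 →+* 𝔽, ∀ (l : 𝔽) v, x (l • v) = σ l • x v)
    {a : F2 𝔽 → F2 𝔽} (ha : a ∈ X) {σ : 𝔽 →+* 𝔽} (hσ : ∀ (l : 𝔽) v, a (l • v) = σ l • a v) (hne : σ ≠ RingHom.id 𝔽)
    (fix : Finset (F2 𝔽)) (hfix : ∀ v ∈ fix, ∀ x ∈ X, x v = v) :
    X.card * fix.card < 16 := by
  classical
  have h2 := two_eq_zero hq
  have hsq : ∀ l, σ l = l ^ 2 := hom_eq_sq hq σ hne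
  have hsa : ∀ (l : 𝔽) v, a (l • v) = l ^ 2 • a v := fun l v => by rw [hσ, hsq]
  have hainv : a ∘ a = id := hinv a ha
  have ha2 : ∀ v, a (a v) = v := fun v => congrFun hainv v
  have haadd := hadd a ha
  have hdich : ∀ x ∈ X, (∀ (l : 𝔽) v, x (l • v) = l • x v) ∨ (∀ (l : 𝔽) v, x (l • v) = l ^ 2 • x v) := by
    intro x hx
    obtain ⟨τ, hτ⟩ := hsemi x hx
    by_cases h : τ = RingHom.id 𝔽
    · left
      intro l v
      rw [hτ, h]
      rfl
    · right
      intro l v
      rw [hτ, hom_eq_sq hq τ h]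
  let lin : (F2 𝔽 → F2 𝔽) → Prop := fun x => ∀ (l : 𝔽) v, x (l • v) = l • x v
  let X₀ := X.filter lin
  let X₁ := X.filter (fun x => ¬ lin x)
  have hsplit : X.card = X₀.card + X₁.card := (Finset.card_filter_add_card_filter_not lin).symm
  have hX₁ : X₁.card ≤ X₀.card := by
    apply Finset.card_le_card_of_injOn (fun x => a ∘ x)
    · intro x hx
      have hx' := Finset.mem_filter.1 hx
      refine Finset.mem_filter.2 ⟨hmul a ha x hx'.1, ?_⟩
      intro l v
      have hs := (hdich x hx'.1).resolve_left hx'.2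
      show a (x (l • v)) = l • a (x v)
      rw [hs, hsa, pow_four hq]
    · intro x _ y _ hxy
      funext v
      have := congrFun hxy v
      have h3 := congrArg a this
      simpa only [Function.comp_apply, ha2] using h3
  by_cases hu : ∃ u ∈ X₀, u ≠ id
  · obtain ⟨u, hu0, hune⟩ := hu
    have hu0' := Finset.mem_filter.1 hu0
    have hX₀ : X₀ ⊆ {id, u} := by
      intro u' hu'
      have hu'' := Finset.mem_filter.1 hu'
      by_cases h3 : u' = id
      · simp [h3]
      · have := lin_unique h2 (hadd u hu0'.1) hu0'.2 (hinv u hu0'.1) hune (hadd u' hu''.1) hu''.2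
          (hinv u' hu''.1) h3 (hcomm u hu0'.1 u' hu''.1) haadd hsa hainv (hcomm a ha u hu0'.1)
          (hcomm a ha u' hu''.1)
        simp [← this]
    have hc₀ : X₀.card ≤ 2 := (Finset.card_le_card hX₀).trans Finset.card_le_two
    obtain ⟨w, y, hw, hy, hd, hw0⟩ := exists_basis h2 (hadd u hu0'.1) hu0'.2 (hinv u hu0'.1) hune
    have hline : ∀ v ∈ fix, ∃ c : 𝔽, v = c • w := by
      intro v hv
      exact eq_smul_of_dt hw0 (dt_eq_zero_of_fixed (hadd u hu0'.1) hu0'.2 hw hy hd hw0 (hfix v hv u hu0'.1))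
    have hfc : fix.card ≤ 2 := by
      by_cases hp : ∃ p ∈ fix, p ≠ 0
      · obtain ⟨p, hp, hp0⟩ := hp
        have hsub : fix ⊆ {0, p} := by
          intro v hv
          obtain ⟨c₁, hc₁⟩ := hline p hp
          obtain ⟨c₂, hc₂⟩ := hline v hv
          have hc₁0 : c₁ ≠ 0 := by
            rintro rfl
            exact hp0 (by rw [hc₁, zero_smul])
          set c := c₂ / c₁
          have hvc : v = c • p := by
            rw [hc₁, hc₂, smul_smul, div_mul_cancel₀ _ hc₁0]
          have h3 : c ^ 2 • p = c • p := by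
            have h4 := hfix v hv a ha
            rw [hvc, hsa, hfix p hp a ha] at h4
            exact h4
          have h5 : (c ^ 2 - c) • p = 0 := by rw [sub_smul, h3, sub_self]
          have h6 : c ^ 2 = c := sub_eq_zero.1 ((smul_eq_zero.1 h5).resolve_right hp0)
          by_cases hc0 : c = 0
          · simp [hvc, hc0]
          · have := eq_one_of_sq_eq_self h6 hc0
            simp [hvc, this]
        exact (Finset.card_le_card hsub).trans Finset.card_le_two
      · push_neg at hp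
        have hsub : fix ⊆ {0} := by
          intro v hv
          simp [hp v hv]
        have := Finset.card_le_card hsub
        rw [Finset.card_singleton] at this
        omega
    have hXc : X.card ≤ 4 := by omega
    calc X.card * fix.card ≤ 4 * 2 := Nat.mul_le_mul hXc hfc
      _ < 16 := by norm_num
  · push_neg at hu
    have hX₀ : X₀ ⊆ {id} := by
      intro u' hu'
      simp [hu u' hu']
    have hc₀ : X₀.card ≤ 1 := by
      have := Finset.card_le_card hX₀
      rwa [Finset.card_singleton] at this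
    have hfc : fix.card ≤ 4 := card_fix_le_four hq haadd hsa fix (fun v hv => hfix v hv a ha)
    have hXc : X.card ≤ 2 := by omega
    calc X.card * fix.card ≤ 2 * 4 := Nat.mul_le_mul hXc hfc
      _ < 16 := by norm_num

end Cfsg.Agent.Lib.BlockZ
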