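import Mathlib
import Cfsg.Prelude.Def_BaumannBlocks
import Cfsg.Agent.Lib.BlockX.QuadExists
import Cfsg.Agent.Lib.PGroup.Timmesfeld

/-! Piece Z1 of S2987, abstract core: an offender normalizes `E`. -/

namespace Cfsg.Agent.Lib.BlockZ
open Subgroup Cfsg
open Cfsg.Agent.Lib.PGroup.BaumannSect Cfsg.Agent.Lib.PGroup.BaumannNorm
open Cfsg.Agent.Lib.PGroup.ThompsonG Cfsg.Agent.Lib.PGroup.LargeSub2
open scoped commutatorElement

variable {G : Type*} [Group G]

namespace OffCore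

/-- the subgroup generated by the `A`-conjugates of `V₀` -/
def Vsub (A V₀ : Subgroup G) : Subgroup G :=
  closure {x | ∃ a ∈ A, ∃ v ∈ V₀, x = a * v * a⁻¹}

theorem Vsub_mem {A V₀ : Subgroup G} {a v : G} (ha : a ∈ A) (hv : v ∈ V₀) :
    a * v * a⁻¹ ∈ Vsub A V₀ := subset_closure ⟨a, ha, v, hv, rfl⟩

theorem le_Vsub {A V₀ : Subgroup G} {v : G} (hv : v ∈ V₀) : v ∈ Vsub A V₀ := by
  have := Vsub_mem (A := A) (one_mem A) hv
  simpa using this

theorem Vsub_le {A V₀ M : Subgroup G} (hM : M.Normal) (h : V₀ ≤ M) : Vsub A V₀ ≤ M := by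
  rw [Vsub, closure_le]
  rintro _ ⟨a, -, v, hv, rfl⟩
  exact hM.conj_mem _ (h hv) a

theorem conj_Vsub {A V₀ : Subgroup G} {a x : G} (ha : a ∈ A) (hx : x ∈ Vsub A V₀) :
    a * x * a⁻¹ ∈ Vsub A V₀ := by
  unfold Vsub at hx
  induction hx using Subgroup.closure_induction with
  | mem x hx =>
    obtain ⟨c, hc, v, hv, rfl⟩ := hx
    have : a * (c * v * c⁻¹) * a⁻¹ = (a * c) * v * (a * c)⁻¹ := by group
    rw [this]
    exact Vsub_mem (mul_mem ha hc) hv
  | one => simp [one_mem]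
  | mul x y _ _ hx hy =>
    have : a * (x * y) * a⁻¹ = (a * x * a⁻¹) * (a * y * a⁻¹) := by group
    rw [this]
    exact mul_mem hx hy
  | inv x _ hx =>
    have : a * x⁻¹ * a⁻¹ = (a * x * a⁻¹)⁻¹ := by group
    rw [this]
    exact inv_mem hx

theorem le_norm_Vsub {A V₀ : Subgroup G} : A ≤ normalizer (Vsub A V₀ : Set G) := by
  intro a ha
  rw [mem_normalizer_iff]
  intro x
  constructor
  · exact conj_Vsub ha
  · intro h
    have := conj_Vsub (inv_mem ha) h
    have e : a⁻¹ * (a * x * a⁻¹) * a⁻¹⁻¹ = x := by group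
    rwa [e] at this

end OffCore

open OffCore in
/-- Abstract offender lemma. -/
theorem offender_core [Finite G] {p : ℕ} [Fact p.Prime] {T' M E V₀ A : Subgroup G}
    (hA : A ∈ gMaxEA p T') (hMT : M ≤ T') (hMn : M.Normal) (hMe : IsElementaryAbelian p M)
    (hVM : V₀ ≤ M) (hidem : ⁅V₀, E⁆ = V₀) (hne : ¬ V₀ ≤ centralizer (E : Set G))
    (hcross : ∀ g, g ∉ normalizer (E : Set G) → ∀ v ∈ V₀, ∀ e ∈ E,
      e * (g * v * g⁻¹) = (g * v * g⁻¹) * e)
    (hnorm : normalizer (E : Set G) ≤ normalizer (V₀ : Set G))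
    (hker : ∀ b ∈ normalizer (E : Set G), (∀ v ∈ V₀, ⁅v, b⁆ ∈ centralizer (E : Set G)) →
      ∀ v ∈ V₀, b * v = v * b) :
    A ≤ normalizer (E : Set G) := by
  classical
  by_contra hnot
  obtain ⟨a₀, ha₀, hmove⟩ := SetLike.not_le_iff_exists.1 hnot
  set V := Vsub A V₀ with hVdef
  have hVM' : V ≤ M := Vsub_le hMn hVM
  have hVe : IsElementaryAbelian p V := ea_mono hMe hVM'
  have hVc : ∀ x ∈ V, ∀ y ∈ V, x * y = y * x := fun x hx y hy => ea_comm hVe hx hy
  have hAV : A ≤ normalizer (V : Set G) := le_norm_Vsub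
  have hbest := Cfsg.Agent.Lib.BlockX.QuadExists.best_of_max hA (hVM'.trans hMT) hVe
  have hAc : ∀ x ∈ A, ∀ y ∈ A, x * y = y * x := fun x hx y hy => ea_comm hA.2.1 hx hy
  -- centrality of moved pieces
  have hc1 : ∀ g, g ∉ normalizer (E : Set G) → ∀ v ∈ V₀, g * v * g⁻¹ ∈ centralizer (E : Set G) := by
    intro g hg v hv
    rw [mem_centralizer_iff]
    intro e he
    exact hcross g hg v hv e he
  have hfix : ∀ g, g ∉ normalizer (E : Set G) → ∀ v ∈ V₀, g * v = v * g →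
      v ∈ centralizer (E : Set G) := by
    intro g hg v hv h
    have h1 := hc1 g hg v hv
    have h2 : g * v * g⁻¹ = v := by rw [h]; group
    rwa [h2] at h1
  obtain ⟨v₀, hv₀, hv₀c⟩ := SetLike.not_le_iff_exists.1 hne
  have hV₀V : V₀ ≤ V := fun v hv => le_Vsub hv
  have hne1 : ⁅V, A⁆ ≠ ⊥ := by
    intro hbot
    have h1 : ⁅v₀, a₀⁆ ∈ ⁅V, A⁆ := commutator_mem_commutator (hV₀V hv₀) ha₀
    rw [hbot, mem_bot, commutatorElement_eq_one_iff_mul_comm] at h1
    exact hv₀c (hfix a₀ hmove v₀ hv₀ h1.symm)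
  obtain ⟨h1, h2, h3, h4⟩ := Cfsg.Agent.Lib.PGroup.Timmesfeld.timmesfeld V A hVe hAV hbest V le_rfl
  set A₁ := A ⊓ centralizer ((⁅V, A⁆ : Subgroup G) : Set G) with hA₁
  have hne2 := h3 hne1
  have hA₁A : A₁ ≤ A := inf_le_left
  -- commutation with [V,A]
  have hfx : ∀ b ∈ A₁, ∀ a ∈ A, ∀ x ∈ V, b * ⁅x, a⁆ = ⁅x, a⁆ * b := by
    intro b hb a ha x hx
    exact (mem_centralizer_iff.1 hb.2 _ (commutator_mem_commutator hx ha)).symm
  -- the additive relation
  have hrel : ∀ b ∈ A₁, ∀ a ∈ A, ∀ x ∈ V,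
      x * (b * (a * x * a⁻¹) * b⁻¹) = (b * x * b⁻¹) * (a * x * a⁻¹) := by
    intro b hb a ha x hx
    have hb' : b ∈ A := hA₁A hb
    have h5 := hfx b hb a ha x hx
    have hax : a * x * a⁻¹ ∈ V := conj_Vsub ha hx
    have hbx : b * x * b⁻¹ ∈ V := conj_Vsub hb' hx
    have hbax : b * (a * x * a⁻¹) * b⁻¹ ∈ V := conj_Vsub hb' hax
    have h6 : b * ⁅x, a⁆ * b⁻¹ = ⁅x, a⁆ := by rw [h5]; group
    have e1 : b * ⁅x, a⁆ * b⁻¹ = (b * x * b⁻¹) * (b * (a * x * a⁻¹) * b⁻¹)⁻¹ := by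
      rw [commutatorElement_def]; group
    have e2 : ⁅x, a⁆ = x * (a * x * a⁻¹)⁻¹ := by
      rw [commutatorElement_def]; group
    rw [e1, e2] at h6
    have h7 : (b * x * b⁻¹) * (b * (a * x * a⁻¹) * b⁻¹)⁻¹ * (b * (a * x * a⁻¹) * b⁻¹) * (a * x * a⁻¹)
        = x * (a * x * a⁻¹)⁻¹ * (b * (a * x * a⁻¹) * b⁻¹) * (a * x * a⁻¹) := by rw [h6]
    have h8 := hVc _ (inv_mem hax) _ hbax
    have h9 : x * (a * x * a⁻¹)⁻¹ * (b * (a * x * a⁻¹) * b⁻¹) * (a * x * a⁻¹)
        = x * (b * (a * x * a⁻¹) * b⁻¹) := by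
      rw [mul_assoc x, h8]; group
    rw [h9] at h7
    rw [← h7]; group
  -- (a)
  have hstepA : ∀ b ∈ A₁, b ∈ normalizer (E : Set G) → b ∈ centralizer (V : Set G) := by
    intro b hb hbN
    have hb' : b ∈ A := hA₁A hb
    have hbV₀ : ∀ v ∈ V₀, b * v = v * b := by
      apply hker b hbN
      intro v hv
      have hvV := hV₀V hv
      set w := ⁅v, b⁆ with hw
      have hwe : w = v * (b * v * b⁻¹)⁻¹ := by rw [hw, commutatorElement_def]; group
      have hwV₀ : w ∈ V₀ := by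
        rw [hwe]
        exact mul_mem hv (inv_mem ((mem_normalizer_iff.1 (hnorm hbN) v).1 hv))
      -- `a₀` fixes `w`
      have hw0 : a₀ * w = w * a₀ := by
        have hrel' := hrel b hb a₀ ha₀ v hvV
        have hba : b * a₀ = a₀ * b := hAc b hb' a₀ ha₀
        have e0 : b * (a₀ * v * a₀⁻¹) * b⁻¹ = a₀ * (b * v * b⁻¹) * a₀⁻¹ := by
          have : b * (a₀ * v * a₀⁻¹) * b⁻¹ = (b * a₀) * v * (b * a₀)⁻¹ := by group
          rw [this, hba]; group
        rw [e0] at hrel'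
        have hax : a₀ * v * a₀⁻¹ ∈ V := conj_Vsub ha₀ hvV
        have hbx : b * v * b⁻¹ ∈ V := conj_Vsub hb' hvV
        have habx : a₀ * (b * v * b⁻¹) * a₀⁻¹ ∈ V := conj_Vsub ha₀ hbx
        have e1 : a₀ * w * a₀⁻¹ = (a₀ * v * a₀⁻¹) * (a₀ * (b * v * b⁻¹) * a₀⁻¹)⁻¹ := by
          rw [hwe]; group
        have e2 : (a₀ * v * a₀⁻¹) * (a₀ * (b * v * b⁻¹) * a₀⁻¹)⁻¹ = v * (b * v * b⁻¹)⁻¹ := by
          have hv' : (b * v * b⁻¹) * (a₀ * v * a₀⁻¹) * (a₀ * (b * v * b⁻¹) * a₀⁻¹)⁻¹ = v :=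
            (eq_mul_inv_iff_mul_eq.2 hrel').symm
          have c := hVc _ hbx _ (mul_mem hax (inv_mem habx))
          calc (a₀ * v * a₀⁻¹) * (a₀ * (b * v * b⁻¹) * a₀⁻¹)⁻¹
              = ((a₀ * v * a₀⁻¹) * (a₀ * (b * v * b⁻¹) * a₀⁻¹)⁻¹) * (b * v * b⁻¹) * (b * v * b⁻¹)⁻¹ := by
                rw [mul_inv_cancel_right]
            _ = (b * v * b⁻¹) * ((a₀ * v * a₀⁻¹) * (a₀ * (b * v * b⁻¹) * a₀⁻¹)⁻¹) * (b * v * b⁻¹)⁻¹ := by
                rw [← c]
            _ = ((b * v * b⁻¹) * (a₀ * v * a₀⁻¹) * (a₀ * (b * v * b⁻¹) * a₀⁻¹)⁻¹) * (b * v * b⁻¹)⁻¹ := by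
                rw [mul_assoc (b * v * b⁻¹) (a₀ * v * a₀⁻¹)]
            _ = v * (b * v * b⁻¹)⁻¹ := by rw [hv']
        have e3 : a₀ * w * a₀⁻¹ = w := by rw [e1, e2, ← hwe]
        calc a₀ * w = (a₀ * w * a₀⁻¹) * a₀ := by group
          _ = w * a₀ := by rw [e3]
      exact hfix a₀ hmove w hwV₀ hw0
    rw [mem_centralizer_iff]
    intro x hx
    -- `x` in `Vsub`: closure induction
    have hxb : ∀ x ∈ V, x * b = b * x := by
      intro x hx
      rw [hVdef, Vsub] at hx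
      induction hx using Subgroup.closure_induction with
      | mem x hx =>
        obtain ⟨c, hc, v, hv, rfl⟩ := hx
        have h5 := hbV₀ v hv
        have h6 := hAc b hb' c hc
        calc c * v * c⁻¹ * b = c * v * (c⁻¹ * b) := by group
          _ = c * v * (b * c⁻¹) := by
              congr 1
              rw [inv_mul_eq_iff_eq_mul, ← mul_assoc, ← h6]; group
          _ = c * (v * b) * c⁻¹ := by group
          _ = c * (b * v) * c⁻¹ := by rw [h5]
          _ = (c * b) * v * c⁻¹ := by group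
          _ = (b * c) * v * c⁻¹ := by rw [h6]
          _ = b * (c * v * c⁻¹) := by group
      | one => simp
      | mul x y _ _ hx hy =>
        calc x * y * b = x * (y * b) := by group
          _ = x * (b * y) := by rw [hy]
          _ = (x * b) * y := by group
          _ = (b * x) * y := by rw [hx]
          _ = b * (x * y) := by group
      | inv x _ hx =>
        exact (Commute.inv_left hx).eq
    exact hxb x hx
  -- a moved element
  obtain ⟨b₀, hb₀, hb₀c⟩ : ∃ b ∈ A₁, b ∉ centralizer (V : Set G) := by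
    by_contra hcon
    push_neg at hcon
    apply hne2
    rw [eq_bot_iff, Subgroup.commutator_le]
    intro x hx b hb
    rw [mem_bot, commutatorElement_eq_one_iff_mul_comm]
    exact mem_centralizer_iff.1 (hcon b hb) x hx
  have hb₀N : b₀ ∉ normalizer (E : Set G) := fun h => hb₀c (hstepA b₀ hb₀ h)
  -- (c)
  have hstepC : ∀ b ∈ A₁, ∀ b' ∈ A₁, b ∉ centralizer (V : Set G) → b' ∉ centralizer (V : Set G) →
      b * b' ∈ centralizer (V : Set G) := by
    intro b hb b' hb' hbc hb'c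
    apply hstepA _ (mul_mem hb hb')
    by_contra hbb
    have hbN : b ∉ normalizer (E : Set G) := fun h => hbc (hstepA b hb h)
    have hb'N : b' ∉ normalizer (E : Set G) := fun h => hb'c (hstepA b' hb' h)
    apply hne
    intro v hv
    have hr := hrel b hb b' (hA₁A hb') v (hV₀V hv)
    have h5 := hc1 b hbN v hv
    have h6 := hc1 b' hb'N v hv
    have h7 := hc1 (b * b') hbb v hv
    have e0 : b * (b' * v * b'⁻¹) * b⁻¹ = (b * b') * v * (b * b')⁻¹ := by group
    rw [e0] at hr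
    have e1 : v = (b * v * b⁻¹) * (b' * v * b'⁻¹) * ((b * b') * v * (b * b')⁻¹)⁻¹ := by
      rw [eq_mul_inv_iff_mul_eq]; exact hr
    rw [e1]
    exact mul_mem (mul_mem h5 h6) (inv_mem h7)
  -- index computation
  set K := A₁ ⊓ centralizer (V : Set G) with hK
  have hidx : K.relIndex A₁ = 2 := by
    have : (K.subgroupOf A₁).index = 2 := by
      rw [Subgroup.index_eq_two_iff]
      refine ⟨⟨b₀, hb₀⟩, fun x => ?_⟩
      have hb₀K : (⟨b₀, hb₀⟩ : A₁) ∉ K.subgroupOf A₁ := by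
        rw [mem_subgroupOf]
        exact fun h => hb₀c h.2
      by_cases hx : x ∈ K.subgroupOf A₁
      · refine Or.inr ⟨hx, fun h => hb₀K ?_⟩
        have := mul_mem (inv_mem hx) h
        simpa using this
      · refine Or.inl ⟨?_, hx⟩
        rw [mem_subgroupOf] at hx ⊢
        refine ⟨mul_mem x.2 hb₀, ?_⟩
        apply hstepC _ x.2 _ hb₀ (fun h => hx ⟨x.2, h⟩) hb₀c
    exact this
  have hcard1 : Nat.card K * 2 = Nat.card A₁ := by
    rw [← hidx]
    exact Cfsg.Agent.Lib.PGroup.Timmesfeld.card_mul_relIndex' inf_le_left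
  have hVCK : V ⊓ centralizer (K : Set G) = V := by
    refine inf_eq_left.2 (fun x hx => mem_centralizer_iff.2 fun k hk => ?_)
    exact (mem_centralizer_iff.1 hk.2 x hx).symm
  have hineq := h1.1 K inf_le_left
  rw [hVCK] at hineq
  set D := V ⊓ centralizer (A₁ : Set G) with hD
  have hDV : D ≤ V := inf_le_left
  have hcard2 : Nat.card V ≤ 2 * Nat.card D := by
    rw [← hcard1] at hineq
    have hKpos : 0 < Nat.card K := Nat.card_pos
    have : Nat.card K * Nat.card V ≤ Nat.card K * (2 * Nat.card D) := by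
      calc Nat.card K * Nat.card V ≤ Nat.card K * 2 * Nat.card D := hineq
        _ = _ := by ring
    exact Nat.le_of_mul_le_mul_left this hKpos
  have hnotD : ∀ v ∈ V₀, v ∉ centralizer (E : Set G) → v ∉ D := by
    intro v hv hvc hvD
    apply hvc
    apply hfix b₀ hb₀N v hv
    exact (mem_centralizer_iff.1 hvD.2 b₀ hb₀)
  have hindex : (D.subgroupOf V).index = 2 := by
    have h5 : Nat.card D * (D.relIndex V) = Nat.card V :=
      Cfsg.Agent.Lib.PGroup.Timmesfeld.card_mul_relIndex' hDV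
    have hDpos : 0 < Nat.card D := Nat.card_pos
    have h6 : D.relIndex V ≤ 2 := by
      rw [← h5, mul_comm] at hcard2
      exact Nat.le_of_mul_le_mul_right hcard2 hDpos
    have h7 : D.relIndex V ≠ 0 := by
      intro h
      rw [h] at h5
      have : 0 < Nat.card V := Nat.card_pos
      omega
    have h8 : D.relIndex V ≠ 1 := by
      intro h
      have h9 : (D.subgroupOf V) = ⊤ := Subgroup.index_eq_one.1 h
      have h10 : (⟨v₀, hV₀V hv₀⟩ : V) ∈ D.subgroupOf V := by rw [h9]; exact mem_top _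
      exact hnotD v₀ hv₀ hv₀c (mem_subgroupOf.1 h10)
    show D.relIndex V = 2
    omega
  have hdiff : ∀ v ∈ V₀, ∀ w ∈ V₀, v ∉ centralizer (E : Set G) → w ∉ centralizer (E : Set G) →
      v * w⁻¹ ∈ centralizer (E : Set G) := by
    intro v hv w hw hvc hwc
    have hvw : v * w⁻¹ ∈ V₀ := mul_mem hv (inv_mem hw)
    apply hfix b₀ hb₀N _ hvw
    have h5 : (⟨v, hV₀V hv⟩ * (⟨w, hV₀V hw⟩ : V)⁻¹ : V) ∈ D.subgroupOf V := by
      rw [Subgroup.mul_mem_iff_of_index_two hindex]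
      constructor
      · intro h; exact absurd (mem_subgroupOf.1 h) (hnotD v hv hvc)
      · intro h
        have h6 := mem_subgroupOf.1 h
        have h7 : w⁻¹ ∈ D := h6
        exact absurd (by simpa using inv_mem h7) (hnotD w hw hwc)
    have h6 : v * w⁻¹ ∈ D := mem_subgroupOf.1 h5
    exact mem_centralizer_iff.1 h6.2 b₀ hb₀
  have hEV : ∀ e ∈ E, ∀ v ∈ V₀, e * v * e⁻¹ ∈ V₀ := by
    intro e he v hv
    have h5 : ⁅v, e⁆ ∈ V₀ := by
      rw [← hidem]
      exact commutator_mem_commutator hv he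
    have e1 : e * v * e⁻¹ = ⁅v, e⁆⁻¹ * v := by
      rw [commutatorElement_def]; group
    rw [e1]
    exact mul_mem (inv_mem h5) hv
  apply hne
  rw [← hidem]
  rw [Subgroup.commutator_le]
  intro v hv e he
  by_cases hvc : v ∈ centralizer (E : Set G)
  · have : ⁅v, e⁆ = 1 := by
      rw [commutatorElement_eq_one_iff_mul_comm]
      exact (mem_centralizer_iff.1 hvc e he).symm
    rw [this]
    exact one_mem _
  · have hw := hEV e he v hv
    have hwc : e * v * e⁻¹ ∉ centralizer (E : Set G) := by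
      intro h
      apply hvc
      rw [mem_centralizer_iff]
      intro x hx
      have h5 := mem_centralizer_iff.1 h (e * x * e⁻¹) (mul_mem (mul_mem he hx) (inv_mem he))
      have e1 : e * x * e⁻¹ * (e * v * e⁻¹) = e * (x * v) * e⁻¹ := by group
      have e2 : e * v * e⁻¹ * (e * x * e⁻¹) = e * (v * x) * e⁻¹ := by group
      rw [e1, e2] at h5
      exact mul_left_cancel (mul_right_cancel h5)
    have h5 := hdiff v hv _ hw hvc hwc
    have e1 : ⁅v, e⁆ = v * (e * v * e⁻¹)⁻¹ := by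
      rw [commutatorElement_def]; group
    rw [e1]
    exact h5

end Cfsg.Agent.Lib.BlockZ
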