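import Mathlib
import Cfsg.Prelude.Def_BaumannBlocks
import Cfsg.Agent.Lib.BlockY.Facts
import Cfsg.Agent.Lib.BlockZ.OffenderCore

/-! Piece Z1 of S2987: offenders normalize a subnormal block. -/

namespace Cfsg.Agent.Lib.BlockZ
open Subgroup Cfsg
open Cfsg.Agent.Lib.PGroup.BaumannSect Cfsg.Agent.Lib.PGroup.BaumannNorm
open Cfsg.Agent.Lib.PGroup.LargeSub2 Cfsg.Agent.Lib.Basic.PCore
open Cfsg.Agent.Lib.PGroup.ThompsonG
open Cfsg.Agent.Lib.BlockY
open scoped commutatorElement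

variable {G : Type*} [Group G] [Finite G] {p : ℕ} [Fact p.Prime] {E : Subgroup G}

theorem V_le_W : VV p E ≤ WW p E := by
  show ⁅omegaOneCenter p (pCoreOf p E), E⁆ ≤ omegaOneCenter p (pCoreOf p E)
  rw [Subgroup.commutator_le]
  intro w hw e he
  have h1 : e ∈ normalizer (omegaOneCenter p (pCoreOf p E) : Set G) :=
    normalizer_le_omegaOneCenter _ (normalizer_le_normalizer_pCoreOf E (le_normalizer he))
  have : ⁅w, e⁆ = w * (e * w⁻¹ * e⁻¹) := by rw [commutatorElement_def]; group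
  rw [this]
  exact mul_mem hw ((mem_normalizer_iff.1 h1 _).1 (inv_mem hw))

theorem W_le_E : WW p E ≤ E := (omegaOneCenter_le _).trans (pCoreOf_le E)

theorem V_le_E : VV p E ≤ E := by
  show ⁅omegaOneCenter p (pCoreOf p E), E⁆ ≤ E
  rw [Subgroup.commutator_le]
  intro w hw e he
  have hw' : w ∈ E := W_le_E hw
  rw [commutatorElement_def]
  exact mul_mem (mul_mem (mul_mem hw' he) (inv_mem hw')) (inv_mem he)

theorem V_comm {x y : G} (hx : x ∈ VV p E) (hy : y ∈ VV p E) : x * y = y * x :=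
  omegaOneCenter_comm (V_le_W hx) (V_le_W hy)

theorem V_pow {x : G} (hx : x ∈ VV p E) : x ^ p = 1 :=
  pow_of_mem_omegaOneCenter (V_le_W hx)

/-- A1 -/
theorem V_idem (hG : centralizer (YY p G : Set G) ≤ YY p G) (T : Sylow p G)
    (hE : IsBaumannBlock p (T : Subgroup G) E) : ⁅VV p E, E⁆ = VV p E := by
  rcases hE.2.2.2.2 with ⟨F', _, _, n, hc', hiso, hact, hQW | hexc⟩ | ⟨hp2, m, hiso, hact, hQW⟩
  · rw [VV_eq_of_Q_eq_W hE.2.2.1 hQW]; exact hE.2.2.1
  · obtain ⟨hp3, h2, h3, -, h4, h5, h6⟩ := hexc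
    subst hp3
    have hn0 : n ≠ 0 := by
      rintro rfl
      have h1 : 1 < Fintype.card F' := Fintype.one_lt_card
      simp [hc'] at h1
    haveI : CharP F' 3 := charP_of_card_eq_prime_pow hc'
    obtain ⟨r⟩ := Cfsg.Agent.Lib.BlockX.raw_of_block hG T E hE hc' hiso hact h2 h3 h4 h5 h6
    have hdec := r.W_decomp.1
    apply le_antisymm
    · exact Subgroup.commutator_mono V_le_W le_rfl
    · show ⁅omegaOneCenter 3 (pCoreOf 3 E), E⁆ ≤ ⁅VV 3 E, E⁆
      rw [Subgroup.commutator_le]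
      intro w hw e he
      obtain ⟨v, hv, z, hz, rfl⟩ := hdec w hw
      have h7 : e * z = z * e := mem_centralizer_iff.1 hz.2 e he
      have h8 : ⁅v * z, e⁆ = ⁅v, e⁆ := by
        simp only [commutatorElement_def]
        calc v * z * e * (v * z)⁻¹ * e⁻¹ = v * (z * e) * z⁻¹ * v⁻¹ * e⁻¹ := by group
          _ = v * (e * z) * z⁻¹ * v⁻¹ * e⁻¹ := by rw [h7]
          _ = v * e * v⁻¹ * e⁻¹ := by group
      rw [h8]
      exact commutator_mem_commutator hv he
  · rw [VV_eq_of_Q_eq_W hE.2.2.1 hQW]; exact hE.2.2.1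

theorem omega_le_M (hG : centralizer (YY p G : Set G) ≤ YY p G) (T : Sylow p G) :
    omegaOneCenter p (T : Subgroup G) ≤ MM p G := by
  intro x hx
  have hYT : YY p G ≤ T := pCore_le_sylow T
  have h1 : x ∈ centralizer (YY p G : Set G) := by
    rw [mem_centralizer_iff]
    intro y hy
    exact mem_centralizer_iff.1 (omegaOneCenter_le_cent _ hx) y (hYT hy)
  exact mem_omegaOneCenter (hG h1) h1 (pow_of_mem_omegaOneCenter hx)

theorem V_not_le (hG : centralizer (YY p G : Set G) ≤ YY p G) (T : Sylow p G)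
    (hE : IsBaumannBlock p (T : Subgroup G) E) (hEs : E.IsSubnormal) :
    ¬ VV p E ≤ centralizer (E : Set G) := by
  intro h
  have h0 : VV p E = ⊥ := by
    rw [← V_idem hG T hE, eq_bot_iff, Subgroup.commutator_le]
    intro v hv e he
    rw [mem_bot, commutatorElement_eq_one_iff_mul_comm]
    exact (mem_centralizer_iff.1 (h hv) e he).symm
  apply hE.2.2.2.1
  rw [eq_bot_iff, Subgroup.commutator_le]
  intro e he x hx
  have h1 := M_comm_mem hG T hE hEs x (omega_le_M hG T hx) e he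
  rw [h0, mem_bot, commutatorElement_eq_one_iff_mul_comm] at h1
  rw [mem_bot, commutatorElement_eq_one_iff_mul_comm]
  exact h1.symm

theorem norm_V : normalizer (E : Set G) ≤ normalizer (VV p E : Set G) := by
  intro g hg
  apply mem_normalizer_commutator _ hg
  exact normalizer_le_omegaOneCenter _ (normalizer_le_normalizer_pCoreOf E hg)

/-- the kernel on `V/(V ∩ Z)` -/
theorem ker_VZ (hG : centralizer (YY p G : Set G) ≤ YY p G) (T : Sylow p G)
    (hE : IsBaumannBlock p (T : Subgroup G) E) (hEs : E.IsSubnormal) {f : G} (hf : f ∈ E)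
    (hfV : ∀ v ∈ VV p E, ⁅v, f⁆ ∈ centralizer (E : Set G)) : f ∈ QQ p E := by
  have hcE : ∀ c ∈ centralizer (E : Set G), ∀ e ∈ E, e * c * e⁻¹ = c := by
    intro c hc e he
    rw [(mem_centralizer_iff.1 hc e he)]; group
  let X : Subgroup G :=
    { carrier := {e | e ∈ E ∧ ∀ v ∈ VV p E, ⁅v, e⁆ ∈ centralizer (E : Set G)}
      one_mem' := ⟨E.one_mem, fun v _ => by simp [one_mem]⟩
      mul_mem' := by
        rintro a b ⟨ha, ha'⟩ ⟨hb, hb'⟩
        refine ⟨E.mul_mem ha hb, fun v hv => ?_⟩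
        have h1 : ⁅v, a * b⁆ = ⁅v, a⁆ * (a * ⁅v, b⁆ * a⁻¹) := by
          simp only [commutatorElement_def]; group
        rw [h1, hcE _ (hb' v hv) a ha]
        exact mul_mem (ha' v hv) (hb' v hv)
      inv_mem' := by
        rintro a ⟨ha, ha'⟩
        refine ⟨E.inv_mem ha, fun v hv => ?_⟩
        have h1 : ⁅v, a⁻¹⁆ = a⁻¹ * ⁅v, a⁆⁻¹ * a := by
          simp only [commutatorElement_def]; group
        rw [h1]
        have h2 := hcE _ (inv_mem (ha' v hv)) a⁻¹ (E.inv_mem ha)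
        rw [inv_inv] at h2
        rw [h2]
        exact inv_mem (ha' v hv) }
  have hXE : X ≤ E := fun x hx => hx.1
  have hVE : ∀ e ∈ E, ∀ v ∈ VV p E, e * v * e⁻¹ ∈ VV p E := fun e he v hv =>
    (mem_normalizer_iff.1 (norm_V (le_normalizer he)) v).1 hv
  have hXp : IsPGroup p X := by
    rintro ⟨x, hx, hxV⟩
    have hpow : x ^ p ∈ QQ p E := by
      apply ker_V hG T hE hEs _ (pow_mem hx p)
      rw [mem_centralizer_iff]
      intro v hv
      set d := ⁅v, x⁆ with hd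
      have hdV : d ∈ VV p E := by
        rw [← V_idem hG T hE]
        exact commutator_mem_commutator hv hx
      have hdc : x * d = d * x := mem_centralizer_iff.1 (hxV v hv) x hx
      have h1 : x * v * x⁻¹ = d⁻¹ * v := by
        rw [hd, commutatorElement_def]; group
      have h2 : ∀ n : ℕ, x ^ n * v * (x ^ n)⁻¹ = d⁻¹ ^ n * v := by
        intro n
        induction n with
        | zero => simp
        | succ n ih =>
          have h3 : x ^ (n + 1) * v * (x ^ (n + 1))⁻¹ = x * (x ^ n * v * (x ^ n)⁻¹) * x⁻¹ := by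
            rw [pow_succ']; group
          rw [h3, ih]
          have h4 : x * (d⁻¹ ^ n * v) * x⁻¹ = (x * d⁻¹ ^ n * x⁻¹) * (x * v * x⁻¹) := by group
          have h5 : x * d⁻¹ ^ n * x⁻¹ = d⁻¹ ^ n := by
            have hc : Commute x (d⁻¹ ^ n) := ((show Commute x d from hdc).inv_right).pow_right n
            rw [hc.eq]; group
          rw [h4, h5, h1, pow_succ, mul_assoc]
      have h3 := h2 p
      rw [inv_pow, V_pow hdV] at h3
      have h4 : x ^ p * v = v * x ^ p := by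
        calc x ^ p * v = (x ^ p * v * (x ^ p)⁻¹) * x ^ p := by group
          _ = v * x ^ p := by rw [h3]; simp
      exact h4.symm
    obtain ⟨k, hk⟩ := (isPGroup_pCoreOf E) ⟨x ^ p, hpow⟩
    refine ⟨k + 1, ?_⟩
    apply Subtype.ext
    have h5 : (x ^ p) ^ p ^ k = 1 := by
      have := congrArg Subtype.val hk
      simpa using this
    show x ^ p ^ (k + 1) = 1
    rw [pow_succ', pow_mul]
    exact h5
  have hXn : E ≤ normalizer (X : Set G) := by
    intro e he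
    rw [mem_normalizer_iff]
    have key : ∀ e ∈ E, ∀ x ∈ X, e * x * e⁻¹ ∈ X := by
      intro e he x hx
      refine ⟨mul_mem (mul_mem he hx.1) (inv_mem he), fun v hv => ?_⟩
      have h1 : ⁅v, e * x * e⁻¹⁆ = e * ⁅e⁻¹ * v * e, x⁆ * e⁻¹ := by
        simp only [commutatorElement_def]; group
      rw [h1]
      have h2 : e⁻¹ * v * e ∈ VV p E := by
        have := hVE e⁻¹ (inv_mem he) v hv
        simpa using this
      rw [hcE _ (hx.2 _ h2) e he]
      exact hx.2 _ h2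
    intro x
    constructor
    · exact key e he x
    · intro h
      have := key e⁻¹ (inv_mem he) _ h
      have e1 : e⁻¹ * (e * x * e⁻¹) * e⁻¹⁻¹ = x := by group
      rwa [e1] at this
  exact (le_pCoreOf hXE hXp hXn) ⟨hf, hfV⟩

/-- step (a) in the offender argument: trivial on `V/(V ∩ Z)` means trivial on `V`. -/
theorem ker_of_norm (hG : centralizer (YY p G : Set G) ≤ YY p G) (T : Sylow p G)
    (hE : IsBaumannBlock p (T : Subgroup G) E) (hEs : E.IsSubnormal) {b : G}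
    (hb : b ∈ normalizer (E : Set G)) (hbV : ∀ v ∈ VV p E, ⁅v, b⁆ ∈ centralizer (E : Set G)) :
    ∀ v ∈ VV p E, b * v = v * b := by
  set V := VV p E with hV
  set C := centralizer (E : Set G) with hC
  have hbV₁ : ∀ v ∈ V, b * v * b⁻¹ ∈ V := fun v hv => (mem_normalizer_iff.1 (norm_V hb) v).1 hv
  have hVE : ∀ e ∈ E, ∀ v ∈ V, e * v * e⁻¹ ∈ V := fun e he v hv =>
    (mem_normalizer_iff.1 (norm_V (le_normalizer he)) v).1 hv
  have hVb' : ∀ v ∈ V, b⁻¹ * v * b ∈ V := by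
    intro v hv
    have := (mem_normalizer_iff.1 (norm_V (inv_mem hb)) v).1 hv
    simpa using this
  have hCE : ∀ c ∈ C, ∀ e ∈ E, e * c = c * e := fun c hc e he => mem_centralizer_iff.1 hc e he
  have hDb : ∀ c ∈ C, b * c * b⁻¹ ∈ C := by
    intro c hc
    rw [hC, mem_centralizer_iff]
    intro e he
    have h1 : b⁻¹ * e * b ∈ E := by
      have := (mem_normalizer_iff.1 (inv_mem hb) e).1 he
      simpa using this
    have h2 := mem_centralizer_iff.1 hc _ h1
    calc e * (b * c * b⁻¹) = b * ((b⁻¹ * e * b) * c) * b⁻¹ := by group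
      _ = b * (c * (b⁻¹ * e * b)) * b⁻¹ := by rw [h2]
      _ = _ := by group
  have hDb' : ∀ c ∈ C, b⁻¹ * c * b ∈ C := by
    intro c hc
    rw [hC, mem_centralizer_iff]
    intro e he
    have h1 : b * e * b⁻¹ ∈ E := (mem_normalizer_iff.1 hb e).1 he
    have h2 := mem_centralizer_iff.1 hc _ h1
    calc e * (b⁻¹ * c * b) = b⁻¹ * ((b * e * b⁻¹) * c) * b := by group
      _ = b⁻¹ * (c * (b * e * b⁻¹)) * b := by rw [h2]
      _ = _ := by group
  -- the commutator `⁅b, e⁆` lies in `Q`.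
  have hbe : ∀ e ∈ E, b * e * b⁻¹ * e⁻¹ ∈ QQ p E := by
    intro e he
    have h1 : b * e * b⁻¹ ∈ E := (mem_normalizer_iff.1 hb e).1 he
    apply ker_VZ hG T hE hEs (mul_mem h1 (inv_mem he))
    intro v hv
    -- a chain of congruences modulo `C`
    set u := e⁻¹ * v * e with hu
    have huV : u ∈ V := by
      have := hVE e⁻¹ (inv_mem he) v hv
      simpa using this
    -- `b⁻¹ u b = c₁ u`
    have hc₁ : u * (b⁻¹ * u * b)⁻¹ ∈ C := by
      have h2 := hbV _ (hVb' u huV)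
      have e1 : ⁅b⁻¹ * u * b, b⁆ = (b⁻¹ * u * b) * u⁻¹ := by
        rw [commutatorElement_def]; group
      rw [e1] at h2
      have h3 := inv_mem h2
      have e2 : ((b⁻¹ * u * b) * u⁻¹)⁻¹ = u * (b⁻¹ * u * b)⁻¹ := by group
      rwa [e2] at h3
    set c₁ := u * (b⁻¹ * u * b)⁻¹ with hc₁d
    have h2 : b⁻¹ * u * b = c₁⁻¹ * u := by rw [hc₁d]; group
    -- `e (b⁻¹ u b) e⁻¹ = c₁⁻¹ v`
    have h3 : e * (b⁻¹ * u * b) * e⁻¹ = c₁⁻¹ * v := by
      rw [h2]
      have h4 : e * c₁⁻¹ = c₁⁻¹ * e := hCE _ (inv_mem hc₁) e he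
      calc e * (c₁⁻¹ * u) * e⁻¹ = (e * c₁⁻¹) * u * e⁻¹ := by group
        _ = (c₁⁻¹ * e) * u * e⁻¹ := by rw [h4]
        _ = c₁⁻¹ * v := by rw [hu]; group
    have h5 : b * v * b⁻¹ = ⁅v, b⁆⁻¹ * v := by
      rw [commutatorElement_def]; group
    set f := b * e * b⁻¹ * e⁻¹ with hf
    have h6 : f * v * f⁻¹ = (b * c₁⁻¹ * b⁻¹) * ⁅v, b⁆⁻¹ * v := by
      calc f * v * f⁻¹ = b * (e * (b⁻¹ * u * b) * e⁻¹) * b⁻¹ := by rw [hf, hu]; group
        _ = b * (c₁⁻¹ * v) * b⁻¹ := by rw [h3]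
        _ = (b * c₁⁻¹ * b⁻¹) * (b * v * b⁻¹) := by group
        _ = _ := by rw [h5]; group
    have h7 : ⁅v, f⁆ = ((b * c₁⁻¹ * b⁻¹) * ⁅v, b⁆⁻¹)⁻¹ := by
      have e1 : ⁅v, f⁆ = v * (f * v * f⁻¹)⁻¹ := by rw [commutatorElement_def]; group
      rw [e1, h6]; group
    rw [h7]
    exact inv_mem (mul_mem (hDb _ (inv_mem hc₁)) (inv_mem (hbV v hv)))
  have hfin : V ≤ centralizer ({b} : Set G) := by
    rw [hV, ← V_idem hG T hE, ← hV, Subgroup.commutator_le]
    intro v hv e he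
    rw [mem_centralizer_iff]
    intro g hg
    rw [Set.mem_singleton_iff.1 hg]
    set c := b * e * b⁻¹ * e⁻¹ with hc
    have hcQ : c ∈ QQ p E := hbe e he
    have hcV : ∀ w ∈ V, c * w = w * c := fun w hw =>
      mem_centralizer_iff.1 (omegaOneCenter_le_cent _ (V_le_W hw)) c hcQ
    have hbee : b * e * b⁻¹ = c * e := by rw [hc]; group
    have hstar : ∀ w ∈ V, (b * e * b⁻¹) * w * (b * e * b⁻¹)⁻¹ = e * w * e⁻¹ := by
      intro w hw
      rw [hbee]
      have h1 := hcV _ (hVE e he w hw)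
      calc c * e * w * (c * e)⁻¹ = (c * (e * w * e⁻¹)) * c⁻¹ := by group
        _ = ((e * w * e⁻¹) * c) * c⁻¹ := by rw [h1]
        _ = _ := by group
    set δ := ⁅v, b⁆ with hδ
    have hδe : δ = v * (b * v * b⁻¹)⁻¹ := by rw [hδ, commutatorElement_def]; group
    have hδV : δ ∈ V := by
      rw [hδe]
      exact mul_mem hv (inv_mem (hbV₁ v hv))
    have hδC : δ ∈ C := hbV v hv
    have h1 : b * v * b⁻¹ = δ⁻¹ * v := by rw [hδ, commutatorElement_def]; group
    have hbe' : b * e * b⁻¹ ∈ E := (mem_normalizer_iff.1 hb e).1 he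
    have h2 : b * (e * v * e⁻¹) * b⁻¹ = δ⁻¹ * (e * v * e⁻¹) := by
      have hcomm : (b * e * b⁻¹) * δ⁻¹ = δ⁻¹ * (b * e * b⁻¹) := hCE _ (inv_mem hδC) _ hbe'
      calc b * (e * v * e⁻¹) * b⁻¹
          = (b * e * b⁻¹) * (b * v * b⁻¹) * (b * e * b⁻¹)⁻¹ := by group
        _ = (b * e * b⁻¹) * (δ⁻¹ * v) * (b * e * b⁻¹)⁻¹ := by rw [h1]
        _ = ((b * e * b⁻¹) * δ⁻¹) * v * (b * e * b⁻¹)⁻¹ := by group
        _ = (δ⁻¹ * (b * e * b⁻¹)) * v * (b * e * b⁻¹)⁻¹ := by rw [hcomm]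
        _ = δ⁻¹ * ((b * e * b⁻¹) * v * (b * e * b⁻¹)⁻¹) := by group
        _ = _ := by rw [hstar v hv]
    have hfix : b * ⁅v, e⁆ * b⁻¹ = ⁅v, e⁆ := by
      have e1 : ⁅v, e⁆ = v * (e * v * e⁻¹)⁻¹ := by rw [commutatorElement_def]; group
      have e2 : b * (v * (e * v * e⁻¹)⁻¹) * b⁻¹ = (b * v * b⁻¹) * (b * (e * v * e⁻¹) * b⁻¹)⁻¹ := by group
      rw [e1, e2, h1, h2]
      have hy : v * (e * v * e⁻¹)⁻¹ ∈ V := mul_mem hv (inv_mem (hVE e he v hv))
      have c2 : δ * (v * (e * v * e⁻¹)⁻¹) = (v * (e * v * e⁻¹)⁻¹) * δ := V_comm hδV hy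
      calc δ⁻¹ * v * (δ⁻¹ * (e * v * e⁻¹))⁻¹ = δ⁻¹ * ((v * (e * v * e⁻¹)⁻¹) * δ) := by group
        _ = δ⁻¹ * (δ * (v * (e * v * e⁻¹)⁻¹)) := by rw [c2]
        _ = _ := by group
    calc b * ⁅v, e⁆ = (b * ⁅v, e⁆ * b⁻¹) * b := by group
      _ = ⁅v, e⁆ * b := by rw [hfix]
  intro v hv
  exact (mem_centralizer_iff.1 (hfin hv) b (Set.mem_singleton b))

/-- A3 with the two-block theorem as a hypothesis. -/
theorem offender_of_cross (hG : centralizer (YY p G : Set G) ≤ YY p G) (T : Sylow p G)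
    (hE : IsBaumannBlock p (T : Subgroup G) E) (hEs : E.IsSubnormal)
    (hS : ∀ g : G, cjg g E = E ∨ ⁅E, cjg g E⁆ = ⊥) (T' : Sylow p G) {A : Subgroup G}
    (hA : A ∈ gMaxEA p (T' : Subgroup G)) : A ≤ normalizer (E : Set G) := by
  refine offender_core (V₀ := VV p E) (M := MM p G) hA
    ((omegaOneCenter_le _).trans (pCore_le_sylow T')) (MM_normal p) (omegaOneCenter_ea _)
    (V_le_M hG T hE) (V_idem hG T hE) (V_not_le hG T hE hEs) ?_ norm_V
    (fun b hb h => ker_of_norm hG T hE hEs hb h)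
  intro g hg v hv e he
  have h1 : cjg g E ≠ E := fun h => hg (mem_normalizer_iff_cjg.2 h)
  have h2 := (hS g).resolve_left h1
  have h3 : g * v * g⁻¹ ∈ cjg g E := by
    rw [mem_cjg]
    have : g⁻¹ * (g * v * g⁻¹) * g = v := by group
    rw [this]
    exact V_le_E hv
  have h4 : ⁅e, g * v * g⁻¹⁆ ∈ ⁅E, cjg g E⁆ := commutator_mem_commutator he h3
  rw [h2, mem_bot, commutatorElement_eq_one_iff_mul_comm] at h4
  exact h4

/-- A4 with the two-block theorem as a hypothesis. -/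
theorem thompson_of_cross (hG : centralizer (YY p G : Set G) ≤ YY p G) (T : Sylow p G)
    (hE : IsBaumannBlock p (T : Subgroup G) E) (hEs : E.IsSubnormal)
    (hS : ∀ g : G, cjg g E = E ∨ ⁅E, cjg g E⁆ = ⊥) (T' : Sylow p G) :
    thompsonSubgroupOf p (T' : Subgroup G) ≤ normalizer (E : Set G) :=
  thompsonSubgroupOf_le_iff.2 fun _ hA => offender_of_cross hG T hE hEs hS T' hA

end Cfsg.Agent.Lib.BlockZ
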