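import Mathlib
import Cfsg.Prelude.Def_BaumannBlocks
import Cfsg.Agent.Lib.BlockX.RawQuad

/-! Piece CB of S2987 (Z4 cover): pure algebra on `F2 𝔽`: additive maps normalizing `SL₂(𝔽)`. -/

set_option autoImplicit false

namespace Cfsg.Agent.Lib.BlockZ
open Subgroup Cfsg Matrix Cfsg.Agent.Lib.BlockX
open RawQuad

section pure
variable {𝔽 : Type*} [Field 𝔽]

namespace SemiLinAux

lemma f_zero {f : F2 𝔽 → F2 𝔽} (hadd : ∀ x y, f (x + y) = f x + f y) : f 0 = 0 := by
  have := hadd 0 0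
  rw [add_zero] at this
  simpa using this

/-- Independent vectors go to independent vectors. -/
lemma indep {f : F2 𝔽 → F2 𝔽} (hadd : ∀ x y, f (x + y) = f x + f y)
    (hinj : Function.Injective f)
    (hK : ∀ k : SL2 𝔽, ∃ k' : SL2 𝔽, ∀ x, f (sact k x) = sact k' (f x)) {x y : F2 𝔽}
    (hxy : dt x y ≠ 0) : dt (f x) (f y) ≠ 0 := by
  intro h0
  have hf0 := f_zero hadd
  have hx : x ≠ 0 := by
    rintro rfl
    exact hxy (by simp [dt])
  have hfx : f x ≠ 0 := fun h => hx (hinj (h.trans hf0.symm))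
  obtain ⟨c, hc⟩ := eq_smul_of_dt hfx h0
  obtain ⟨k', hk'⟩ := hK (trans x)
  have h1 : sact k' (f x) = f x := by
    rw [← hk', sact_trans, dt_self, zero_smul, add_zero]
  have h2 : sact k' (f y) = f y := by
    rw [hc, sact_smul, h1]
  have h3 := hk' y
  rw [h2, sact_trans, hadd] at h3
  have h4 : f (dt x y • x) = 0 := by
    have : f y + f (dt x y • x) = f y + 0 := by rw [add_zero]; exact h3
    exact add_left_cancel this
  have h5 := hinj (h4.trans hf0.symm)
  rcases smul_eq_zero.1 h5 with h6 | h6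
  · exact hxy h6
  · exact hx h6

/-- The scalar on an independent pair agrees. -/
lemma scalar_eq {f : F2 𝔽 → F2 𝔽} (hadd : ∀ x y, f (x + y) = f x + f y)
    (hinj : Function.Injective f)
    (hK : ∀ k : SL2 𝔽, ∃ k' : SL2 𝔽, ∀ x, f (sact k x) = sact k' (f x)) {x y : F2 𝔽}
    (hxy : dt x y ≠ 0) {l a b : 𝔽} (ha : f (l • x) = a • f x) (hb : f (l • y) = b • f y) : a = b := by
  have hf0 := f_zero hadd
  have hsum : x + y ≠ 0 := by
    intro h0
    have : dt x (x + y) = dt x y := by rw [dt_add_right, dt_self, zero_add]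
    rw [h0] at this
    exact hxy (this.symm.trans (by simp [dt]))
  have hfs : f (x + y) ≠ 0 := fun h => hsum (hinj (h.trans hf0.symm))
  obtain ⟨g, hg⟩ := eq_smul_of_dt hfs (line_pres hinj hK hsum l)
  rw [smul_add, hadd, ha, hb, hadd] at hg
  have e : (a - g) • f x + (b - g) • f y = 0 := by
    have : (a - g) • f x + (b - g) • f y = a • f x + b • f y - g • (f x + f y) := by
      simp only [sub_smul, smul_add]
      abel
    rw [this, hg, sub_self]
  obtain ⟨e1, e2⟩ := indep_coeff (indep hadd hinj hK hxy) e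
  rw [sub_eq_zero.1 e1, sub_eq_zero.1 e2]

end SemiLinAux

open SemiLinAux in
/-- CB1. Fundamental theorem: an additive injective map normalizing SL₂ is semilinear. -/
theorem semilinear_of_normalizes {f : F2 𝔽 → F2 𝔽} (hadd : ∀ x y, f (x + y) = f x + f y)
    (hinj : Function.Injective f)
    (hK : ∀ k : SL2 𝔽, ∃ k' : SL2 𝔽, ∀ x, f (sact k x) = sact k' (f x)) :
    ∃ σ : 𝔽 →+* 𝔽, ∀ (l : 𝔽) x, f (l • x) = σ l • f x := by
  classical
  have hf0 := f_zero hadd
  have hfne : ∀ {x : F2 𝔽}, x ≠ 0 → f x ≠ 0 := fun {x} hx h => hx (hinj (h.trans hf0.symm))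
  let e₀ : F2 𝔽 := Pi.single 0 1
  have he₀ : e₀ ≠ 0 := by
    intro h
    have := congrFun h 0
    simp [e₀] at this
  have hex : ∀ (x : F2 𝔽), x ≠ 0 → ∀ l : 𝔽, ∃ c : 𝔽, f (l • x) = c • f x := fun x hx l =>
    eq_smul_of_dt (hfne hx) (line_pres hinj hK hx l)
  choose! s hs using fun l => hex e₀ he₀ l
  have hs' : ∀ l, f (l • e₀) = s l • f e₀ := fun l => hex e₀ he₀ l |>.choose_spec ▸ hs l
  have hall : ∀ (l : 𝔽) x, f (l • x) = s l • f x := by
    intro l x
    by_cases hx : x = 0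
    · subst hx
      simp [hf0]
    obtain ⟨c, hc⟩ := hex x hx l
    obtain ⟨y, hy⟩ := exists_dt_ne he₀
    obtain ⟨w, hw⟩ := exists_dt_ne hx
    -- first a vector independent of both
    have key : ∀ (z : F2 𝔽), dt e₀ z ≠ 0 → ∀ d, f (l • z) = d • f z → d = s l := by
      intro z hz d hd
      exact (scalar_eq hadd hinj hK hz (hs' l) hd).symm
    by_cases hxe : dt e₀ x = 0
    · -- `x` is a multiple of `e₀`
      obtain ⟨t, ht⟩ := eq_smul_of_dt he₀ hxe
      obtain ⟨d, hd⟩ := hex y (by rintro rfl; exact hy (by simp [dt])) l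
      have h1 := key y hy d hd
      have hxy : dt x y ≠ 0 := by
        rw [ht, dt_smul_left]
        refine mul_ne_zero ?_ hy
        rintro rfl
        exact hx (by rw [ht, zero_smul])
      have h2 := scalar_eq hadd hinj hK hxy hc hd
      rw [hc, h2, h1]
    · rw [hc, key x hxe c hc]
  have hcancel : ∀ a b : 𝔽, a • f e₀ = b • f e₀ → a = b := by
    intro a b h
    have h1 : (a - b) • f e₀ = 0 := by rw [sub_smul, h, sub_self]
    rcases smul_eq_zero.1 h1 with h2 | h2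
    · exact sub_eq_zero.1 h2
    · exact absurd h2 (hfne he₀)
  refine ⟨{ toFun := s, map_one' := ?_, map_mul' := ?_, map_zero' := ?_, map_add' := ?_ }, hall⟩
  · apply hcancel
    rw [← hall, one_smul, one_smul]
  · intro a b
    apply hcancel
    rw [← hall, mul_smul, hall, hall, smul_smul]
  · apply hcancel
    rw [← hall, zero_smul, zero_smul, hf0]
  · intro a b
    apply hcancel
    rw [← hall, add_smul, hadd, hall, hall, add_smul]

/-- CB2. Ring endomorphisms of a finite field commute (`Fˣ` is cyclic: σ z = z^a, τ z = z^b). -/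
theorem ringHom_comm [Finite 𝔽] (σ τ : 𝔽 →+* 𝔽) : σ.comp τ = τ.comp σ := by
  classical
  haveI := Fintype.ofFinite 𝔽
  obtain ⟨g, hg⟩ := IsCyclic.exists_generator (α := 𝔽ˣ)
  obtain ⟨a, ha⟩ := Subgroup.mem_zpowers_iff.1 (hg (Units.map σ.toMonoidHom g))
  obtain ⟨b, hb⟩ := Subgroup.mem_zpowers_iff.1 (hg (Units.map τ.toMonoidHom g))
  have hcomm : ∀ u : 𝔽ˣ, Units.map σ.toMonoidHom (Units.map τ.toMonoidHom u) =
      Units.map τ.toMonoidHom (Units.map σ.toMonoidHom u) := by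
    intro u
    obtain ⟨n, rfl⟩ := Subgroup.mem_zpowers_iff.1 (hg u)
    simp only [map_zpow]
    rw [← ha, ← hb]
    simp only [map_zpow]
    rw [← ha, ← hb]
    simp only [← _root_.zpow_mul]
    congr 1
    ring
  ext z
  by_cases hz : z = 0
  · subst hz
    simp
  · have := congrArg Units.val (hcomm (Units.mk0 z hz))
    simpa using this

/-- CB3. `dt (g x) (g y) = c * σ (dt x y)` for `g` additive σ-semilinear, `c = dt (g e₀) (g e₁)`. -/
theorem dt_semilinear {g : F2 𝔽 → F2 𝔽} (hadd : ∀ x y, g (x + y) = g x + g y) (σ : 𝔽 →+* 𝔽)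
    (hσ : ∀ (l : 𝔽) x, g (l • x) = σ l • g x) :
    ∃ c : 𝔽, ∀ x y, dt (g x) (g y) = c * σ (dt x y) := by
  let e₀ : F2 𝔽 := Pi.single 0 1
  let e₁ : F2 𝔽 := Pi.single 1 1
  refine ⟨dt (g e₀) (g e₁), fun x y => ?_⟩
  have he : ∀ v : F2 𝔽, v = v 0 • e₀ + v 1 • e₁ := by
    intro v
    ext i
    fin_cases i <;> simp [e₀, e₁]
  have hanti : ∀ u v : F2 𝔽, dt u v = - dt v u := by
    intro u v
    simp only [dt]
    ring
  have hgx : g x = σ (x 0) • g e₀ + σ (x 1) • g e₁ := by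
    conv_lhs => rw [he x]
    rw [hadd, hσ, hσ]
  have hgy : g y = σ (y 0) • g e₀ + σ (y 1) • g e₁ := by
    conv_lhs => rw [he y]
    rw [hadd, hσ, hσ]
  rw [hgx, hgy]
  simp only [dt_add_left, dt_add_right, dt_smul_left, dt_smul_right, dt_self]
  rw [hanti (g e₁) (g e₀)]
  have hdt : dt x y = x 0 * y 1 - x 1 * y 0 := rfl
  rw [hdt, map_sub, map_mul, map_mul]
  ring

/-- CB4. A linear map preserving `dt` is in SL₂ (exists_matrix, dt_mulVec). -/
theorem sl_of_dt {f : F2 𝔽 → F2 𝔽} (hadd : ∀ x y, f (x + y) = f x + f y)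
    (hs : ∀ (l : 𝔽) x, f (l • x) = l • f x) (h : ∀ x y, dt (f x) (f y) = dt x y) :
    ∃ k : SL2 𝔽, ∀ x, f x = sact k x := by
  obtain ⟨M, hM⟩ := exists_matrix hadd hs
  let e₀ : F2 𝔽 := Pi.single 0 1
  let e₁ : F2 𝔽 := Pi.single 1 1
  have he : dt e₀ e₁ = 1 := by
    simp [dt, e₀, e₁]
  have hdet : M.det = 1 := by
    have h1 := dt_mulVec M e₀ e₁
    rw [← hM, ← hM, h, he, mul_one] at h1
    exact h1.symm
  exact ⟨⟨M, hdet⟩, hM⟩
end pure

end Cfsg.Agent.Lib.BlockZ
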