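import Mathlib
import Cfsg.Prelude.Def_BaumannBlocks
import Cfsg.Agent.Lib.BlockX.RawQuad
import Cfsg.Agent.Lib.BlockY.Facts
import Cfsg.Agent.Lib.BlockY.Cases
import Cfsg.Agent.Lib.BlockZ.Phi
import Cfsg.Agent.Lib.BlockX.QuadExists
import Cfsg.Agent.Lib.BlockZ.SemiLin

/-! Z4: the semilinear invariants `σ`, `del` of the normalizer of a linear block with `q ≥ 4`. -/

set_option linter.unusedSectionVars false
set_option linter.unusedVariables false
set_option linter.style.longLine false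

namespace Cfsg.Agent.Lib.BlockZ
open Subgroup Cfsg Matrix Cfsg.Agent.Lib.BlockX Cfsg.Agent.Lib.BlockY
open Cfsg.Agent.Lib.PGroup.BaumannSect Cfsg.Agent.Lib.PGroup.LargeSub2
open scoped commutatorElement



variable {G : Type*} [Group G] [Finite G] {p : ℕ} [Fact p.Prime] {E F : Subgroup G}
variable {𝔽 : Type*} [Field 𝔽] {ψ : G → F2 𝔽} {ρ : G → SL2 𝔽}
  {d : SecL p 𝔽 E ψ ρ} {φ : G → F2 𝔽 → F2 𝔽}

namespace Phi

theorem map_zero (P : Phi d φ) {g : G} (hg : g ∈ normalizer (E : Set G)) : φ g 0 = 0 := by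
  have := P.hadd g hg 0 0
  rw [add_zero] at this
  simpa using this

theorem map_ne (P : Phi d φ) {g : G} (hg : g ∈ normalizer (E : Set G)) {x : F2 𝔽} (hx : x ≠ 0) : φ g x ≠ 0 := by
  intro h
  apply hx
  apply P.hinj g hg
  rw [h, P.map_zero hg]

end Phi

/-- The semilinear invariants. -/
structure Sig (P : Phi d φ) (σ : G → 𝔽 →+* 𝔽) : Prop where
  h : ∀ g ∈ normalizer (E : Set G), ∀ (l : 𝔽) x, φ g (l • x) = σ g l • φ g x

theorem exists_sig (P : Phi d φ) (hK : commutator (SL2 𝔽) = ⊤) : ∃ σ, Sig P σ := by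
  classical
  have h : ∀ g : G, ∃ s : 𝔽 →+* 𝔽, g ∈ normalizer (E : Set G) → ∀ (l : 𝔽) x, φ g (l • x) = s l • φ g x := by
    intro g
    by_cases hg : g ∈ normalizer (E : Set G)
    · obtain ⟨s, hs⟩ := semilinear_of_normalizes (P.hadd g hg) (P.hinj g hg) (fun k => by
        obtain ⟨k', -, h⟩ := P.normalizes hg (k := k) (by rw [hK]; exact mem_top _)
        exact ⟨k', h⟩)
      exact ⟨s, fun _ => hs⟩
    · exact ⟨RingHom.id 𝔽, fun h => (hg h).elim⟩
  choose σ hσ using h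
  exact ⟨σ, ⟨fun g hg => hσ g hg⟩⟩

def e0 : F2 𝔽 := ![1, 0]
def e1 : F2 𝔽 := ![0, 1]

theorem dt_e0_e1 : dt (e0 : F2 𝔽) e1 = 1 := by simp [dt, e0, e1]

/-- the determinant -/
def del (φ : G → F2 𝔽 → F2 𝔽) (g : G) : 𝔽 := dt (φ g e0) (φ g e1)

namespace Sig
variable {P : Phi d φ} {σ : G → 𝔽 →+* 𝔽}

theorem unique (S : Sig P σ) {g : G} (hg : g ∈ normalizer (E : Set G)) {s : 𝔽 →+* 𝔽}
    (hs : ∀ (l : 𝔽) x, φ g (l • x) = s l • φ g x) : σ g = s := by
  ext l
  have hv : (e0 : F2 𝔽) ≠ 0 := by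
    intro h
    have := congrFun h 0
    simp [e0] at this
  have h1 := S.h g hg l e0
  rw [hs] at h1
  have h2 := P.map_ne hg hv
  have h3 : (s l - σ g l) • φ g e0 = 0 := by
    rw [sub_smul, h1, sub_self]
  rcases smul_eq_zero.1 h3 with h4 | h4
  · exact (sub_eq_zero.1 h4).symm
  · exact (h2 h4).elim

theorem mul (S : Sig P σ) {g h : G} (hg : g ∈ normalizer (E : Set G)) (hh : h ∈ normalizer (E : Set G)) :
    σ (g * h) = (σ g).comp (σ h) := by
  apply S.unique (mul_mem hg hh)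
  intro l x
  rw [P.mul hg hh, P.mul hg hh, S.h h hh, S.h g hg]
  rfl

theorem one (S : Sig P σ) : σ 1 = RingHom.id 𝔽 := by
  apply S.unique (one_mem _)
  intro l x
  rw [P.one, P.one]
  rfl

theorem inv_comp (S : Sig P σ) {g : G} (hg : g ∈ normalizer (E : Set G)) :
    (σ g⁻¹).comp (σ g) = RingHom.id 𝔽 := by
  rw [← S.mul (inv_mem hg) hg, inv_mul_cancel, S.one]

theorem comp_inv (S : Sig P σ) {g : G} (hg : g ∈ normalizer (E : Set G)) :
    (σ g).comp (σ g⁻¹) = RingHom.id 𝔽 := by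
  rw [← S.mul hg (inv_mem hg), mul_inv_cancel, S.one]

/-- `σ` is trivial on `X = {σ = 1}` -/
def kerS (S : Sig P σ) : Subgroup G where
  carrier := {g | g ∈ normalizer (E : Set G) ∧ σ g = RingHom.id 𝔽}
  one_mem' := ⟨one_mem _, S.one⟩
  mul_mem' := by
    rintro a b ⟨ha, ha'⟩ ⟨hb, hb'⟩
    refine ⟨mul_mem ha hb, ?_⟩
    rw [S.mul ha hb, ha', hb']
    rfl
  inv_mem' := by
    rintro a ⟨ha, ha'⟩
    refine ⟨inv_mem ha, ?_⟩
    have := S.inv_comp ha
    rwa [ha', RingHom.comp_id] at this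

theorem comm_mem_kerS [Finite 𝔽] (S : Sig P σ) {f b : G} (hf : f ∈ normalizer (E : Set G)) (hb : b ∈ normalizer (E : Set G)) :
    ⁅f, b⁆ ∈ S.kerS := by
  have hf' := inv_mem hf
  have hb' := inv_mem hb
  refine ⟨?_, ?_⟩
  · rw [commutatorElement_def]
    exact mul_mem (mul_mem (mul_mem hf hb) hf') hb'
  · rw [commutatorElement_def, S.mul (mul_mem (mul_mem hf hb) hf') hb', S.mul (mul_mem hf hb) hf', S.mul hf hb]
    ext l
    have h1 : σ b (σ f⁻¹ (σ b⁻¹ l)) = σ f⁻¹ (σ b (σ b⁻¹ l)) := by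
      have := congrArg (fun s : 𝔽 →+* 𝔽 => s (σ b⁻¹ l)) (ringHom_comm (σ b) (σ f⁻¹))
      exact this
    have h2 : ∀ y, σ b (σ b⁻¹ y) = y := fun y => congrArg (fun s : 𝔽 →+* 𝔽 => s y) (S.comp_inv hb)
    have h3 : ∀ y, σ f (σ f⁻¹ y) = y := fun y => congrArg (fun s : 𝔽 →+* 𝔽 => s y) (S.comp_inv hf)
    show σ f (σ b (σ f⁻¹ (σ b⁻¹ l))) = l
    rw [h1, h2, h3]

/-- a commutator-closed subgroup has trivial `σ`. -/
theorem trivial_of_comm [Finite 𝔽] (S : Sig P σ) {F B : Subgroup G} (hFB : ⁅F, B⁆ = F)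
    (hF : F ≤ normalizer (E : Set G)) (hB : B ≤ normalizer (E : Set G)) {x : G} (hx : x ∈ F) : σ x = RingHom.id 𝔽 := by
  have h1 : ⁅F, B⁆ ≤ S.kerS := by
    rw [Subgroup.commutator_le]
    intro f hf b hb
    exact S.comm_mem_kerS (hF hf) (hB hb)
  rw [hFB] at h1
  exact (h1 hx).2

theorem dt_eq (S : Sig P σ) {g : G} (hg : g ∈ normalizer (E : Set G)) (x y : F2 𝔽) :
    dt (φ g x) (φ g y) = del φ g * σ g (dt x y) := by
  obtain ⟨c, hc⟩ := dt_semilinear (P.hadd g hg) (σ g) (S.h g hg)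
  have h1 := hc e0 e1
  rw [dt_e0_e1, map_one, mul_one] at h1
  rw [hc, del, h1]

theorem del_mul (S : Sig P σ) {g h : G} (hg : g ∈ normalizer (E : Set G)) (hh : h ∈ normalizer (E : Set G)) :
    del φ (g * h) = del φ g * σ g (del φ h) := by
  simp only [del]
  rw [P.mul hg hh, P.mul hg hh, S.dt_eq hg]
  rfl

theorem del_one (S : Sig P σ) : del φ (1 : G) = 1 := by
  simp only [del]
  rw [P.one, P.one, dt_e0_e1]

theorem del_ne (S : Sig P σ) {g : G} (hg : g ∈ normalizer (E : Set G)) : del φ g ≠ 0 := by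
  intro h
  have h1 := S.del_mul hg (inv_mem hg)
  rw [mul_inv_cancel, S.del_one, h, zero_mul] at h1
  exact one_ne_zero h1

/-- conjugation formula -/
theorem del_conj (S : Sig P σ) {b x : G} (hb : b ∈ normalizer (E : Set G)) (hx : x ∈ normalizer (E : Set G))
    (hs : σ (b * x * b⁻¹) = RingHom.id 𝔽) : del φ (b * x * b⁻¹) = σ b (del φ x) := by
  have hy : b * x * b⁻¹ ∈ normalizer (E : Set G) := mul_mem (mul_mem hb hx) (inv_mem hb)
  have h1 := S.del_mul hb hx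
  have h2 := S.del_mul hy hb
  have h3 : b * x * b⁻¹ * b = b * x := by group
  rw [h3, hs] at h2
  rw [h1] at h2
  have h4 : del φ b * σ b (del φ x) = del φ (b * x * b⁻¹) * del φ b := h2
  have h5 := S.del_ne hb
  apply mul_right_cancel₀ h5
  rw [← h4, mul_comm]

/-- for `σ x = 1`: the action is in `SL₂` when `del x = 1`. -/
theorem sl_of_del (S : Sig P σ) {x : G} (hx : x ∈ normalizer (E : Set G)) (hs : σ x = RingHom.id 𝔽)
    (hd : del φ x = 1) : ∃ k : SL2 𝔽, ∀ a, φ x a = sact k a := by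
  apply sl_of_dt (P.hadd x hx)
  · intro l a
    rw [S.h x hx, hs]
    rfl
  · intro a b
    rw [S.dt_eq hx, hd, hs, one_mul]
    rfl

end Sig

end Cfsg.Agent.Lib.BlockZ
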