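import Mathlib
import Cfsg.Prelude.Def_BaumannBlocks
import Cfsg.Agent.Lib.BlockX.QuadExists
import Cfsg.Agent.Lib.BlockZ.SigDel
import Cfsg.Agent.Lib.BlockZ.FourOff
import Cfsg.Agent.Lib.BlockZ.Lift
import Cfsg.Agent.Lib.BlockZ.Offender

/-! Z4: over `F₄` the elements of a largest elementary abelian subgroup normalizing a block act linearly. -/

set_option linter.unusedSectionVars false
set_option linter.unusedVariables false
set_option linter.style.longLine false

namespace Cfsg.Agent.Lib.BlockZ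
open Subgroup Cfsg Matrix Cfsg.Agent.Lib.BlockX Cfsg.Agent.Lib.BlockY
open Cfsg.Agent.Lib.PGroup.BaumannSect Cfsg.Agent.Lib.PGroup.LargeSub2 Cfsg.Agent.Lib.PGroup.ThompsonG
open scoped commutatorElement

variable {G : Type*} [Group G] [Finite G] {p : ℕ} [Fact p.Prime] {E F : Subgroup G}
variable {𝔽 : Type*} [Field 𝔽] [Fintype 𝔽] {ψ : G → F2 𝔽} {ρ : G → SL2 𝔽}
  {d : SecL p 𝔽 E ψ ρ} {φ : G → F2 𝔽 → F2 𝔽}

/-- `ψ` maps `V` onto `F²` when `q > 3`. -/
theorem psi_V_surj (P : Phi d φ) (hK : commutator (SL2 𝔽) = ⊤) (hq : 3 < Fintype.card 𝔽) (a : F2 𝔽) :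
    ∃ v ∈ VV p E, ψ v = a := by
  classical
  obtain ⟨t, -, ht⟩ := Finset.exists_mem_notMem_of_card_lt_card
    (s := ({0, 1} : Finset 𝔽)) (t := Finset.univ) (by
      calc _ ≤ 2 := Finset.card_le_two
        _ < _ := by simp; omega)
  simp only [Finset.mem_insert, Finset.mem_singleton, not_or] at ht
  obtain ⟨ht0, ht1⟩ := ht
  have ht1' : t⁻¹ ≠ 1 := by
    intro h
    apply ht1
    have := inv_eq_one.1 h
    exact this
  let k : SL2 𝔽 := ⟨!![t, 0; 0, t⁻¹], by simp [Matrix.det_fin_two, ht0]⟩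
  obtain ⟨e, he, hek⟩ := d.a6 k (by rw [hK]; exact mem_top _)
  have h1t : 1 - t ≠ 0 := fun h => ht1 (sub_eq_zero.1 h).symm
  have h1t' : 1 - t⁻¹ ≠ 0 := fun h => ht1' (sub_eq_zero.1 h).symm
  obtain ⟨w, hw, hwb⟩ := d.a2 ![a 0 / (1 - t), a 1 / (1 - t⁻¹)]
  refine ⟨⁅w, e⁆, Subgroup.commutator_mem_commutator hw he, ?_⟩
  rw [(P.hcomm e (le_normalizer he) w hw).2, P.of_mem he, hek, hwb]
  ext i
  fin_cases i
  · simp [k]
    field_simp
  · simp [k]
    field_simp

/-- The count. -/
theorem A_linear (P : Phi d φ) {σ : G → 𝔽 →+* 𝔽} (S : Sig P σ) (hK : commutator (SL2 𝔽) = ⊤)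
    (hq : Fintype.card 𝔽 = 4) {T : Subgroup G}
    (hVT : VV p E ≤ T) (hVe : IsElementaryAbelian p (VV p E)) {A : Subgroup G} (hA : A ∈ gMaxEA p T)
    (hp2 : p = 2) (hAN : A ≤ normalizer (E : Set G))
    (hlift : ∀ c ∈ normalizer (E : Set G), (∀ w ∈ WW p E, ⁅w, c⁆ ∈ ZZ p E) → c ∈ centralizer (VV p E : Set G)) :
    ∀ a ∈ A, σ a = RingHom.id 𝔽 := by
  classical
  subst hp2
  intro a ha
  by_contra hne
  haveI := Fintype.ofFinite G
  let AF : Finset G := (A : Set G).toFinite.toFinset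
  have hAF : ∀ x, x ∈ AF ↔ x ∈ A := fun x => by simp [AF]
  let X : Finset (F2 𝔽 → F2 𝔽) := AF.image φ
  have hX : ∀ y, y ∈ X ↔ ∃ b ∈ A, φ b = y := fun y => by simp [X, hAF]
  let C : Subgroup G := VV 2 E ⊓ centralizer (A : Set G)
  let CF : Finset G := (C : Set G).toFinite.toFinset
  have hCF : ∀ x, x ∈ CF ↔ x ∈ C := fun x => by simp [CF]
  let fix : Finset (F2 𝔽) := CF.image ψ
  have hAcomm : ∀ x ∈ A, ∀ y ∈ A, x * y = y * x := fun x hx y hy => ea_comm hA.2.1 hx hy
  have h4 := off_four hq X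
    ((hX _).2 ⟨1, one_mem _, funext fun x => P.one x⟩)
    (by
      intro x hx y hy
      obtain ⟨b, hb, rfl⟩ := (hX _).1 hx
      obtain ⟨c, hc, rfl⟩ := (hX _).1 hy
      exact (hX _).2 ⟨b * c, mul_mem hb hc, funext fun z => P.mul (hAN hb) (hAN hc) z⟩)
    (by
      intro x hx y hy
      obtain ⟨b, hb, rfl⟩ := (hX _).1 hx
      obtain ⟨c, hc, rfl⟩ := (hX _).1 hy
      funext z
      show φ b (φ c z) = φ c (φ b z)
      rw [← P.mul (hAN hb) (hAN hc), ← P.mul (hAN hc) (hAN hb), hAcomm b hb c hc])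
    (by
      intro x hx
      obtain ⟨b, hb, rfl⟩ := (hX _).1 hx
      funext z
      show φ b (φ b z) = z
      rw [← P.mul (hAN hb) (hAN hb)]
      have : b * b = 1 := by
        have := hA.2.1.2 b hb
        rwa [pow_two] at this
      rw [this, P.one])
    (by
      intro x hx y z
      obtain ⟨b, hb, rfl⟩ := (hX _).1 hx
      exact P.hadd b (hAN hb) y z)
    (by
      intro x hx
      obtain ⟨b, hb, rfl⟩ := (hX _).1 hx
      exact ⟨σ b, S.h b (hAN hb)⟩)
    ((hX _).2 ⟨a, ha, rfl⟩) (S.h a (hAN ha)) hne fix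
    (by
      intro v hv x hx
      obtain ⟨c, hc, rfl⟩ := Finset.mem_image.1 hv
      obtain ⟨b, hb, rfl⟩ := (hX _).1 hx
      have hc' := (hCF c).1 hc
      rw [P.h1 b (hAN hb) c (V_le_W hc'.1)]
      have := mem_centralizer_iff.1 hc'.2 b hb
      congr 1
      rw [this]
      group)
  -- best offender
  have hbest := (QuadExists.best_of_max hA hVT hVe).1 (A ⊓ centralizer (VV 2 E : Set G)) inf_le_left
  set B : Subgroup G := A ⊓ centralizer (VV 2 E : Set G) with hB
  have hVC : VV 2 E ⊓ centralizer (B : Set G) = VV 2 E := by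
    apply inf_eq_left.2
    intro v hv
    rw [mem_centralizer_iff]
    intro b hb
    exact (mem_centralizer_iff.1 hb.2 v hv).symm
  rw [hVC] at hbest
  -- `|A| ≤ |B| |X|`
  have hAX : Nat.card A ≤ Nat.card B * X.card := by
    have h1 : AF.card = Nat.card A :=
      (Set.ncard_eq_toFinset_card (A : Set G) (A : Set G).toFinite).symm.trans (Nat.card_coe_set_eq (A : Set G)).symm
    rw [← h1]
    apply Finset.card_le_mul_card_image
    intro y hy
    obtain ⟨b, hb, rfl⟩ := (hX _).1 hy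
    have h2 : (AF.filter fun x => φ x = φ b).card ≤ (Finset.univ : Finset B).card := by
      apply Finset.card_le_card_of_injOn (fun x => if hx : b⁻¹ * x ∈ B then ⟨b⁻¹ * x, hx⟩ else 1)
      · intro x _; exact Finset.mem_coe.2 (Finset.mem_univ _)
      · intro x hx x' hx' h
        have hx1 := (Finset.mem_filter.1 (Finset.mem_coe.1 hx))
        have hx1' := (Finset.mem_filter.1 (Finset.mem_coe.1 hx'))
        have key : ∀ x, x ∈ AF ∧ φ x = φ b → b⁻¹ * x ∈ B := by
          rintro x ⟨h3, h4⟩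
          have hxA := (hAF x).1 h3
          refine Subgroup.mem_inf.2 ⟨A.mul_mem (A.inv_mem hb) hxA, ?_⟩
          have hn : b⁻¹ * x ∈ normalizer (E : Set G) := mul_mem (inv_mem (hAN hb)) (hAN hxA)
          apply hlift _ hn
          apply P.comm_mem_Z hn
          intro z
          rw [P.mul (inv_mem (hAN hb)) (hAN hxA), h4, P.inv_left (hAN hb)]
        simp only [dif_pos (key x hx1), dif_pos (key x' hx1')] at h
        have := congrArg Subtype.val h
        exact mul_left_cancel this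
    rwa [Finset.card_univ, ← Nat.card_eq_fintype_card] at h2
  -- the map `V → F²`
  let ψh : ↥(VV 2 E) →* Multiplicative (F2 𝔽) :=
    { toFun := fun v => Multiplicative.ofAdd (ψ v)
      map_one' := by
        have := d.a1 1 (one_mem _) 1 (one_mem _)
        simp only [mul_one] at this
        have h0 : ψ 1 = 0 := by simpa using this
        show Multiplicative.ofAdd (ψ 1) = 1
        rw [h0]; rfl
      map_mul' := fun x y => by
        show Multiplicative.ofAdd (ψ (x * y)) = _
        rw [d.a1 _ (V_le_W x.2) _ (V_le_W y.2)]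
        rfl }
  have hψs : Function.Surjective ψh := by
    intro a
    obtain ⟨v, hv, h⟩ := psi_V_surj P hK (by omega) (Multiplicative.toAdd a)
    exact ⟨⟨v, hv⟩, by show Multiplicative.ofAdd (ψ v) = a; rw [h]; rfl⟩
  have hcV : Nat.card ↥(VV 2 E) = Nat.card ψh.ker * 16 := by
    have h1 := Subgroup.card_mul_index ψh.ker
    rw [Subgroup.index_ker, MonoidHom.range_eq_top.2 hψs] at h1
    have h2 : Nat.card (⊤ : Subgroup (Multiplicative (F2 𝔽))) = 16 := by
      rw [Subgroup.card_top, Nat.card_congr Multiplicative.toAdd, Nat.card_eq_fintype_card]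
      simp [hq]
    rw [h2] at h1
    exact h1.symm
  -- `|C| ≤ |ker| |fix|`
  have hCfix : Nat.card C ≤ Nat.card ψh.ker * fix.card := by
    have h1 : CF.card = Nat.card C :=
      (Set.ncard_eq_toFinset_card (C : Set G) (C : Set G).toFinite).symm.trans (Nat.card_coe_set_eq (C : Set G)).symm
    rw [← h1]
    apply Finset.card_le_mul_card_image
    intro y hy
    obtain ⟨c, hc, rfl⟩ := Finset.mem_image.1 hy
    have hc' := (hCF c).1 hc
    haveI : Fintype ψh.ker := Fintype.ofFinite _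
    have h2 : (CF.filter fun x => ψ x = ψ c).card ≤ (Finset.univ : Finset ψh.ker).card := by
      apply Finset.card_le_card_of_injOn (fun x => if hx : c⁻¹ * x ∈ VV 2 E ∧ ψ (c⁻¹ * x) = 0 then
        ⟨⟨c⁻¹ * x, hx.1⟩, by
          rw [MonoidHom.mem_ker]
          show Multiplicative.ofAdd (ψ (c⁻¹ * x)) = 1
          rw [hx.2]; rfl⟩ else 1)
      · intro x _; exact Finset.mem_coe.2 (Finset.mem_univ _)
      · intro x hx x' hx' h
        have hx1 := (Finset.mem_filter.1 (Finset.mem_coe.1 hx))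
        have hx1' := (Finset.mem_filter.1 (Finset.mem_coe.1 hx'))
        have key : ∀ x, x ∈ CF ∧ ψ x = ψ c → c⁻¹ * x ∈ VV 2 E ∧ ψ (c⁻¹ * x) = 0 := by
          rintro x ⟨h3, h4⟩
          have hxC := (hCF x).1 h3
          refine ⟨mul_mem (inv_mem hc'.1) hxC.1, ?_⟩
          have hcW := V_le_W hc'.1
          have hxW := V_le_W hxC.1
          rw [d.a1 _ (inv_mem hcW) _ hxW, h4]
          have h5 := d.a1 c⁻¹ (inv_mem hcW) c hcW
          rw [inv_mul_cancel] at h5
          have h6 := d.a1 1 (one_mem _) 1 (one_mem _)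
          simp only [mul_one] at h6
          have h0 : ψ 1 = 0 := by simpa using h6
          rw [← h5, h0]
        simp only [dif_pos (key x hx1), dif_pos (key x' hx1')] at h
        have := congrArg (fun z : ψh.ker => ((z : ↥(VV 2 E)) : G)) h
        exact mul_left_cancel this
    rwa [Finset.card_univ, ← Nat.card_eq_fintype_card] at h2
  -- combine
  have hpos1 : 0 < Nat.card B := Nat.card_pos
  have hpos2 : 0 < Nat.card ψh.ker := Nat.card_pos
  have h5 : Nat.card B * (Nat.card ψh.ker * 16) ≤ (Nat.card B * X.card) * (Nat.card ψh.ker * fix.card) := by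
    rw [← hcV]
    exact hbest.trans (Nat.mul_le_mul hAX hCfix)
  have h6 : (Nat.card B * Nat.card ψh.ker) * 16 ≤ (Nat.card B * Nat.card ψh.ker) * (X.card * fix.card) := by
    calc _ = Nat.card B * (Nat.card ψh.ker * 16) := by ring
      _ ≤ _ := h5
      _ = _ := by ring
  have h7 := Nat.le_of_mul_le_mul_left h6 (Nat.mul_pos hpos1 hpos2)
  omega

end Cfsg.Agent.Lib.BlockZ
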