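import Mathlib
import Cfsg.Agent.Lib.BlockX.Dispatch
import Cfsg.Agent.Lib.BlockX.SLn
import Cfsg.Agent.Lib.BlockY.Facts
import Cfsg.Agent.Lib.BlockY.ClaimACore
import Cfsg.Agent.Lib.BlockY.TwoBlocksCore

/-! Piece Z5 of S2987: a block normalizing a subnormal block `E` and inducing on `V_E` automorphisms
induced by `E` lies in `E` or commutes with `E`. -/

namespace Cfsg.Agent.Lib.BlockZ
open Subgroup Cfsg Matrix
open Cfsg.Agent.Lib.BlockX Cfsg.Agent.Lib.BlockX.TwoNormal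
open Cfsg.Agent.Lib.BlockY Cfsg.Agent.Lib.BlockY.TwoBlocks
open Cfsg.Agent.Lib.PGroup.BaumannSect Cfsg.Agent.Lib.PGroup.BaumannNorm
open Cfsg.Agent.Lib.PGroup.LargeSub2 Cfsg.Agent.Lib.Basic.PCore
open scoped commutatorElement

namespace PartFour

variable {G : Type*} [Group G] [Finite G] {p : ℕ} [Fact p.Prime] {E F : Subgroup G}

theorem nM (p : ℕ) (g : G) : g ∈ normalizer (MM p G : Set G) := by
  rw [Subgroup.normalizer_eq_top_iff.2 (MM_normal p)]
  exact mem_top _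

theorem comm_mem_M {m g : G} (hm : m ∈ MM p G) : ⁅m, g⁆ ∈ MM p G := by
  have : ⁅m, g⁆ = m * (g * m⁻¹ * g⁻¹) := by rw [commutatorElement_def]; group
  rw [this]
  exact (MM p G).mul_mem hm ((MM_normal p).conj_mem _ ((MM p G).inv_mem hm) g)

/-- `[M, F] ≤ W_F` for every block `F`. -/
theorem M_comm_W (T : Sylow p G) (hF : IsBaumannBlock p (T : Subgroup G) F) :
    ∀ m ∈ MM p G, ∀ f ∈ F, ⁅m, f⁆ ∈ WW p F := by
  have hQ : ∀ m ∈ MM p G, ∀ f ∈ F, ⁅m, f⁆ ∈ QQ p F := fun m hm f hf =>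
    Y_comm_mem T hF m (omegaOneCenter_le _ hm) f hf
  rcases hF.2.2.2.2 with ⟨K, _, _, n, hc, hiso, hact, hQW | ⟨hp3, h2, h3, -, h4, h5, -⟩⟩ | ⟨-, m, -, -, hQW⟩
  · intro m hm f hf
    show ⁅m, f⁆ ∈ omegaOneCenter p (pCoreOf p F)
    rw [← hQW]
    exact hQ m hm f hf
  · subst hp3
    have hFP : F ≤ normalizer ((QQ 3 F ⊓ MM 3 G : Subgroup G) : Set G) := fun f hf =>
      mem_normalizer_inf (normalizer_le_normalizer_pCoreOf F (le_normalizer hf)) (nM 3 f)
    rcases (irrSect_of_sl2 h2).1 _ inf_le_left hFP with hle | hle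
    · exact fun m hm f hf => hle ⟨hQ m hm f hf, comm_mem_M hm⟩
    · exfalso
      have hWc : ∀ w ∈ omegaOneCenter 3 (pCoreOf 3 F), ∀ q ∈ pCoreOf 3 F, w * q = q * w := by
        intro w hw q hq
        exact (mem_centralizer_iff.1 (omegaOneCenter_le_cent (p := 3) (pCoreOf 3 F) hw) q hq).symm
      have hPW : (QQ 3 F ⊓ MM 3 G : Subgroup G) ≤ normalizer (omegaOneCenter 3 (pCoreOf 3 F) : Set G) := by
        intro x hx
        refine nm_of_fwd fun w hw => ?_
        have h7 : x * w * x⁻¹ = w := by rw [← hWc w hw x hx.1]; group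
        rwa [h7]
      have hbot : ⁅pCoreOf 3 F, pCoreOf 3 F⁆ = ⊥ := by
        rw [eq_bot_iff, Subgroup.commutator_le]
        intro q₁ hq₁ q₂ hq₂
        obtain ⟨x₁, hx₁, w₁, hw₁, rfl⟩ := exists_mul_of_mem_sup hPW (hle hq₁)
        obtain ⟨x₂, hx₂, w₂, hw₂, rfl⟩ := exists_mul_of_mem_sup hPW (hle hq₂)
        rw [comm_of_central (hWc _ hw₁ _ hx₂.1) (hWc _ hw₂ _ hx₁.1)
          (hWc _ hw₁ _ (omegaOneCenter_le _ hw₂))]
        rw [Subgroup.mem_bot, commutatorElement_eq_one_iff_mul_comm]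
        exact omegaOneCenter_comm hx₁.2 hx₂.2
      rw [h4, ← h3, hbot] at h5
      have hn : n = 0 := by
        by_contra hn
        have : (1 : ℕ) < 3 ^ n := Nat.one_lt_pow hn (by norm_num)
        simp at h5
        omega
      subst hn
      have := Fintype.one_lt_card (α := K)
      simp [hc] at this
  · intro m hm f hf
    show ⁅m, f⁆ ∈ omegaOneCenter p (pCoreOf p F)
    rw [← hQW]
    exact hQ m hm f hf

/-- `[M, F] ≤ V_F` for every block `F`. -/
theorem M_comm_V (hG : centralizer (YY p G : Set G) ≤ YY p G) (T : Sylow p G)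
    (hF : IsBaumannBlock p (T : Subgroup G) F) : ∀ m ∈ MM p G, ∀ f ∈ F, ⁅m, f⁆ ∈ VV p F := by
  have hMp : IsPGroup p (MM p G) :=
    (pCore_isPGroup p).to_le (omegaOneCenter_le _)
  apply Cfsg.Agent.Lib.BlockY.comm_mem_of_stable hF.1 hMp (fun e _ => nM p e) (E_le_nV F)
  · intro v hv m hm
    exact omegaOneCenter_comm (V_le_M hG T hF hv) hm
  · intro m hm e he e' he'
    exact Subgroup.commutator_mem_commutator (M_comm_W T hF m hm e he) he'

theorem V_le_W (F : Subgroup G) : VV p F ≤ WW p F :=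
  commutator_le_of_normalizer fun _ hf =>
    normalizer_le_omegaOneCenter _ (normalizer_le_normalizer_pCoreOf F (le_normalizer hf))

theorem nV_of_nE {g : G} (h : g ∈ normalizer (E : Set G)) : g ∈ normalizer (VV p E : Set G) :=
  mem_normalizer_commutator (normalizer_le_omegaOneCenter _ (normalizer_le_normalizer_pCoreOf E h)) h

/-- A block normalizing `E` and not centralizing `V_E` has `V_F ≤ V_E`. -/
theorem V_le_of_not_cent (hG : centralizer (YY p G : Set G) ≤ YY p G) {T₁ T₂ : Sylow p G}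
    (hE : IsBaumannBlock p (T₁ : Subgroup G) E) (hF : IsBaumannBlock p (T₂ : Subgroup G) F)
    (hFN : F ≤ normalizer (E : Set G)) (h : ¬ F ≤ centralizer (VV p E : Set G)) :
    VV p F ≤ VV p E := by
  have hFV : F ≤ normalizer (VV p E : Set G) := fun f hf => nV_of_nE (hFN hf)
  have hFD : F ≤ normalizer ((VV p E ⊓ VV p F : Subgroup G) : Set G) := fun f hf =>
    mem_normalizer_inf (hFV hf) (E_le_nV F hf)
  have hVM := V_le_M hG T₁ hE
  have hcomm : ∀ v ∈ VV p E, ∀ f ∈ F, ⁅v, f⁆ ∈ VV p E ⊓ VV p F := by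
    intro v hv f hf
    refine ⟨?_, M_comm_V hG T₂ hF v (hVM hv) f hf⟩
    have : ⁅v, f⁆ = v * (f * v⁻¹ * f⁻¹) := by rw [commutatorElement_def]; group
    rw [this]
    exact (VV p E).mul_mem hv (nm_conj (hFV hf) ((VV p E).inv_mem hv))
  rcases (block_irrSect hF).1 (VV p E ⊓ VV p F) (inf_le_right.trans (V_le_W F)) hFD with hle | hle
  · exfalso
    apply h
    have hVp : IsPGroup p (VV p E) :=
      (pCore_isPGroup p).to_le (hVM.trans (omegaOneCenter_le _))
    have := Cfsg.Agent.Lib.BlockY.comm_mem_of_stable (V := ⊥) hF.1 hVp hFV (fun f _ => by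
      rw [normalizer_eq_top_iff.2 (inferInstance : (⊥ : Subgroup G).Normal)]; exact mem_top _)
      (fun v hv y _ => by rw [Subgroup.mem_bot.1 hv]; simp)
      (fun v hv f hf f' hf' => by
        have h1 := (hle (hcomm v hv f hf)).2
        rw [Subgroup.mem_bot, commutatorElement_eq_one_iff_mul_comm]
        exact mem_centralizer_iff.1 h1 f' hf' |>.symm)
    intro f hf
    rw [mem_centralizer_iff]
    intro v hv
    have h2 := this v hv f hf
    rw [Subgroup.mem_bot, commutatorElement_eq_one_iff_mul_comm] at h2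
    exact h2
  · have hDZ : (VV p E ⊓ VV p F : Subgroup G) ≤ normalizer ((WW p F ⊓ centralizer (F : Set G) : Subgroup G) : Set G) := by
      intro d hd
      refine nm_of_fwd fun z hz => ?_
      have h7 : d * z = z * d := omegaOneCenter_comm (V_le_W F hd.2) hz.1
      have h8 : d * z * d⁻¹ = z := by rw [h7]; group
      rwa [h8]
    have hVF : VV p F ≤ VV p E ⊓ VV p F := by
      show ⁅omegaOneCenter p (pCoreOf p F), F⁆ ≤ _
      rw [Subgroup.commutator_le]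
      intro w hw f hf
      obtain ⟨d, hd, z, hz, rfl⟩ := exists_mul_of_mem_sup hDZ (hle hw)
      have hzf : z * f = f * z := (mem_centralizer_iff.1 hz.2 f hf).symm
      have h1 : ⁅d * z, f⁆ = d * (f * d⁻¹ * f⁻¹) := by
        have h2 : d * z * f * (d * z)⁻¹ * f⁻¹ = d * (z * f) * z⁻¹ * d⁻¹ * f⁻¹ := by group
        rw [commutatorElement_def, h2, hzf]
        group
      rw [h1]
      exact (VV p E ⊓ VV p F).mul_mem hd (nm_conj (hFD hf) ((VV p E ⊓ VV p F).inv_mem hd))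
    exact hVF.trans inf_le_left

/-- The linear data of a block for `p = 3`. -/
structure LD (K : Type) [Field K] (E : Subgroup G) where
  ψ : G → F2 K
  ρ : G → SL2 K
  ψ_mul : ∀ x ∈ WW 3 E, ∀ y ∈ WW 3 E, ψ (x * y) = ψ x + ψ y
  ψ_surj : ∀ b : F2 K, ∃ u ∈ WW 3 E, ψ u = b
  ψ_ker : ∀ u ∈ WW 3 E, ψ u = 0 ↔ u ∈ ZZ 3 E
  ρ_mul : ∀ x ∈ E, ∀ y ∈ E, ρ (x * y) = ρ x * ρ y
  ρ_mem : ∀ e ∈ E, ρ e ∈ commutator (SL2 K)
  ρ_surj : ∀ k ∈ commutator (SL2 K), ∃ e ∈ E, ρ e = k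
  ρ_act : ∀ e ∈ E, ∀ u ∈ WW 3 E, ψ (e * u * e⁻¹) = sact (ρ e) (ψ u)
  ρ_ker : ∀ e ∈ E, ρ e = 1 ↔ e ∈ QQ 3 E
  hcard : Nat.card (↥E ⧸ pCore 3 ↥E) = Nat.card (commutator (SL2 K))

theorem sub_pCoreOf (p : ℕ) (E : Subgroup G) : (pCoreOf p E).subgroupOf E = pCore p ↥E :=
  Subgroup.comap_map_eq_self_of_injective E.subtype_injective _

theorem exists_LD {T : Subgroup G} (hF : IsBaumannBlock 3 T F) :
    ∃ (K : Type) (_ : Field K) (_ : Fintype K) (_ : CharP K 3), Nonempty (LD K F) := by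
  rcases hF.2.2.2.2 with ⟨K, fK, tK, n, hc, hiso, hact, -⟩ | ⟨hp2, -⟩
  · refine ⟨K, fK, tK, charP_three_of_card hc, ?_⟩
    obtain ⟨ψ, ρ, a1, a2, a3, a4, a5, a6, a7⟩ := RawOf.extract hact
    have hN : Nat.card (↥F ⧸ (pCoreOf 3 F).subgroupOf F) = Nat.card ↥(commutator (SL2 K)) := by
      rw [sub_pCoreOf]
      exact Nat.card_congr hiso.some.toEquiv
    have hk := RawOf.rho_ker (pCoreOf_le F) hN a2 a4 a5 a6 a7 (by
      intro q hq u hu
      have : q * u * q⁻¹ = u := by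
        rw [mem_centralizer_iff.1 (omegaOneCenter_le_cent _ hu) q hq]
        group
      rw [this])
    exact ⟨⟨ψ, ρ, a1, a2, a3, a4, a5, a6, a7, hk, Nat.card_congr hiso.some.toEquiv⟩⟩
  · omega

namespace LD

variable {K : Type} [Field K] (d : LD K E)

include d

theorem ψ_one : d.ψ 1 = 0 := by
  have := d.ψ_mul 1 (one_mem _) 1 (one_mem _)
  simpa using this

theorem ψ_inv {x : G} (hx : x ∈ WW 3 E) : d.ψ x⁻¹ = - d.ψ x := by
  have h := d.ψ_mul x hx x⁻¹ (inv_mem hx)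
  rw [mul_inv_cancel, ψ_one d] at h
  exact (neg_eq_of_add_eq_zero_right h.symm).symm

theorem ρ_one : d.ρ 1 = 1 := by
  have := d.ρ_mul 1 E.one_mem 1 E.one_mem
  simpa using this

theorem ρ_inv {x : G} (hx : x ∈ E) : d.ρ x⁻¹ = (d.ρ x)⁻¹ := by
  have h := d.ρ_mul x hx x⁻¹ (E.inv_mem hx)
  rw [mul_inv_cancel, ρ_one d] at h
  exact (inv_eq_of_mul_eq_one_right h.symm).symm

theorem ρ_pow {x : G} (hx : x ∈ E) (n : ℕ) : d.ρ (x ^ n) = (d.ρ x) ^ n := by
  induction n with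
  | zero => simpa using ρ_one d
  | succ n ih => rw [pow_succ, d.ρ_mul _ (E.pow_mem hx n) _ hx, ih, pow_succ]

theorem E_nW {g : G} (hg : g ∈ normalizer (E : Set G)) : g ∈ normalizer (WW 3 E : Set G) :=
  normalizer_le_omegaOneCenter _ (normalizer_le_normalizer_pCoreOf E hg)

theorem Q_fix {c w : G} (hc : c ∈ QQ 3 E) (hw : w ∈ WW 3 E) : c * w * c⁻¹ = w := by
  rw [mem_centralizer_iff.1 (omegaOneCenter_le_cent _ hw) c hc]
  group

variable [Fintype K] [CharP K 3]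

theorem three_smul (a : F2 K) : a + a + a = 0 := by
  have h3 : (3 : K) = 0 := by exact_mod_cast CharP.cast_eq_zero K 3
  funext i
  simp only [Pi.add_apply, Pi.zero_apply]
  have : a i + a i + a i = 3 * a i := by ring
  rw [this, h3, zero_mul]

/-- An element of `E` acting as `-1` inverts `V_E`. -/
theorem exists_inv : ∃ e ∈ E, d.ρ e = -1 ∧ ∀ v ∈ VV 3 E, e * v * e⁻¹ = v⁻¹ := by
  obtain ⟨e, he, hρ⟩ := d.ρ_surj (-1) neg_one_mem_K
  refine ⟨e, he, hρ, ?_⟩
  have hEW : ∀ g ∈ E, ∀ w ∈ WW 3 E, g * w * g⁻¹ ∈ WW 3 E := fun g hg w hw =>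
    nm_conj (E_nW d (le_normalizer hg)) hw
  have hee : e * e ∈ QQ 3 E := by
    rw [← d.ρ_ker _ (E.mul_mem he he), d.ρ_mul _ he _ he, hρ]
    simp
  let N : Subgroup G :=
    { carrier := {n | n ∈ WW 3 E ∧ e * n * e⁻¹ = n⁻¹}
      one_mem' := ⟨one_mem _, by simp⟩
      mul_mem' := by
        rintro x y ⟨hx, hx'⟩ ⟨hy, hy'⟩
        refine ⟨mul_mem hx hy, ?_⟩
        have h1 : e * (x * y) * e⁻¹ = (e * x * e⁻¹) * (e * y * e⁻¹) := by group
        rw [h1, hx', hy', _root_.mul_inv_rev]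
        exact omegaOneCenter_comm (inv_mem hx) (inv_mem hy)
      inv_mem' := by
        rintro x ⟨hx, hx'⟩
        refine ⟨inv_mem hx, ?_⟩
        have h1 : e * x⁻¹ * e⁻¹ = (e * x * e⁻¹)⁻¹ := by group
        rw [h1, hx'] }
  have hcN : ∀ w ∈ WW 3 E, ⁅w, e⁆ ∈ N := by
    intro w hw
    refine ⟨?_, ?_⟩
    · have : ⁅w, e⁆ = w * (e * w⁻¹ * e⁻¹) := by rw [commutatorElement_def]; group
      rw [this]
      exact mul_mem hw (hEW e he _ (inv_mem hw))
    · have h1 := Q_fix d hee (inv_mem hw)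
      have h2 : e * ⁅w, e⁆ * e⁻¹ = (e * w * e⁻¹) * ((e * e) * w⁻¹ * (e * e)⁻¹) := by
        rw [commutatorElement_def]; group
      rw [h2, h1, commutatorElement_def]
      group
  have hEN : ∀ g ∈ E, ∀ n ∈ N, g * n * g⁻¹ ∈ N := by
    rintro g hg n ⟨hn, hn'⟩
    refine ⟨hEW g hg n hn, ?_⟩
    set c := e⁻¹ * (g⁻¹ * e * g) with hc
    have hcE : c ∈ E := by
      rw [hc]
      exact E.mul_mem (E.inv_mem he) (E.mul_mem (E.mul_mem (E.inv_mem hg) he) hg)
    have hcQ : c ∈ QQ 3 E := by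
      rw [← d.ρ_ker c hcE, hc, d.ρ_mul _ (E.inv_mem he) _ (E.mul_mem (E.mul_mem (E.inv_mem hg) he) hg),
        d.ρ_mul _ (E.mul_mem (E.inv_mem hg) he) _ hg, d.ρ_mul _ (E.inv_mem hg) _ he, d.ρ_inv he, d.ρ_inv hg, hρ]
      simp
    have h1 : e * (g * n * g⁻¹) * e⁻¹ = g * (e * (c * n * c⁻¹) * e⁻¹) * g⁻¹ := by
      rw [hc]; group
    rw [h1, Q_fix d hcQ hn, hn']
    group
  have hVN : VV 3 E ≤ N := by
    show ⁅omegaOneCenter 3 (pCoreOf 3 E), E⁆ ≤ N
    rw [Subgroup.commutator_le]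
    intro w hw g hg
    -- `w = n * z`
    set n := ⁅w, e⁆⁻¹ with hn
    set z := ⁅w, e⁆ * w with hz
    have hwe : ⁅w, e⁆ = w * (e * w⁻¹ * e⁻¹) := by rw [commutatorElement_def]; group
    have hψe : d.ψ ⁅w, e⁆ = d.ψ w + d.ψ w := by
      rw [hwe, d.ψ_mul _ hw _ (hEW e he _ (inv_mem hw)), d.ρ_act e he _ (inv_mem hw), hρ,
        sact_neg_one, ψ_inv d hw, neg_neg]
    have hzW : z ∈ WW 3 E := mul_mem (hcN w hw).1 hw
    have hzZ : z ∈ ZZ 3 E := by
      rw [← d.ψ_ker z hzW, hz, d.ψ_mul _ (hcN w hw).1 _ hw, hψe]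
      exact three_smul d _
    have hwnz : w = n * z := by rw [hn, hz]; group
    have hnN : n ∈ N := N.inv_mem (hcN w hw)
    have hzg : z * g = g * z := (mem_centralizer_iff.1 hzZ.2 g hg).symm
    have h1 : ⁅w, g⁆ = n * (g * n⁻¹ * g⁻¹) := by
      rw [hwnz]
      have h2 : n * z * g * (n * z)⁻¹ * g⁻¹ = n * (z * g) * z⁻¹ * n⁻¹ * g⁻¹ := by group
      rw [commutatorElement_def, h2, hzg]
      group
    rw [h1]
    exact N.mul_mem hnN (hEN g hg _ (N.inv_mem hnN))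
  exact fun v hv => (hVN hv).2

/-- `ψ` is injective on `V_E`. -/
theorem V_inj {v v' : G} (hv : v ∈ VV 3 E) (hv' : v' ∈ VV 3 E) (h : d.ψ v = d.ψ v') : v = v' := by
  obtain ⟨e, he, -, hinv⟩ := exists_inv d
  set x := v⁻¹ * v' with hx
  have hxV : x ∈ VV 3 E := mul_mem (inv_mem hv) hv'
  have hxW : x ∈ WW 3 E := V_le_W E hxV
  have hxZ : x ∈ ZZ 3 E := by
    rw [← d.ψ_ker x hxW, hx, d.ψ_mul _ (V_le_W E (inv_mem hv)) _ (V_le_W E hv'), ψ_inv d (V_le_W E hv), h]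
    simp
  have h1 : e * x = x * e := (mem_centralizer_iff.1 hxZ.2 e he)
  have h2 : x⁻¹ = x := by
    rw [← hinv x hxV, h1]
    group
  have h3 : x ^ 3 = 1 := pow_of_mem_omegaOneCenter hxW
  have h4 : x = 1 := by
    have h5 : x * x = 1 := by
      nth_rewrite 1 [← h2]
      group
    have h6 : x ^ 3 = x * (x * x) := by rw [pow_succ', pow_two]
    rw [h6, h5] at h3
    simpa using h3
  have h7 : v⁻¹ * v' = 1 := h4
  exact (inv_mul_eq_one.1 h7)

/-- `ψ` is surjective on `V_E`. -/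
theorem V_surj (b : F2 K) : ∃ v ∈ VV 3 E, d.ψ v = b := by
  obtain ⟨e, he, hρ, -⟩ := exists_inv d
  obtain ⟨w, hw, hψ⟩ := d.ψ_surj (-b)
  refine ⟨⁅w, e⁆, Subgroup.commutator_mem_commutator hw he, ?_⟩
  have hEW : e * w⁻¹ * e⁻¹ ∈ WW 3 E := nm_conj (E_nW d (le_normalizer he)) (inv_mem hw)
  have hwe : ⁅w, e⁆ = w * (e * w⁻¹ * e⁻¹) := by rw [commutatorElement_def]; group
  rw [hwe, d.ψ_mul _ hw _ hEW, d.ρ_act e he _ (inv_mem hw), hρ, sact_neg_one, ψ_inv d hw, neg_neg, hψ]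
  have := three_smul d b
  have h2 : -b + -b = b := by
    have h3 : -b + -b - b = - (b + b + b) := by abel
    rw [this] at h3
    simpa [sub_eq_zero] using h3
  exact h2

/-- An element of `E` trivial on `V_E` lies in `Q_E`. -/
theorem mem_Q_of_fix {f : G} (hf : f ∈ E) (h : ∀ v ∈ VV 3 E, f * v * f⁻¹ = v) : f ∈ QQ 3 E := by
  rw [← d.ρ_ker f hf]
  apply RawOf.eq_one_of_fix
  intro a
  obtain ⟨v, hv, rfl⟩ := V_surj d a
  rw [← d.ρ_act f hf v (V_le_W E hv), h v hv]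

end LD

/-- A nontrivial element of `SL₂` of order prime to the characteristic is fixed point free. -/
theorem fpf {K : Type*} [Field K] [CharP K 3] (A : SL2 K) {k : ℕ} (hk : k.Coprime 3) (hA : A ^ k = 1)
    (h1 : A ≠ 1) (b : F2 K) : ∃ a : F2 K, a - sact A a = b := by
  set M : M2 K := 1 - A.1 with hM
  have hdetA : A.1 0 0 * A.1 1 1 - A.1 0 1 * A.1 1 0 = 1 := by
    have := A.2
    rwa [Matrix.det_fin_two] at this
  by_cases hd : (2 : K) - A.1 0 0 - A.1 1 1 = 0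
  · exfalso
    apply h1
    set N : M2 K := A.1 - 1 with hN
    have hNN : N * N = 0 := by
      ext i j
      fin_cases i <;> fin_cases j
      · simp [hN, Matrix.mul_apply, Fin.sum_univ_two, Matrix.one_apply]
        linear_combination (-A.1 0 0) * hd - hdetA
      · simp [hN, Matrix.mul_apply, Fin.sum_univ_two, Matrix.one_apply]
        linear_combination (-A.1 0 1) * hd
      · simp [hN, Matrix.mul_apply, Fin.sum_univ_two, Matrix.one_apply]
        linear_combination (-A.1 1 0) * hd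
      · simp [hN, Matrix.mul_apply, Fin.sum_univ_two, Matrix.one_apply]
        linear_combination (-A.1 1 1) * hd - hdetA
    have hpow : ∀ n : ℕ, (A ^ n).1 = 1 + (n : K) • N := by
      intro n
      induction n with
      | zero => simp
      | succ n ih =>
        have hAN : A.1 = 1 + N := by rw [hN]; abel
        rw [pow_succ, Matrix.SpecialLinearGroup.coe_mul, ih, hAN]
        have : (1 + (n : K) • N) * (1 + N) = 1 + ((n : K) + 1) • N + (n : K) • (N * N) := by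
          simp only [mul_add, add_mul, mul_one, one_mul, smul_mul_assoc, add_smul, one_smul]
          abel
        rw [this, hNN]
        simp
    have h2 := hpow k
    rw [hA] at h2
    have h3 : (k : K) • N = 0 := by
      have h4 : (1 : M2 K) + (k : K) • N = 1 + 0 := by
        rw [add_zero]
        simpa using h2.symm
      exact add_left_cancel h4
    have h4 : (k : K) ≠ 0 := by
      rw [Ne, CharP.cast_eq_zero_iff K 3]
      intro hdvd
      have := Nat.Coprime.eq_one_of_dvd hk.symm hdvd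
      omega
    have h5 : N = 0 := (smul_eq_zero.1 h3).resolve_left h4
    apply Subtype.ext
    have h6 : A.1 = 1 + N := by rw [hN]; abel
    rw [h6, h5]
    simp
  · have hdet : M.det = (2 : K) - A.1 0 0 - A.1 1 1 := by
      rw [Matrix.det_fin_two, hM]
      simp [Matrix.one_apply]
      linear_combination hdetA
    have hu : IsUnit M.det := by
      rw [hdet]
      exact isUnit_iff_ne_zero.2 hd
    refine ⟨M⁻¹.mulVec b, ?_⟩
    have h2 : M⁻¹.mulVec b - sact A (M⁻¹.mulVec b) = M.mulVec (M⁻¹.mulVec b) := by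
      rw [hM, Matrix.sub_mulVec, Matrix.one_mulVec]
    rw [h2, Matrix.mulVec_mulVec, Matrix.mul_nonsing_inv _ hu, Matrix.one_mulVec]


section two
variable {K K' : Type} [Field K] [Fintype K] [CharP K 3] [Field K'] [Fintype K'] [CharP K' 3]

/-- `V_E ≤ V₀` as soon as `F` covers part of `E`, does not centralize `V_E` and `[V_E, F] ≤ V₀`. -/
theorem V_ge_of_cov (d : LD K E) {V₀ : Subgroup G} (hFres : pResidualOf 3 F = F)
    (hcov : ∀ f ∈ F, ∃ e ∈ E, ∀ v ∈ VV 3 E, f * v * f⁻¹ = e * v * e⁻¹)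
    (hnc : ¬ F ≤ centralizer (VV 3 E : Set G))
    (hcomm : ∀ v ∈ VV 3 E, ∀ f ∈ F, ⁅v, f⁆ ∈ V₀) : VV 3 E ≤ V₀ := by
  have : ∃ f ∈ F, (orderOf f).Coprime 3 ∧ f ∉ centralizer (VV 3 E : Set G) := by
    by_contra hall
    push Not at hall
    exact hnc (forall_mem_of_pResidualOf hFres hall)
  obtain ⟨f₀, hf₀, hco, hnf⟩ := this
  obtain ⟨e₀, he₀, hact⟩ := hcov f₀ hf₀
  have hEV : ∀ {e v : G}, e ∈ E → v ∈ VV 3 E → e * v * e⁻¹ ∈ VV 3 E := fun he hv =>
    nm_conj (E_le_nV E he) hv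
  have hA1 : d.ρ e₀ ≠ 1 := by
    intro h1
    apply hnf
    rw [mem_centralizer_iff]
    intro v hv
    have h2 := hact v hv
    rw [LD.Q_fix d ((d.ρ_ker e₀ he₀).1 h1) (V_le_W E hv)] at h2
    have h3 : f₀ * v = v * f₀ := by
      calc f₀ * v = (f₀ * v * f₀⁻¹) * f₀ := by group
        _ = v * f₀ := by rw [h2]
    exact h3.symm
  have hpow : ∀ n : ℕ, ∀ v ∈ VV 3 E, f₀ ^ n * v * (f₀ ^ n)⁻¹ = e₀ ^ n * v * (e₀ ^ n)⁻¹ := by
    intro n
    induction n with
    | zero => simp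
    | succ n ih =>
      intro v hv
      have h1 : f₀ ^ (n + 1) * v * (f₀ ^ (n + 1))⁻¹ = f₀ ^ n * (f₀ * v * f₀⁻¹) * (f₀ ^ n)⁻¹ := by
        rw [pow_succ]; group
      have h2 : e₀ ^ (n + 1) * v * (e₀ ^ (n + 1))⁻¹ = e₀ ^ n * (e₀ * v * e₀⁻¹) * (e₀ ^ n)⁻¹ := by
        rw [pow_succ]; group
      rw [h1, h2, hact v hv, ih _ (hEV he₀ hv)]
  have hAk : d.ρ e₀ ^ orderOf f₀ = 1 := by
    rw [← LD.ρ_pow d he₀]
    rw [d.ρ_ker _ (E.pow_mem he₀ _)]
    apply LD.mem_Q_of_fix d (E.pow_mem he₀ _)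
    intro v hv
    rw [← hpow _ v hv, pow_orderOf_eq_one]
    group
  intro v₁ hv₁
  obtain ⟨a, ha⟩ := fpf _ hco hAk hA1 (d.ψ v₁)
  obtain ⟨v, hv, hψv⟩ := LD.V_surj d a
  have hx : ⁅v, f₀⁆ = v * (e₀ * v⁻¹ * e₀⁻¹) := by
    have h1 : ⁅v, f₀⁆ = v * (f₀ * v⁻¹ * f₀⁻¹) := by rw [commutatorElement_def]; group
    rw [h1, hact _ (inv_mem hv)]
  have hxV : v * (e₀ * v⁻¹ * e₀⁻¹) ∈ VV 3 E := mul_mem hv (hEV he₀ (inv_mem hv))
  have hψ : d.ψ (v * (e₀ * v⁻¹ * e₀⁻¹)) = d.ψ v₁ := by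
    rw [d.ψ_mul _ (V_le_W E hv) _ (V_le_W E (hEV he₀ (inv_mem hv))),
      d.ρ_act e₀ he₀ _ (V_le_W E (inv_mem hv)), LD.ψ_inv d (V_le_W E hv), hψv, ← ha]
    simp only [sact, Matrix.mulVec_neg]
    abel
  have h := LD.V_inj d hxV hv₁ hψ
  rw [← h, ← hx]
  exact hcomm v hv f₀ hf₀

omit [Finite G] [Fintype K] [CharP K 3] [Fintype K'] [CharP K' 3] in
theorem nat_card_comm_eq (e : K ≃+* K') :
    Nat.card (commutator (SL2 K)) = Nat.card (commutator (SL2 K')) := by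
  let φ : SL2 K ≃* SL2 K' :=
    MonoidHom.toMulEquiv (Matrix.SpecialLinearGroup.map (e : K →+* K'))
      (Matrix.SpecialLinearGroup.map (e.symm : K' →+* K))
      (by ext g i j; simp) (by ext g i j; simp)
  have h : (commutator (SL2 K)).map φ.toMonoidHom = commutator (SL2 K') := by
    rw [commutator_def, commutator_def, Subgroup.map_commutator]
    have : (⊤ : Subgroup (SL2 K)).map φ.toMonoidHom = ⊤ := by
      rw [Subgroup.map_top_of_surjective]
      exact φ.surjective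
    rw [this]
  rw [← h]
  exact (Subgroup.card_map_of_injective φ.injective).symm

/-- same `V` : the fields have the same order -/
theorem card_eq (dE : LD K E) (dF : LD K' F) (hV : VV 3 E = VV 3 F) :
    Fintype.card K = Fintype.card K' := by
  classical
  have hc : ∀ {K₁ : Type} [Field K₁] [Fintype K₁] [CharP K₁ 3] {E₁ : Subgroup G} (d : LD K₁ E₁),
      Nat.card (VV 3 E₁) = Fintype.card K₁ ^ 2 := by
    intro K₁ _ _ _ E₁ d
    have hb : Function.Bijective (fun v : VV 3 E₁ => d.ψ v) := by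
      constructor
      · intro a b hab
        exact Subtype.ext (LD.V_inj d a.2 b.2 hab)
      · intro b
        obtain ⟨v, hv, h⟩ := LD.V_surj d b
        exact ⟨⟨v, hv⟩, h⟩
    rw [Nat.card_eq_of_bijective _ hb, Nat.card_eq_fintype_card]
    simp
  have h1 := hc dE
  have h2 := hc dF
  rw [← hV, h1] at h2
  exact Nat.pow_left_injective (n := 2) (by norm_num) h2

/-- same `V`, `F` covered by `E` : then `E` is covered by `F`. -/
theorem cover_back (dE : LD K E) (dF : LD K' F) (hV : VV 3 E = VV 3 F)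
    (hcov : ∀ f ∈ F, ∃ e ∈ E, ∀ v ∈ VV 3 E, f * v * f⁻¹ = e * v * e⁻¹) :
    ∀ e ∈ E, ∃ f ∈ F, ∀ v ∈ VV 3 E, e * v * e⁻¹ = f * v * f⁻¹ := by
  classical
  choose! c hc hcact using hcov
  have key : ∀ x ∈ E, ∀ y ∈ E, (∀ v ∈ VV 3 E, x * v * x⁻¹ = y * v * y⁻¹) → dE.ρ x = dE.ρ y := by
    intro x hx y hy hxy
    have h1 : x⁻¹ * y ∈ QQ 3 E := by
      apply LD.mem_Q_of_fix dE (E.mul_mem (E.inv_mem hx) hy)
      intro v hv
      have h2 := hxy v hv
      calc x⁻¹ * y * v * (x⁻¹ * y)⁻¹ = x⁻¹ * (y * v * y⁻¹) * x := by group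
        _ = x⁻¹ * (x * v * x⁻¹) * x := by rw [h2]
        _ = v := by group
    have h3 := (dE.ρ_ker _ (E.mul_mem (E.inv_mem hx) hy)).2 h1
    rw [dE.ρ_mul _ (E.inv_mem hx) _ hy, LD.ρ_inv dE hx] at h3
    exact (inv_mul_eq_one.1 h3)
  have hEV : ∀ {e v : G}, e ∈ E → v ∈ VV 3 E → e * v * e⁻¹ ∈ VV 3 E := fun he hv =>
    nm_conj (E_le_nV E he) hv
  let Φ : ↥F →* ↥(commutator (SL2 K)) :=
    { toFun := fun f => ⟨dE.ρ (c f), dE.ρ_mem _ (hc f f.2)⟩
      map_one' := by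
        apply Subtype.ext
        show dE.ρ (c ((1 : ↥F) : G)) = 1
        rw [← LD.ρ_one dE]
        apply key _ (hc _ (one_mem _)) _ E.one_mem
        intro v hv
        rw [← hcact _ (one_mem _) v hv]
      map_mul' := by
        intro x y
        apply Subtype.ext
        show dE.ρ (c ((x : G) * (y : G))) = dE.ρ (c x) * dE.ρ (c y)
        rw [← dE.ρ_mul _ (hc x x.2) _ (hc y y.2)]
        apply key _ (hc _ (mul_mem x.2 y.2)) _ (E.mul_mem (hc x x.2) (hc y y.2))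
        intro v hv
        rw [← hcact _ (mul_mem x.2 y.2) v hv]
        have h1 := hcact y y.2 v hv
        have h2 := hcact x x.2 _ (hEV (hc y y.2) hv)
        calc (x : G) * y * v * ((x : G) * y)⁻¹ = x * (y * v * (y : G)⁻¹) * (x : G)⁻¹ := by group
          _ = x * (c y * v * (c y)⁻¹) * (x : G)⁻¹ := by rw [h1]
          _ = c x * (c y * v * (c y)⁻¹) * (c x)⁻¹ := h2
          _ = _ := by group }
  have hker : Φ.ker = pCore 3 ↥F := by
    ext f
    rw [MonoidHom.mem_ker, ← sub_pCoreOf, mem_subgroupOf]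
    constructor
    · intro h1
      have h2 : dE.ρ (c f) = 1 := congrArg Subtype.val h1
      have h3 := (dE.ρ_ker _ (hc f f.2)).1 h2
      apply LD.mem_Q_of_fix dF f.2
      intro v hv
      rw [← hV] at hv
      rw [hcact f f.2 v hv]
      exact LD.Q_fix dE h3 (V_le_W E hv)
    · intro h1
      apply Subtype.ext
      show dE.ρ (c f) = 1
      rw [dE.ρ_ker _ (hc f f.2)]
      apply LD.mem_Q_of_fix dE (hc f f.2)
      intro v hv
      rw [← hcact f f.2 v hv]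
      rw [hV] at hv
      exact LD.Q_fix dF h1 (V_le_W F hv)
  have hrange : Φ.range = ⊤ := by
    apply Subgroup.eq_top_of_card_eq
    rw [← Subgroup.index_ker Φ, hker, Subgroup.index_eq_card, dF.hcard,
      nat_card_comm_eq (FiniteField.ringEquivOfCardEq (card_eq dF dE hV.symm))]
  intro e he
  have hmem : (⟨dE.ρ e, dE.ρ_mem e he⟩ : ↥(commutator (SL2 K))) ∈ Φ.range := by
    rw [hrange]; exact mem_top _
  obtain ⟨f, hf⟩ := hmem
  have hf' : dE.ρ (c f) = dE.ρ e := congrArg Subtype.val hf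
  refine ⟨f, f.2, ?_⟩
  intro v hv
  rw [hcact f f.2 v hv]
  have h1 : (c f)⁻¹ * e ∈ QQ 3 E := by
    rw [← dE.ρ_ker _ (E.mul_mem (E.inv_mem (hc f f.2)) he), dE.ρ_mul _ (E.inv_mem (hc f f.2)) _ he,
      LD.ρ_inv dE (hc f f.2), hf']
    simp
  have h2 := LD.Q_fix dE h1 (V_le_W E hv)
  calc e * v * e⁻¹ = c f * ((c f)⁻¹ * e * v * ((c f)⁻¹ * e)⁻¹) * (c f)⁻¹ := by group
    _ = c f * v * (c f)⁻¹ := by rw [h2]

end two

/-- Type of a block for `p = 3`: either `[Y, F] ≤ V_F`, or `O₃(F) ≤ Y`. -/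
theorem Y_dich (hG : centralizer (YY 3 G : Set G) ≤ YY 3 G) (T : Sylow 3 G)
    (hF : IsBaumannBlock 3 (T : Subgroup G) F) :
    (∀ y ∈ YY 3 G, ∀ f ∈ F, ⁅y, f⁆ ∈ VV 3 F) ∨ QQ 3 F ≤ YY 3 G := by
  have hYQ := pCore_comm_le T F hF
  rcases hF.2.2.2.2 with ⟨K, fK, tK, n, hK, h0, hact, hQW | ⟨-, hact2, h3', -, h4', h5', h6⟩⟩ | ⟨hp, -⟩
  · left
    intro y hy f hf
    rw [← QQ_eq_VV hF hQW]
    exact Y_comm_mem T hF y hy f hf
  · haveI : CharP K 3 := charP_three_of_card hK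
    obtain ⟨r⟩ := raw_of_block hG T F hF hK h0 hact hact2 h3' h4' h5' h6
    have hVΩ := (block_main hG T F hF).2.1
    have hnR : ∀ X : Subgroup G, X ≤ normalizer (pCore 3 G : Set G) := fun X x _ => by
      rw [Subgroup.normalizer_eq_top_iff.2 (pCore_normal 3 G)]
      exact Subgroup.mem_top _
    have hEE : F ≤ normalizer (F : Set G) := Subgroup.le_normalizer
    have hEP : F ≤ normalizer ((⁅pCore 3 G, F⁆ : Subgroup G) : Set G) :=
      fun e he => mem_normalizer_commutator (hnR F he) (hEE he)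
    have hPY : ⁅pCore 3 G, F⁆ ≤ pCore 3 G := commutator_le_of_normalizer (hnR F)
    rcases (irrSect_of_sl2 hact2).1 _ hYQ hEP with hle | hle
    · left
      refine Cfsg.Agent.Lib.BlockY.comm_mem_of_stable hF.1 (pCore_isPGroup 3) (hnR F) (E_le_nV F) ?_ ?_
      · intro v hv y hy
        exact (mem_centralizer_iff.1 (omegaOneCenter_le_cent (p := 3) (pCore 3 G) (hVΩ hv)) y hy).symm
      · intro y hy e he e' he'
        exact Subgroup.commutator_mem_commutator (hle (Subgroup.commutator_mem_commutator hy he)) he'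
    · right
      have hWc : ∀ w ∈ omegaOneCenter 3 (pCoreOf 3 F), ∀ q ∈ pCoreOf 3 F, w * q = q * w := by
        intro w hw q hq
        exact (mem_centralizer_iff.1 (omegaOneCenter_le_cent (p := 3) (pCoreOf 3 F) hw) q hq).symm
      have hPW : ⁅pCore 3 G, F⁆ ≤ normalizer (omegaOneCenter 3 (pCoreOf 3 F) : Set G) := by
        intro x hx
        refine nm_of_fwd fun w hw => ?_
        have h7 : x * w * x⁻¹ = w := by rw [← hWc w hw x (hYQ hx)]; group
        rwa [h7]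
      have hdec : ∀ q ∈ pCoreOf 3 F, ∃ x ∈ (⁅pCore 3 G, F⁆ : Subgroup G), ∃ w ∈ omegaOneCenter 3 (pCoreOf 3 F), q = x * w :=
        fun q hq => exists_mul_of_mem_sup hPW (hle hq)
      have hZY : ⁅pCoreOf 3 F, pCoreOf 3 F⁆ ≤ pCore 3 G := by
        rw [Subgroup.commutator_le]
        intro q₁ hq₁ q₂ hq₂
        obtain ⟨x₁, hx₁, w₁, hw₁, rfl⟩ := hdec q₁ hq₁
        obtain ⟨x₂, hx₂, w₂, hw₂, rfl⟩ := hdec q₂ hq₂
        rw [comm_of_central (hWc _ hw₁ _ (hYQ hx₂)) (hWc _ hw₂ _ (hYQ hx₁))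
          (hWc _ hw₁ _ (omegaOneCenter_le _ hw₂))]
        exact commutator_le_of_normalizer (hnR _) (Subgroup.commutator_mem_commutator (hPY hx₁) (hPY hx₂))
      have hWY : omegaOneCenter 3 (pCoreOf 3 F) ≤ pCore 3 G := by
        intro w hw
        obtain ⟨v, hv, z, hz, rfl⟩ := r.W_decomp.1 w hw
        refine Subgroup.mul_mem _ ?_ ?_
        · exact omegaOneCenter_le _ (hVΩ hv)
        · rw [← h3'] at hz
          exact hZY hz
      intro q hq
      obtain ⟨x, hx, w, hw, rfl⟩ := hdec q hq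
      exact Subgroup.mul_mem _ (hPY hx) (hWY hw)
  · omega

/-- For `p ≠ 3`, `O_p = W`. -/
theorem nonexc_of_ne {T : Subgroup G} (hE : IsBaumannBlock p T E) (hp : p ≠ 3) : QQ p E = WW p E := by
  rcases hE.2.2.2.2 with ⟨_, _, _, _, _, _, _, hQW | ⟨hp3, -⟩⟩ | ⟨-, _, -, -, hQW⟩
  · exact hQW
  · exact absurd hp3 hp
  · exact hQW

end PartFour

open PartFour in
/-- PIECE Z5: part (4) of S2987. -/
theorem part_four {G : Type*} [Group G] [Finite G] {p : ℕ} [Fact p.Prime] {E F : Subgroup G}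
    (hG : centralizer (YY p G : Set G) ≤ YY p G) {T₁ T₂ : Sylow p G}
    (hE : IsBaumannBlock p (T₁ : Subgroup G) E) (hF : IsBaumannBlock p (T₂ : Subgroup G) F)
    (hEs : E.IsSubnormal) (hFN : F ≤ normalizer (E : Set G))
    (hcov : ∀ f ∈ F, ∃ e ∈ E, ∀ v ∈ VV p E, f * v * f⁻¹ = e * v * e⁻¹) :
    F ≤ E ∨ ⁅F, E⁆ = ⊥ := by
  by_cases h : F ≤ centralizer (VV p E : Set G)
  · right
    rw [Subgroup.commutator_comm]
    exact claimA_core hG hE hF hEs h hFN
  left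
  have hVF := V_le_of_not_cent hG hE hF hFN h
  have hCE := block_dispatch hG T₁ E hE
  have hVM := V_le_M hG T₁ hE
  have hVY : VV p E ≤ YY p G := hVM.trans (omegaOneCenter_le _)
  have hYp : IsPGroup p (YY p G) := pCore_isPGroup p
  have hYn : (YY p G).Normal := pCore_normal p G
  have hnonexc : QQ p E = WW p E → (∀ y ∈ YY p G, ∀ f ∈ F, ⁅y, f⁆ ∈ VV p F) → F ≤ E := fun hQ hY =>
    le_of_nonexc hYp hYn hG hVY (E_le_nV E) hcov
      (fun y hy e he => by rw [← QQ_eq_VV hE hQ]; exact Y_comm_mem T₁ hE y hy e he)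
      (fun y hy f hf => hVF (hY y hy f hf)) hCE hF.1
  by_cases hp3 : p = 3
  · subst hp3
    obtain ⟨K, _, _, _, ⟨dE⟩⟩ := exists_LD hE
    obtain ⟨K', _, _, _, ⟨dF⟩⟩ := exists_LD hF
    have hcomm : ∀ v ∈ VV 3 E, ∀ f ∈ F, ⁅v, f⁆ ∈ VV 3 F := fun v hv f hf =>
      M_comm_V hG T₂ hF v (hVM hv) f hf
    have hge := V_ge_of_cov dE hF.1 hcov h hcomm
    have hV : VV 3 E = VV 3 F := le_antisymm hge hVF
    have h2 := cover_back dE dF hV hcov
    have hCF := block_dispatch hG T₂ F hF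
    rcases Y_dich hG T₂ hF with hY | hQY
    · rcases block_type hG T₁ hE (Q_le_Y hEs) with hQ | ⟨-, K₁, _, _, _, t₁, a₁, ⟨c₁⟩⟩
      · exact hnonexc hQ hY
      · exfalso
        have hEF : E ≤ normalizer (F : Set G) := by
          intro e he
          obtain ⟨f, hf, hact⟩ := h2 e he
          have hc : f⁻¹ * e ∈ centralizer (VV 3 F : Set G) := by
            rw [← hV]; exact cent_of_same hact
          have : e = f * (f⁻¹ * e) := by group
          rw [this]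
          exact mul_mem (le_normalizer hf) (hCF hc)
        exact no_mixed c₁ hEF hFN h2 (fun y hy f hf => by rw [hV]; exact hY y hy f hf)
    · have := two_blocks_core hG hE hF hV hcov h2 (Q_le_Y hEs) hQY (Y_comm_mem T₁ hE) (Y_comm_mem T₂ hF)
        (M_comm_mem hG T₁ hE hEs) (M_comm_V hG T₂ hF) hCE hCF
      exact this ▸ le_rfl
  · exact hnonexc (nonexc_of_ne hE hp3) (fun y hy f hf => by
      rw [← QQ_eq_VV hF (nonexc_of_ne hF hp3)]
      exact Y_comm_mem T₂ hF y hy f hf)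

end Cfsg.Agent.Lib.BlockZ
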