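import Mathlib
import Cfsg.Prelude.Def_BaumannBlocks
import Cfsg.Agent.Lib.BlockZ.FourLin
import Cfsg.Agent.Lib.BlockZ.FType
import Cfsg.Agent.Lib.BlockZ.PartFour
import Cfsg.Agent.Lib.BlockY.Cases

/-! Z4: the cover when `E` is linear with `q ≥ 4`. -/

set_option linter.unusedSectionVars false
set_option linter.unusedVariables false
set_option linter.style.longLine false

namespace Cfsg.Agent.Lib.BlockZ
open Subgroup Cfsg Matrix Cfsg.Agent.Lib.BlockX Cfsg.Agent.Lib.BlockY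
open Cfsg.Agent.Lib.PGroup.BaumannSect Cfsg.Agent.Lib.PGroup.BaumannNorm Cfsg.Agent.Lib.PGroup.LargeSub2 Cfsg.Agent.Lib.PGroup.ThompsonG
open Cfsg.Agent.Lib.Basic.PCore
open scoped commutatorElement

variable {G : Type*} [Group G] [Finite G] {p : ℕ} [Fact p.Prime] {E F : Subgroup G}

/-- Some element of a largest elementary abelian subgroup moves `V_F`. -/
theorem exists_moving (hG : centralizer (YY p G : Set G) ≤ YY p G) (T : Sylow p G)
    (hF : IsBaumannBlock p (T : Subgroup G) F) {x₀ u : G} (hx₀ : x₀ ∈ F) (hu : u ∈ VV p F)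
    (hne : x₀ * u * x₀⁻¹ ≠ u) :
    ∃ A ∈ gMaxEA p (T : Subgroup G), ∃ a ∈ A, a ∉ centralizer (VV p F : Set G) := by
  by_contra hcon
  push Not at hcon
  have hVM := V_le_M hG T hF
  have hVT : VV p F ≤ T := hVM.trans ((omegaOneCenter_le _).trans (pCore_le_sylow T))
  have hVe : IsElementaryAbelian p (VV p F) := ea_mono (omegaOneCenter_ea _) hVM
  have hJ : ∀ v ∈ VV p F, v ∈ omegaOne p (centerThompsonOf p (T : Subgroup G)) := by
    intro v hv
    obtain ⟨A, hA⟩ := exists_mem_gMaxEA (p := p) (T : Subgroup G)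
    have h1 : VV p F ≤ A := le_of_gMaxEA hA hVT hVe (fun a ha b hb =>
      (mem_centralizer_iff.1 (hcon A hA a ha) b hb).symm)
    have h2 : thompsonSubgroupOf p (T : Subgroup G) ≤ centralizer (VV p F : Set G) := by
      rw [thompsonSubgroupOf_eq]
      exact sSup_le fun A hA a ha => hcon A hA a ha
    apply Subgroup.subset_closure
    refine ⟨⟨le_thompsonSubgroupOf hA (h1 hv), mem_centralizer_iff.2 fun j hj => ?_⟩, hVe.2 v hv⟩
    exact (mem_centralizer_iff.1 (h2 hj) v hv).symm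
  have hBc : ∀ b ∈ baumannSubgroupOf p (T : Subgroup G), ∀ v ∈ VV p F, v * b = b * v := by
    intro b hb v hv
    exact mem_centralizer_iff.1 hb.2 v (hJ v hv)
  have hFc : F ≤ centralizer (VV p F : Set G) := by
    have h1 : ⁅F, baumannSubgroupOf p (T : Subgroup G)⁆ ≤ centralizer (VV p F : Set G) := by
      rw [Subgroup.commutator_le]
      intro f hf b hb
      rw [mem_centralizer_iff]
      intro v hv
      have hw : f⁻¹ * v * f ∈ VV p F := by
        have := (mem_normalizer_iff.1 (norm_V (le_normalizer (inv_mem hf))) v).1 hv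
        simpa using this
      have h2 := hBc b hb v hv
      have h3 := hBc b hb _ hw
      have h4 : v * b⁻¹ = b⁻¹ * v := by
        have : b⁻¹ * (v * b) * b⁻¹ = b⁻¹ * (b * v) * b⁻¹ := by rw [h2]
        calc v * b⁻¹ = b⁻¹ * (b * v) * b⁻¹ := by group
          _ = b⁻¹ * (v * b) * b⁻¹ := by rw [h2]
          _ = b⁻¹ * v := by group
      rw [commutatorElement_def]
      calc v * (f * b * f⁻¹ * b⁻¹) = f * ((f⁻¹ * v * f) * b) * f⁻¹ * b⁻¹ := by group
        _ = f * (b * (f⁻¹ * v * f)) * f⁻¹ * b⁻¹ := by rw [h3]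
        _ = f * b * f⁻¹ * (v * b⁻¹) := by group
        _ = f * b * f⁻¹ * (b⁻¹ * v) := by rw [h4]
        _ = _ := by group
    rwa [hF.2.1] at h1
  apply hne
  have := mem_centralizer_iff.1 (hFc hx₀) u hu
  rw [← this]
  group

variable {𝔽 : Type*} [Field 𝔽] [Fintype 𝔽] {ψ : G → F2 𝔽} {ρ : G → SL2 𝔽}
  {d : SecL p 𝔽 E ψ ρ} {φ : G → F2 𝔽 → F2 𝔽} {σ : G → 𝔽 →+* 𝔽}

/-- `C₃` type `F` over `F_q`, `q > 3`: the determinant is trivial. -/
theorem four_false (hG : centralizer (YY p G : Set G) ≤ YY p G) {T₁ T₂ : Sylow p G}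
    (hE : IsBaumannBlock p (T₁ : Subgroup G) E) (hF : IsBaumannBlock p (T₂ : Subgroup G) F)
    (hFN : F ≤ normalizer (E : Set G)) (hBN : baumannSubgroupOf p (T₂ : Subgroup G) ≤ normalizer (E : Set G))
    (hp2 : p = 2) (hq : 3 < Fintype.card 𝔽) (P : Phi d φ) (S : Sig P σ) (hK : commutator (SL2 𝔽) = ⊤)
    (hσF : ∀ x ∈ F, σ x = RingHom.id 𝔽)
    {ψF : G → F2 (ZMod 2)} {ρF : G → SL2 (ZMod 2)} (dF : CasesCore.D 2 F (QQ 2 F) (WW 2 F) (ZZ 2 F) ψF ρF)
    {x : G} (hx : x ∈ F) (hdel : del φ x ≠ 1) : False := by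
  classical
  subst hp2
  have vb := CasesCore.exists_VB CasesMat.matFacts2 dF
  have hxN := hFN hx
  -- the finite set `ψ(V_F)`
  let VF : Finset G := ((VV 2 F : Subgroup G) : Set G).toFinite.toFinset
  have hVF : ∀ v, v ∈ VF ↔ v ∈ VV 2 F := fun v => by simp [VF]
  have hcard : VF.card = 4 := by
    have h1 : VF.card = Nat.card ↥(VV 2 F) :=
      (Set.ncard_eq_toFinset_card ((VV 2 F : Subgroup G) : Set G) (Set.toFinite _)).symm.trans
        (Nat.card_coe_set_eq ((VV 2 F : Subgroup G) : Set G)).symm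
    have h2 : Nat.card ↥(VV 2 F) = Nat.card (F2 (ZMod 2)) := by
      apply Nat.card_congr
      refine Equiv.ofBijective (fun v => ψF v) ⟨?_, ?_⟩
      · intro a b h
        exact Subtype.ext (vb.inj _ a.2 _ b.2 h)
      · intro a
        obtain ⟨v, hv, h⟩ := vb.surj a
        exact ⟨⟨v, hv⟩, h⟩
    rw [h1, h2, Nat.card_eq_fintype_card]
    simp [ZMod.card]
  let Sf : Finset (F2 𝔽) := VF.image ψ
  have hSf : ∀ a, a ∈ Sf ↔ ∃ v ∈ VV 2 F, ψ v = a := fun a => by simp [Sf, hVF]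
  have hScard : Sf.card ≤ 4 := hcard ▸ Finset.card_image_le
  -- the map `L`
  have hxlin : ∀ (l : 𝔽) a, φ x (l • a) = l • φ x a := by
    intro l a
    rw [S.h x hxN, hσF x hx]
    rfl
  obtain ⟨a₀, ha₀⟩ : ∃ a₀, a₀ - φ x a₀ ≠ 0 := by
    by_contra hcon
    push Not at hcon
    apply hdel
    have h1 : ∀ a, φ x a = a := fun a => (sub_eq_zero.1 (hcon a)).symm
    simp only [del, h1, dt_e0_e1]
  have hV_M : VV 2 E ≤ MM 2 G := V_le_M hG T₁ hE
  have hL : ∀ a, a - φ x a ∈ Sf := by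
    intro a
    obtain ⟨v, hv, rfl⟩ := psi_V_surj P hK hq a
    have h1 := (P.hcomm x hxN v (V_le_W hv)).2
    rw [← h1]
    exact (hSf _).2 ⟨_, PartFour.M_comm_V hG T₂ hF v (hV_M hv) x hx, rfl⟩
  set v₀ := a₀ - φ x a₀ with hv₀
  have hT : ∀ l : 𝔽, l • v₀ ∈ Sf := by
    intro l
    have h1 := hL (l • a₀)
    have h2 : l • a₀ - φ x (l • a₀) = l • v₀ := by
      rw [hxlin, hv₀, smul_sub]
    rwa [h2] at h1
  let Tf : Finset (F2 𝔽) := Finset.univ.image (fun l : 𝔽 => l • v₀)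
  have hTcard : Tf.card = Fintype.card 𝔽 := by
    apply (Finset.card_image_of_injective _ _).trans Finset.card_univ
    intro l l' h
    have h1 : (l - l') • v₀ = 0 := by
      rw [sub_smul]
      exact sub_eq_zero.2 h
    rcases smul_eq_zero.1 h1 with h2 | h2
    · exact sub_eq_zero.1 h2
    · exact (ha₀ h2).elim
  have hTS : Tf ⊆ Sf := by
    intro a ha
    obtain ⟨l, -, rfl⟩ := Finset.mem_image.1 ha
    exact hT l
  have hq4 : Fintype.card 𝔽 = 4 := by
    have := Finset.card_le_card hTS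
    omega
  have hTeq : Tf = Sf := Finset.eq_of_subset_of_card_le hTS (by omega)
  have hSmem : ∀ a, a ∈ Sf → ∃ l : 𝔽, a = l • v₀ := by
    intro a ha
    rw [← hTeq] at ha
    obtain ⟨l, -, rfl⟩ := Finset.mem_image.1 ha
    exact ⟨l, rfl⟩
  have hinj : Set.InjOn ψ (VF : Set G) := by
    apply Finset.card_image_iff.1
    have h1 : Sf.card = 4 := by
      rw [← hTeq, hTcard, hq4]
    show Sf.card = VF.card
    rw [h1, hcard]
  -- `F` does not centralize `V_E`
  have hnc : ¬ F ≤ centralizer (VV 2 E : Set G) := by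
    intro h
    obtain ⟨v, hv, hv'⟩ := psi_V_surj P hK hq a₀
    have h1 := (P.hcomm x hxN v (V_le_W hv)).2
    have h2 : ⁅v, x⁆ = 1 := by
      have := mem_centralizer_iff.1 (h hx) v hv
      rw [commutatorElement_eq_one_iff_mul_comm]
      exact this
    rw [h2, hv'] at h1
    have h3 := d.a1 1 (one_mem _) 1 (one_mem _)
    simp only [mul_one] at h3
    have h0 : ψ 1 = 0 := by simpa using h3
    rw [h0] at h1
    exact ha₀ h1.symm
  have hVV : VV 2 F ≤ VV 2 E := PartFour.V_le_of_not_cent hG hE hF hFN hnc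
  -- a moving element
  obtain ⟨x₀, hx₀, hρx₀⟩ := dF.a6 _ CasesMat.g2_mem
  obtain ⟨u, hu, huψ⟩ := vb.surj ![1, 0]
  have hune : x₀ * u * x₀⁻¹ ≠ u := by
    intro h
    have h1 := dF.a7 x₀ hx₀ u (V_le_W hu)
    rw [h, hρx₀, huψ] at h1
    have hn0 : (![1, 0] : Fin 2 → ZMod 2) ≠ 0 := by
      intro h0
      have := congrFun h0 0
      simp at this
    have h2 := CasesMat.noEig_g2 ![1, 0] hn0 1
    apply h2
    rw [one_smul]
    exact h1.symm
  obtain ⟨A, hA, a, ha, hac⟩ := exists_moving hG T₂ hF hx₀ hu hune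
  have hAB : A ≤ baumannSubgroupOf 2 (T₂ : Subgroup G) :=
    (le_thompsonSubgroupOf hA).trans (thompson_le_baumann _)
  have hAN : A ≤ normalizer (E : Set G) := hAB.trans hBN
  have hBF : baumannSubgroupOf 2 (T₂ : Subgroup G) ≤ normalizer (F : Set G) :=
    QuadExists.le_normalizer_of_comm hF.2.1.le
  have hσa : σ a = RingHom.id 𝔽 := by
    apply A_linear P S hK hq4 (hV_M.trans ((omegaOneCenter_le _).trans (pCore_le_sylow T₂)))
      (ea_mono (omegaOneCenter_ea _) hV_M) hA rfl hAN _ a ha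
    intro c hc hw
    exact lift_action hG T₁ hE hc hw
  have hanV : a ∈ normalizer (VV 2 F : Set G) := norm_V (hBF (hAB ha))
  have halin : ∀ (l : 𝔽) b, φ a (l • b) = l • φ a b := by
    intro l b
    rw [S.h a (hAN ha), hσa]
    rfl
  have hv₀S : v₀ ∈ Sf := by simpa using hT 1
  obtain ⟨u₀, hu₀, hu₀ψ⟩ := (hSf _).1 hv₀S
  have hφS : ∀ v ∈ VV 2 F, φ a (ψ v) = ψ (a * v * a⁻¹) := fun v hv =>
    P.h1 a (hAN ha) v (V_le_W (hVV hv))
  obtain ⟨c, hc⟩ : ∃ c : 𝔽, φ a v₀ = c • v₀ := by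
    apply hSmem
    rw [← hu₀ψ, hφS u₀ hu₀]
    exact (hSf _).2 ⟨_, (mem_normalizer_iff.1 hanV u₀).1 hu₀, rfl⟩
  have haa : a * a = 1 := by
    have := hA.2.1.2 a ha
    rwa [pow_two] at this
  have hcc : c * c = 1 := by
    have h1 : φ a (φ a v₀) = v₀ := by
      rw [← P.mul (hAN ha) (hAN ha), haa, P.one]
    rw [hc, halin, hc, smul_smul] at h1
    have h2 : (c * c - 1) • v₀ = 0 := by
      rw [sub_smul, h1, one_smul, sub_self]
    rcases smul_eq_zero.1 h2 with h3 | h3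
    · exact sub_eq_zero.1 h3
    · exact (ha₀ h3).elim
  have hc1 : c = 1 := by
    have h2 := FourOffAux.two_eq_zero hq4
    have h3 : (c - 1) * (c - 1) = 0 := by
      linear_combination hcc + (1 - c) * h2
    have := mul_self_eq_zero.1 h3
    exact sub_eq_zero.1 this
  apply hac
  rw [mem_centralizer_iff]
  intro v hv
  have hvS : ψ v ∈ Sf := (hSf _).2 ⟨v, hv, rfl⟩
  obtain ⟨l, hl⟩ := hSmem _ hvS
  have h1 : φ a (ψ v) = ψ v := by
    rw [hl, halin, hc, hc1, one_smul]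
  rw [hφS v hv] at h1
  have hm : a * v * a⁻¹ ∈ VV 2 F := (mem_normalizer_iff.1 hanV v).1 hv
  have h2 : a * v * a⁻¹ = v := hinj (Finset.mem_coe.2 ((hVF _).2 hm)) (Finset.mem_coe.2 ((hVF _).2 hv)) h1
  calc v * a = a * v * a⁻¹ * a := by rw [h2]
    _ = a * v := by group

/-- The cover when `E` is linear with `q > 3`. -/
theorem cover_lin (hG : centralizer (YY p G : Set G) ≤ YY p G) {T₁ T₂ : Sylow p G}
    (hE : IsBaumannBlock p (T₁ : Subgroup G) E) (hF : IsBaumannBlock p (T₂ : Subgroup G) F)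
    (hFN : F ≤ normalizer (E : Set G)) (hBN : baumannSubgroupOf p (T₂ : Subgroup G) ≤ normalizer (E : Set G))
    {n : ℕ} (hc : Fintype.card 𝔽 = p ^ n) (hq : 3 < Fintype.card 𝔽) (d : SecL p 𝔽 E ψ ρ)
    (hK : commutator (SL2 𝔽) = ⊤) :
    ∀ f ∈ F, ∃ e ∈ E, ∀ v ∈ VV p E, f * v * f⁻¹ = e * v * e⁻¹ := by
  classical
  obtain ⟨φ, P⟩ := exists_Phi d
  obtain ⟨σ, S⟩ := exists_sig P hK
  have hσF : ∀ x ∈ F, σ x = RingHom.id 𝔽 := fun x hx => S.trivial_of_comm hF.2.1 hFN hBN hx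
  have hfin : ∀ x ∈ F, del φ x = 1 → ∃ e ∈ E, ∀ v ∈ VV p E, x * v * x⁻¹ = e * v * e⁻¹ := by
    intro x hx hd
    obtain ⟨k, hk⟩ := S.sl_of_del (hFN hx) (hσF x hx) hd
    obtain ⟨e, he, rfl⟩ := d.a6 k (by rw [hK]; exact mem_top _)
    have hn : e⁻¹ * x ∈ normalizer (E : Set G) := mul_mem (inv_mem (le_normalizer he)) (hFN hx)
    exact ⟨e, he, same_of_cent (lift_action hG T₁ hE hn (P.comm_mem_Z_of_eq (hFN hx) he hk))⟩
  have hdmul : ∀ x ∈ F, ∀ y ∈ F, del φ (x * y) = del φ x * del φ y := by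
    intro x hx y hy
    rw [S.del_mul (hFN hx) (hFN hy), hσF x hx]
    rfl
  let δ0 : ↥F →* 𝔽 :=
    { toFun := fun x => del φ (x : G)
      map_one' := S.del_one
      map_mul' := fun x y => hdmul x x.2 y y.2 }
  let χ : ↥F →* 𝔽ˣ := δ0.toHomUnits
  have hχ : ∀ x : ↥F, ((χ x : 𝔽ˣ) : 𝔽) = del φ (x : G) := fun x => rfl
  have hpr : p.Prime := Fact.out
  haveI hch : CharP 𝔽 p := charP_of_card_eq_prime_pow hc
  have hA : ∀ a : 𝔽ˣ, a ^ p = 1 → a = 1 := by
    intro a ha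
    have h1 : ((a : 𝔽)) ^ p = 1 := by
      have := congrArg (fun u : 𝔽ˣ => (u : 𝔽)) ha
      simpa using this
    have h2 : ((a : 𝔽) - 1) ^ p = 0 := by
      rw [sub_pow_char, h1, one_pow, sub_self]
    have h3 : (a : 𝔽) - 1 = 0 := pow_eq_zero_iff hpr.ne_zero |>.1 h2
    exact Units.ext (sub_eq_zero.1 h3)
  rcases block_hom_types T₂ hF hA χ with h | ⟨hp3, h⟩ | ⟨hp2, ψF, ρF, dF⟩
  · intro f hf
    apply hfin f hf
    have := congrArg (fun u : 𝔽ˣ => (u : 𝔽)) (h ⟨f, hf⟩)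
    simpa [hχ] using this
  · -- `p = 3`
    have hsq : ∀ x ∈ F, del φ x = 1 ∨ del φ x = -1 := by
      intro x hx
      have := congrArg (fun u : 𝔽ˣ => (u : 𝔽)) (h ⟨x, hx⟩)
      have h1 : (del φ x) ^ 2 = 1 := by simpa [hχ] using this
      have h2 : (del φ x - 1) * (del φ x + 1) = 0 := by linear_combination h1
      rcases mul_eq_zero.1 h2 with h3 | h3
      · exact Or.inl (sub_eq_zero.1 h3)
      · exact Or.inr (eq_neg_of_add_eq_zero_left h3)
    have hBF : baumannSubgroupOf p (T₂ : Subgroup G) ≤ normalizer (F : Set G) :=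
      QuadExists.le_normalizer_of_comm hF.2.1.le
    let X : Subgroup G :=
      { carrier := {x | x ∈ F ∧ del φ x = 1}
        one_mem' := ⟨one_mem _, S.del_one⟩
        mul_mem' := by
          rintro a b ⟨ha, ha'⟩ ⟨hb, hb'⟩
          exact ⟨mul_mem ha hb, by rw [hdmul a ha b hb, ha', hb', one_mul]⟩
        inv_mem' := by
          rintro a ⟨ha, ha'⟩
          refine ⟨inv_mem ha, ?_⟩
          have h1 := hdmul a ha a⁻¹ (inv_mem ha)
          rw [mul_inv_cancel, S.del_one, ha', one_mul] at h1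
          exact h1.symm }
    have hX : ⁅F, baumannSubgroupOf p (T₂ : Subgroup G)⁆ ≤ X := by
      rw [Subgroup.commutator_le]
      intro f hf b hb
      have hy : b * f⁻¹ * b⁻¹ ∈ F := (mem_normalizer_iff.1 (hBF hb) _).1 (inv_mem hf)
      have he : ⁅f, b⁆ = f * (b * f⁻¹ * b⁻¹) := by
        rw [commutatorElement_def]; group
      rw [he]
      refine ⟨mul_mem hf hy, ?_⟩
      rw [hdmul f hf _ hy, S.del_conj (hBN hb) (hFN (inv_mem hf)) (hσF _ hy)]
      have h1 : σ b (del φ f⁻¹) = del φ f⁻¹ := by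
        rcases hsq _ (inv_mem hf) with h2 | h2
        · rw [h2, map_one]
        · rw [h2, map_neg, map_one]
      rw [h1, ← hdmul f hf _ (inv_mem hf), mul_inv_cancel, S.del_one]
    rw [hF.2.1] at hX
    exact fun f hf => hfin f hf (hX hf).2
  · by_cases hall : ∀ x ∈ F, del φ x = 1
    · exact fun f hf => hfin f hf (hall f hf)
    · push Not at hall
      obtain ⟨x, hx, hd⟩ := hall
      exact (four_false hG hE hF hFN hBN hp2 hq P S hK hσF dF hx hd).elim

end Cfsg.Agent.Lib.BlockZ
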