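import Mathlib
import Cfsg.Agent.Lib.BlockX.RawQuad
import Cfsg.Agent.Lib.BlockY.CasesMat

/-! Piece CF of Z4 (S2987): additive maps of `F₂²`, `F₃²` and `SL₂(3)`. -/

set_option autoImplicit false

namespace Cfsg.Agent.Lib.BlockZ
open Subgroup Cfsg Matrix Cfsg.Agent.Lib.BlockX Cfsg.Agent.Lib.BlockY.CasesMat

section small

theorem additive_two_cases : ∀ a b : Fin 2 → ZMod 2,
    let g : (Fin 2 → ZMod 2) → (Fin 2 → ZMod 2) := fun x => x 0 • a + x 1 • b
    (∀ x, g (g (g x)) = x) ∨ (∃ x y, x ≠ y ∧ g x = g y) ∨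
      ((∀ x, g (g x) = x) ∧ ∃ x, g x ≠ x) := by
  decide +kernel

theorem additive_two_form {f : F2 (ZMod 2) → F2 (ZMod 2)} (hadd : ∀ x y, f (x + y) = f x + f y)
    (x : F2 (ZMod 2)) : f x = x 0 • f ![1, 0] + x 1 • f ![0, 1] := by
  have h0 : f 0 = 0 := by
    have := hadd 0 0
    rw [add_zero] at this
    exact left_eq_add.mp this
  have hs : ∀ (c : ZMod 2) (v : F2 (ZMod 2)), f (c • v) = c • f v := by
    intro c v
    have hc : c = 0 ∨ c = 1 := by revert c; decide
    rcases hc with rfl | rfl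
    · simp [h0]
    · simp
  have hx : x = x 0 • ![1, 0] + x 1 • ![0, 1] := by
    funext i
    fin_cases i <;> simp
  conv_lhs => rw [hx]
  rw [hadd, hs, hs]

/-- CF1: odd order additive bijection of `F2 (ZMod 2)`: cube is the identity. -/
theorem cube_of_odd {f : F2 (ZMod 2) → F2 (ZMod 2)} (hadd : ∀ x y, f (x + y) = f x + f y)
    {m : ℕ} (hm : Odd m) (h : ∀ x, f^[m] x = x) : ∀ x, f (f (f x)) = x := by
  have hform := additive_two_form hadd
  have hf : f = fun x : Fin 2 → ZMod 2 => x 0 • f ![1, 0] + x 1 • f ![0, 1] := funext hform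
  rcases additive_two_cases (f ![1, 0]) (f ![0, 1]) with h1 | h1 | h1
  · intro x
    have := h1 x
    simp only [← hform] at this
    exact this
  · exfalso
    obtain ⟨x, y, hxy, he⟩ := h1
    simp only [← hform] at he
    apply hxy
    obtain ⟨k, rfl⟩ := hm
    have hi : f^[2 * k + 1] = f^[2 * k] ∘ f := Function.iterate_succ f (2 * k)
    have hx := h x
    have hy := h y
    rw [hi] at hx hy
    simp only [Function.comp_apply] at hx hy
    rw [← hx, ← hy, he]
  · exfalso
    obtain ⟨h2, x, hx⟩ := h1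
    simp only [← hform] at h2 hx
    apply hx
    obtain ⟨k, rfl⟩ := hm
    have hk : ∀ n y, f^[2 * n] y = y := by
      intro n
      induction n with
      | zero => intro y; rfl
      | succ n ih =>
        intro y
        have : 2 * (n + 1) = 2 * n + 2 := by ring
        rw [this, Function.iterate_add_apply]
        exact (ih _).trans (h2 y)
    have h3 := h x
    have : f^[2 * k + 1] = f^[2 * k] ∘ f := Function.iterate_succ f (2 * k)
    rw [this] at h3
    simp only [Function.comp_apply] at h3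
    rwa [hk] at h3

/-- CF2: `k ∈ SL₂(3)` of order prime to 3 lies in the commutator subgroup Q8. -/
theorem mem_K_of_coprime {k : SL2 (ZMod 3)} {m : ℕ} (hm : m.Coprime 3) (h : k ^ m = 1) :
    k ∈ commutator (SL2 (ZMod 3)) := by
  have h1 : phi3 k ^ m = 1 := by rw [← map_pow, h, map_one]
  have h3 : ∀ x : Multiplicative (ZMod 3), x ^ 3 = 1 := by decide
  have h4 : phi3 k = 1 := by
    have hd1 : orderOf (phi3 k) ∣ m := orderOf_dvd_of_pow_eq_one h1
    have hd2 : orderOf (phi3 k) ∣ 3 := orderOf_dvd_of_pow_eq_one (h3 _)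
    have hd3 : orderOf (phi3 k) ∣ Nat.gcd m 3 := Nat.dvd_gcd hd1 hd2
    rw [hm] at hd3
    exact orderOf_eq_one_iff.1 (Nat.dvd_one.1 hd3)
  have h5 : k.1 1 0 * k.1 1 1 + k.1 0 1 * k.1 1 1 + k.1 0 0 * k.1 1 0 -
      k.1 0 1 * k.1 1 0 * k.1 1 0 * k.1 1 1 = 0 := h4
  rcases list3 _ _ _ _ (SLn.det_SL2 k) h5 with ⟨a, b, c, d⟩ | ⟨a, b, c, d⟩ | h6
  · have : k = 1 := SLn.SL2_ext (by rw [a, SLn.one_00]) (by rw [b, SLn.one_01])
      (by rw [c, SLn.one_10]) (by rw [d, SLn.one_11])
    rw [this]; exact one_mem _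
  · have : k = -1 := SLn.SL2_ext (by rw [a, SLn.neg_00, SLn.one_00])
      (by rw [b, SLn.neg_01, SLn.one_01]; simp)
      (by rw [c, SLn.neg_10, SLn.one_10]; simp) (by rw [d, SLn.neg_11, SLn.one_11])
    rw [this]; exact neg_one_mem_K
  · exact K3_of_trace h6

/-- CF3: additive maps of `F2 (ZMod 3)` are `ZMod 3`-linear. -/
theorem linear_three {f : F2 (ZMod 3) → F2 (ZMod 3)} (hadd : ∀ x y, f (x + y) = f x + f y) :
    ∀ (l : ZMod 3) x, f (l • x) = l • f x := by
  have h0 : f 0 = 0 := by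
    have := hadd 0 0
    rw [add_zero] at this
    exact left_eq_add.mp this
  intro l x
  have hl : l = 0 ∨ l = 1 ∨ l = 2 := by revert l; decide
  rcases hl with rfl | rfl | rfl
  · simp [h0]
  · simp
  · rw [two_smul, two_smul, hadd]

end small

end Cfsg.Agent.Lib.BlockZ
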