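import Mathlib
import Cfsg.Prelude.Def_BaumannBlocks
import Cfsg.Agent.Lib.BlockZ.Phi
import Cfsg.Agent.Lib.BlockZ.Lift
import Cfsg.Agent.Lib.BlockZ.Small23
import Cfsg.Agent.Lib.BlockY.CasesCore

/-! Piece CS3 of Z4 (S2987): a block normalizing a block `E` of type `q = 3` acts on `V_E` as `E` does. -/

set_option linter.unusedSectionVars false
set_option linter.unusedVariables false
set_option linter.style.longLine false

namespace Cfsg.Agent.Lib.BlockZ
open Subgroup Cfsg Matrix Cfsg.Agent.Lib.BlockX Cfsg.Agent.Lib.BlockY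
open scoped commutatorElement

namespace CoverThreeAux

/-- the matrix of an additive self-map of `F₃²` -/
def mat3 (f : F2 (ZMod 3) → F2 (ZMod 3)) : Matrix (Fin 2) (Fin 2) (ZMod 3) :=
  !![f ![1, 0] 0, f ![0, 1] 0; f ![1, 0] 1, f ![0, 1] 1]

theorem mat3_mulVec {f : F2 (ZMod 3) → F2 (ZMod 3)} (hadd : ∀ x y, f (x + y) = f x + f y)
    (x : F2 (ZMod 3)) : (mat3 f).mulVec x = f x := by
  have hlin := linear_three hadd
  have hx : x = x 0 • ![1, 0] + x 1 • ![0, 1] := by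
    funext i
    fin_cases i <;> simp
  conv_rhs => rw [hx, hadd, hlin, hlin]
  funext i
  fin_cases i <;> simp [mat3, mulVec, dotProduct, Fin.sum_univ_two] <;> ring

theorem mat3_comp {f g : F2 (ZMod 3) → F2 (ZMod 3)} (hf : ∀ x y, f (x + y) = f x + f y)
    (hg : ∀ x y, g (x + y) = g x + g y) : mat3 (fun x => f (g x)) = mat3 f * mat3 g := by
  have key : ∀ x, (mat3 f * mat3 g).mulVec x = f (g x) := by
    intro x
    rw [← Matrix.mulVec_mulVec, mat3_mulVec hg, mat3_mulVec hf]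
  have e0 : ∀ i, (mat3 f * mat3 g) i 0 = ((mat3 f * mat3 g).mulVec ![1, 0]) i := by
    intro i
    simp [mulVec, dotProduct, Fin.sum_univ_two]
  have e1 : ∀ i, (mat3 f * mat3 g) i 1 = ((mat3 f * mat3 g).mulVec ![0, 1]) i := by
    intro i
    simp [mulVec, dotProduct, Fin.sum_univ_two]
  ext i j
  fin_cases j
  · show _ = (mat3 f * mat3 g) i 0
    rw [e0, key]
    fin_cases i <;> rfl
  · show _ = (mat3 f * mat3 g) i 1
    rw [e1, key]
    fin_cases i <;> rfl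

theorem mat3_id : mat3 (fun x => x) = 1 := by
  ext i j
  fin_cases i <;> fin_cases j <;> simp [mat3]

variable {G : Type*} [Group G] [Finite G] {E F : Subgroup G}
  {ψ : G → F2 (ZMod 3)} {ρ : G → SL2 (ZMod 3)} {d : SecL 3 (ZMod 3) E ψ ρ} {φ : G → F2 (ZMod 3) → F2 (ZMod 3)}

theorem det_mul (P : Phi d φ) {g h : G} (hg : g ∈ normalizer (E : Set G)) (hh : h ∈ normalizer (E : Set G)) :
    (mat3 (φ (g * h))).det = (mat3 (φ g)).det * (mat3 (φ h)).det := by
  have e : φ (g * h) = fun x => φ g (φ h x) := funext fun x => P.mul hg hh x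
  rw [e, mat3_comp (P.hadd g hg) (P.hadd h hh), Matrix.det_mul]

theorem det_one (P : Phi d φ) : (mat3 (φ (1 : G))).det = 1 := by
  have e : φ (1 : G) = fun x => x := funext fun x => P.one x
  rw [e, mat3_id, Matrix.det_one]

theorem det_inv (P : Phi d φ) {g : G} (hg : g ∈ normalizer (E : Set G)) :
    (mat3 (φ g⁻¹)).det * (mat3 (φ g)).det = 1 := by
  rw [← det_mul P (inv_mem hg) hg, inv_mul_cancel, det_one P]

/-- `det φ` is trivial on commutators of `N(E)`. -/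
theorem det_comm (P : Phi d φ) {g h : G} (hg : g ∈ normalizer (E : Set G)) (hh : h ∈ normalizer (E : Set G)) :
    (mat3 (φ ⁅g, h⁆)).det = 1 := by
  rw [commutatorElement_def, det_mul P (mul_mem (mul_mem hg hh) (inv_mem hg)) (inv_mem hh),
    det_mul P (mul_mem hg hh) (inv_mem hg), det_mul P hg hh]
  have h1 := det_inv P hg
  have h2 := det_inv P hh
  calc (mat3 (φ g)).det * (mat3 (φ h)).det * (mat3 (φ g⁻¹)).det * (mat3 (φ h⁻¹)).det
      = ((mat3 (φ g⁻¹)).det * (mat3 (φ g)).det) * ((mat3 (φ h⁻¹)).det * (mat3 (φ h)).det) := by ring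
    _ = 1 := by rw [h1, h2, one_mul]

/-- The subgroup of `N(E)` where `det φ` is trivial. -/
def detOne (P : Phi d φ) : Subgroup G where
  carrier := {g | g ∈ normalizer (E : Set G) ∧ (mat3 (φ g)).det = 1}
  one_mem' := ⟨one_mem _, det_one P⟩
  mul_mem' := by
    rintro a b ⟨ha, ha'⟩ ⟨hb, hb'⟩
    refine ⟨mul_mem ha hb, ?_⟩
    rw [det_mul P ha hb, ha', hb', one_mul]
  inv_mem' := by
    rintro a ⟨ha, ha'⟩
    refine ⟨inv_mem ha, ?_⟩
    have := det_inv P ha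
    rwa [ha', mul_one] at this

theorem pow_act (P : Phi d φ) {f : G} (hf : f ∈ normalizer (E : Set G)) {k : SL2 (ZMod 3)}
    (hk : ∀ x, sact k x = φ f x) (n : ℕ) (x : F2 (ZMod 3)) : sact (k ^ n) x = φ (f ^ n) x := by
  induction n generalizing x with
  | zero => simp only [pow_zero]; rw [RawQuad.sact_one, P.one]
  | succ n ih =>
    rw [pow_succ, pow_succ, RawQuad.sact_mul, P.mul (pow_mem hf n) hf, hk, ih]

end CoverThreeAux

open CoverThreeAux

variable {G : Type*} [Group G] [Finite G] {E F : Subgroup G}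

/-- PIECE CS3. -/
theorem cover_three {T₁ T₂ : Sylow 3 G} (hG : centralizer (YY 3 G : Set G) ≤ YY 3 G)
    (hE : IsBaumannBlock 3 (T₁ : Subgroup G) E) (hF : IsBaumannBlock 3 (T₂ : Subgroup G) F)
    (hFN : F ≤ normalizer (E : Set G)) (hBN : baumannSubgroupOf 3 (T₂ : Subgroup G) ≤ normalizer (E : Set G))
    {ψ : G → F2 (ZMod 3)} {ρ : G → SL2 (ZMod 3)}
    (d : CasesCore.D 3 E (QQ 3 E) (WW 3 E) (ZZ 3 E) ψ ρ) :
    ∀ f ∈ F, ∃ e ∈ E, ∀ v ∈ VV 3 E, f * v * f⁻¹ = e * v * e⁻¹ := by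
  have d' : SecL 3 (ZMod 3) E ψ ρ := ⟨d.a1, d.a2, d.a3, d.a4, d.a5, d.a6, d.a7⟩
  obtain ⟨φ, P⟩ := exists_Phi d'
  -- `det φ` trivial on `F`
  have hFdet : F ≤ detOne P := by
    conv_lhs => rw [← hF.2.1]
    rw [Subgroup.commutator_le]
    intro f hf b hb
    refine ⟨?_, det_comm P (hFN hf) (hBN hb)⟩
    rw [commutatorElement_def]
    exact mul_mem (mul_mem (mul_mem (hFN hf) (hBN hb)) (inv_mem (hFN hf))) (inv_mem (hBN hb))
  -- the target subgroup
  let X : Subgroup G :=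
    { carrier := {f | f ∈ normalizer (E : Set G) ∧ ∃ e ∈ E, ∀ v ∈ VV 3 E, f * v * f⁻¹ = e * v * e⁻¹}
      one_mem' := ⟨one_mem _, 1, one_mem _, fun v _ => by simp⟩
      mul_mem' := by
        rintro a b ⟨ha, e₁, he₁, h₁⟩ ⟨hb, e₂, he₂, h₂⟩
        refine ⟨mul_mem ha hb, e₁ * e₂, mul_mem he₁ he₂, fun v hv => ?_⟩
        have hv' : e₂ * v * e₂⁻¹ ∈ VV 3 E := (mem_normalizer_iff.1 (norm_V (le_normalizer he₂)) v).1 hv
        calc a * b * v * (a * b)⁻¹ = a * (b * v * b⁻¹) * a⁻¹ := by group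
          _ = a * (e₂ * v * e₂⁻¹) * a⁻¹ := by rw [h₂ v hv]
          _ = e₁ * (e₂ * v * e₂⁻¹) * e₁⁻¹ := h₁ _ hv'
          _ = _ := by group
      inv_mem' := by
        rintro a ⟨ha, e₁, he₁, h₁⟩
        refine ⟨inv_mem ha, e₁⁻¹, inv_mem he₁, fun v hv => ?_⟩
        have hw : a⁻¹ * v * a⁻¹⁻¹ ∈ VV 3 E := (mem_normalizer_iff.1 (norm_V (inv_mem ha)) v).1 hv
        have h2 := h₁ _ hw
        have h3 : a * (a⁻¹ * v * a⁻¹⁻¹) * a⁻¹ = v := by group
        rw [h3] at h2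
        have h4 : e₁⁻¹ * v * e₁⁻¹⁻¹ = a⁻¹ * v * a⁻¹⁻¹ := by
          calc e₁⁻¹ * v * e₁⁻¹⁻¹ = e₁⁻¹ * (e₁ * (a⁻¹ * v * a⁻¹⁻¹) * e₁⁻¹) * e₁⁻¹⁻¹ := by rw [← h2]
            _ = _ := by group
        exact h4.symm }
  have hFX : F ≤ X := by
    apply Cfsg.Agent.Lib.PGroup.BaumannNorm.forall_mem_of_pResidualOf hF.1
    intro f hf hco
    have hfN := hFN hf
    refine ⟨hfN, ?_⟩
    have hdet : (mat3 (φ f)).det = 1 := (hFdet hf).2
    let k : SL2 (ZMod 3) := ⟨mat3 (φ f), hdet⟩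
    have hk : ∀ x, sact k x = φ f x := fun x => mat3_mulVec (P.hadd f hfN) x
    have hkm : k ^ orderOf f = 1 := by
      apply RawQuad.sl_ext
      intro x
      rw [pow_act P hfN hk, pow_orderOf_eq_one, P.one, RawQuad.sact_one]
    have hK := mem_K_of_coprime hco hkm
    obtain ⟨e, he, hek⟩ := d'.a6 k hK
    refine ⟨e, he, ?_⟩
    have hact : ∀ a, φ f a = sact (ρ e) a := fun a => by rw [hek, hk]
    have h1 := P.comm_mem_Z_of_eq hfN he hact
    have h2 := lift_action hG T₁ hE (mul_mem (inv_mem (le_normalizer he)) hfN) h1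
    exact same_of_cent h2
  intro f hf
  exact (hFX hf).2

end Cfsg.Agent.Lib.BlockZ
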