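import Mathlib
import Cfsg.Prelude.Def_BaumannBlocks
import Cfsg.Agent.Lib.BlockZ.Phi
import Cfsg.Agent.Lib.BlockZ.Lift
import Cfsg.Agent.Lib.BlockZ.Small23
import Cfsg.Agent.Lib.BlockY.Cases

/-! Piece CS2 of Z4 (S2987): the cover when `E` has type `q = 2`. -/

set_option linter.unusedSectionVars false
set_option linter.unusedVariables false
set_option linter.style.longLine false

namespace Cfsg.Agent.Lib.BlockZ
open Subgroup Cfsg Matrix Cfsg.Agent.Lib.BlockX Cfsg.Agent.Lib.BlockY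
open Cfsg.Agent.Lib.PGroup.BaumannNorm
open scoped commutatorElement

namespace CoverTwo

open Cfsg.Agent.Lib.BlockY.CasesMat in
theorem three_form : ∀ a b : Fin 2 → ZMod 2,
    let g : (Fin 2 → ZMod 2) → (Fin 2 → ZMod 2) := fun x => x 0 • a + x 1 • b
    (∀ x, g (g (g x)) = x) → (∀ x, g x = x) ∨ (∀ x, g x = sact g2 x) ∨ (∀ x, g x = sact (g2 * g2) x) := by
  decide +kernel

open Cfsg.Agent.Lib.BlockY.CasesMat in
/-- an additive map of `F₂²` of cube one is an element of the commutator subgroup. -/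
theorem exists_K {f : F2 (ZMod 2) → F2 (ZMod 2)} (hadd : ∀ x y, f (x + y) = f x + f y)
    (h3 : ∀ x, f (f (f x)) = x) : ∃ k ∈ commutator (SL2 (ZMod 2)), ∀ x, f x = sact k x := by
  have hform := additive_two_form hadd
  have h3' := three_form (f ![1, 0]) (f ![0, 1])
  simp only [← hform] at h3'
  rcases h3' h3 with h | h | h
  · refine ⟨1, one_mem _, fun x => ?_⟩
    rw [h x]
    simp [sact]
  · exact ⟨g2, g2_mem, h⟩
  · exact ⟨g2 * g2, mul_mem g2_mem g2_mem, h⟩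

end CoverTwo

variable {G : Type*} [Group G] [Finite G] {E F : Subgroup G} {T₁ T₂ : Sylow 2 G}

/-- PIECE CS2: `E` of type `q=2` or `A₃`. -/
theorem cover_two (hG : centralizer (YY 2 G : Set G) ≤ YY 2 G)
    (hE : IsBaumannBlock 2 (T₁ : Subgroup G) E) (hF : IsBaumannBlock 2 (T₂ : Subgroup G) F)
    (hFN : F ≤ normalizer (E : Set G)) {ψ : G → F2 (ZMod 2)} {ρ : G → SL2 (ZMod 2)}
    (d : CasesCore.D 2 E (QQ 2 E) (WW 2 E) (ZZ 2 E) ψ ρ) :
    ∀ f ∈ F, ∃ e ∈ E, ∀ v ∈ VV 2 E, f * v * f⁻¹ = e * v * e⁻¹ := by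
  have dL : SecL 2 (ZMod 2) E ψ ρ := ⟨d.a1, d.a2, d.a3, d.a4, d.a5, d.a6, d.a7⟩
  obtain ⟨φ, P⟩ := exists_Phi dL
  have hEV : ∀ e ∈ E, ∀ v ∈ VV 2 E, e * v * e⁻¹ ∈ VV 2 E := by
    intro e he v hv
    exact (mem_normalizer_iff.1 (norm_V (le_normalizer he)) v).1 hv
  let X : Subgroup G :=
    { carrier := {f | ∃ e ∈ E, ∀ v ∈ VV 2 E, f * v * f⁻¹ = e * v * e⁻¹}
      one_mem' := ⟨1, one_mem _, fun v _ => by simp⟩
      mul_mem' := by
        rintro f₁ f₂ ⟨e₁, he₁, h₁⟩ ⟨e₂, he₂, h₂⟩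
        refine ⟨e₁ * e₂, mul_mem he₁ he₂, fun v hv => ?_⟩
        have h3 := h₁ _ (hEV e₂ he₂ v hv)
        rw [← h₂ v hv] at h3
        calc f₁ * f₂ * v * (f₁ * f₂)⁻¹ = f₁ * (f₂ * v * f₂⁻¹) * f₁⁻¹ := by group
          _ = e₁ * (f₂ * v * f₂⁻¹) * e₁⁻¹ := h3
          _ = e₁ * (e₂ * v * e₂⁻¹) * e₁⁻¹ := by rw [h₂ v hv]
          _ = e₁ * e₂ * v * (e₁ * e₂)⁻¹ := by group
      inv_mem' := by
        rintro f ⟨e, he, h⟩
        refine ⟨e⁻¹, inv_mem he, fun v hv => ?_⟩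
        have hv' := hEV e⁻¹ (inv_mem he) v hv
        have h3 := h _ hv'
        have h4 : e * (e⁻¹ * v * e⁻¹⁻¹) * e⁻¹ = v := by group
        rw [h4] at h3
        calc f⁻¹ * v * f⁻¹⁻¹ = f⁻¹ * (f * (e⁻¹ * v * e⁻¹⁻¹) * f⁻¹) * f⁻¹⁻¹ := by rw [h3]
          _ = e⁻¹ * v * e⁻¹⁻¹ := by group }
  have hle : F ≤ X := by
    apply forall_mem_of_pResidualOf hF.1
    intro f hf hcop
    have hfN := hFN hf
    have hadd := P.hadd f hfN
    have hodd : Odd (orderOf f) := by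
      have h2 : ¬ 2 ∣ orderOf f := (Nat.Prime.coprime_iff_not_dvd Nat.prime_two).1 hcop.symm
      rw [Nat.odd_iff]
      omega
    have hpow : ∀ (n : ℕ) (x : F2 (ZMod 2)), (φ f)^[n] x = φ (f ^ n) x := by
      intro n
      induction n with
      | zero =>
        intro x
        simp [P.one]
      | succ n ih =>
        intro x
        rw [Function.iterate_succ_apply', ih, pow_succ', P.mul hfN (pow_mem hfN n)]
    have hm : ∀ x, (φ f)^[orderOf f] x = x := by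
      intro x
      rw [hpow, pow_orderOf_eq_one, P.one]
    have h3 := cube_of_odd hadd hodd hm
    obtain ⟨k, hk, hkf⟩ := CoverTwo.exists_K hadd h3
    obtain ⟨e, he, rfl⟩ := d.a6 k hk
    refine ⟨e, he, ?_⟩
    have hc := lift_action hG T₁ hE (mul_mem (inv_mem (le_normalizer he)) hfN)
      (P.comm_mem_Z_of_eq hfN he hkf)
    exact same_of_cent hc
  intro f hf
  exact hle hf

end Cfsg.Agent.Lib.BlockZ
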