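import Mathlib
import Cfsg.Prelude.Def_BaumannBlocks
import Cfsg.Agent.Lib.BlockZ.CoverLin
import Cfsg.Agent.Lib.BlockZ.CoverTwo
import Cfsg.Agent.Lib.BlockZ.CoverThree
import Cfsg.Agent.Lib.BlockZ.CoverAlt
import Cfsg.Agent.Lib.BlockY.Cases

/-! Z4 of S2987: a block normalizing a block `E` acts on `V_E` as `E` does. -/

set_option linter.unusedSectionVars false
set_option linter.unusedVariables false
set_option linter.style.longLine false

namespace Cfsg.Agent.Lib.BlockZ
open Subgroup Cfsg Matrix Cfsg.Agent.Lib.BlockX Cfsg.Agent.Lib.BlockY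
open Cfsg.Agent.Lib.PGroup.BaumannSect

/-- PIECE Z4. -/
theorem cover {G : Type*} [Group G] [Finite G] {p : ℕ} [Fact p.Prime] {E F : Subgroup G}
    (hG : centralizer (YY p G : Set G) ≤ YY p G) {T₁ T₂ : Sylow p G}
    (hE : IsBaumannBlock p (T₁ : Subgroup G) E) (hF : IsBaumannBlock p (T₂ : Subgroup G) F)
    (hFN : F ≤ normalizer (E : Set G)) (hBN : baumannSubgroupOf p (T₂ : Subgroup G) ≤ normalizer (E : Set G)) :
    ∀ f ∈ F, ∃ e ∈ E, ∀ v ∈ VV p E, f * v * f⁻¹ = e * v * e⁻¹ := by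
  have hpr : p.Prime := Fact.out
  rcases hE.2.2.2.2 with ⟨𝔽, _, _, n, hc, ⟨hiso⟩, hact, _⟩ | ⟨hp2, m, ⟨hiso⟩, hact, _⟩
  · by_cases hq : 3 < Fintype.card 𝔽
    · obtain ⟨ψ, ρ, d⟩ := secL_of hact
      have hK : commutator (SL2 𝔽) = ⊤ := (Cases.sl2_quasi' hq).1.commutator_eq_top
      exact cover_lin hG hE hF hFN hBN hc hq d hK
    · have h2 := Fintype.one_lt_card (α := 𝔽)
      have hn : n = 1 := by
        rcases n with _ | _ | n
        · simp at hc; omega
        · rfl
        · exfalso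
          have h3 : p ^ 2 ≤ p ^ (n + 1 + 1) := Nat.pow_le_pow_right hpr.pos (by omega)
          have h4 : 2 ^ 2 ≤ p ^ 2 := Nat.pow_le_pow_left hpr.two_le 2
          omega
      subst hn
      rw [pow_one] at hc
      have hp : p = 2 ∨ p = 3 := by
        have := hpr.two_le
        omega
      obtain ⟨ψ, ρ, d⟩ := Cases.data_of_linear hc ⟨hiso⟩ hact
      rcases hp with rfl | rfl
      · exact cover_two hG hE hF hFN d
      · exact cover_three hG hE hF hFN hBN d
  · subst hp2
    rcases m with _ | _ | m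
    · exact (not_alt_one hE ⟨hiso⟩).elim
    · obtain ⟨ψ, ρ, d⟩ := Cases.data_of_alt ⟨hiso⟩ hact
      exact cover_two hG hE hF hFN d
    · exact cover_alt hG hE hF hFN (by omega) hact

end Cfsg.Agent.Lib.BlockZ
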