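import Mathlib
import Cfsg.Agent.Lib.BlockX.RawQuad
import Cfsg.Agent.Lib.PGroup.BaumannSect

/-! Piece Z2 of S2987: the fixed vector of a `2`-group on a non-split natural `SL₂(q)`-module,
`q ≥ 4` even. -/

set_option autoImplicit false

namespace Cfsg.Agent.Lib.BlockZ.FixCore

open Subgroup Cfsg Cfsg.Agent.Lib.BlockX Matrix Cfsg.Agent.Lib.BlockX.RawQuad
open Cfsg.Agent.Lib.PGroup.BaumannSect
open scoped commutatorElement

variable {G : Type*} [Group G]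

/-- A vector outside `P` fixed modulo `P`. -/
theorem exists_fixed_mod [Finite G] {p : ℕ} [Fact p.Prime] {S V P : Subgroup G} (hS : IsPGroup p S)
    (hV : IsPGroup p V) (hSV : S ≤ normalizer (V : Set G)) (hPV : ¬ V ≤ P) :
    ∃ y ∈ V, y ∉ P ∧ ∀ t ∈ S, ⁅y, t⁆ ∈ P := by
  classical
  have hex : ∃ k, commChain V S k ≤ P := by
    obtain ⟨k, hk⟩ := exists_commChain_eq_bot hV hS hSV
    exact ⟨k, by rw [hk]; exact bot_le⟩
  have hspec := Nat.find_spec hex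
  have hmin := fun m => Nat.find_min (H := hex) (m := m)
  rcases hk : Nat.find hex with _ | j
  · rw [hk] at hspec
    exact (hPV hspec).elim
  · rw [hk] at hspec
    have hj : ¬ commChain V S j ≤ P := hmin j (by omega)
    obtain ⟨y, hy, hyP⟩ := SetLike.not_le_iff_exists.1 hj
    refine ⟨y, commChain_le hSV j hy, hyP, fun t ht => hspec ?_⟩
    exact Subgroup.commutator_mem_commutator hy ht

variable {F : Type*} [Field F]

/-- The data of a block with `Q = W = V` in characteristic two, `K = SL₂(F)`. -/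
structure N2 (E W Z : Subgroup G) (ψ : G → F2 F) (ρ : G → SL2 F) : Prop where
  h2 : (2 : F) = 0
  hEW : ∀ e ∈ E, ∀ w ∈ W, e * w * e⁻¹ ∈ W
  hZW : Z ≤ W
  hZE : ∀ z ∈ Z, ∀ e ∈ E, e * z * e⁻¹ = z
  hWc : ∀ x ∈ W, ∀ y ∈ W, x * y = y * x
  hW2 : ∀ w ∈ W, w * w = 1
  a1 : ∀ x ∈ W, ∀ y ∈ W, ψ (x * y) = ψ x + ψ y
  a2 : ∀ b, ∃ u ∈ W, ψ u = b
  a3 : ∀ u ∈ W, ψ u = 0 ↔ u ∈ Z
  a4 : ∀ x ∈ E, ∀ y ∈ E, ρ (x * y) = ρ x * ρ y
  a6 : ∀ k, ∃ e ∈ E, ρ e = k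
  a7 : ∀ e ∈ E, ∀ u ∈ W, ψ (e * u * e⁻¹) = sact (ρ e) (ψ u)
  a8 : ∀ e ∈ E, ρ e = 1 → ∀ w ∈ W, e * w * e⁻¹ = w

/-- The upper unitriangular element. -/
def up (s : F) : SL2 F := ⟨!![1, s; 0, 1], by simp [Matrix.det_fin_two_of]⟩

/-- The diagonal element. -/
def tor (l : F) (hl : l ≠ 0) : SL2 F := ⟨!![l, 0; 0, l⁻¹], by simp [Matrix.det_fin_two_of, hl]⟩

omit [Field F] in
theorem ext2 {a b : F2 F} (h0 : a 0 = b 0) (h1 : a 1 = b 1) : a = b := by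
  funext i
  fin_cases i
  · exact h0
  · exact h1

theorem sact_up (s : F) (a : F2 F) : sact (up s) a = ![a 0 + s * a 1, a 1] := by
  apply ext2 <;> simp [sact, up, mulVec, dotProduct, Fin.sum_univ_two]

theorem sact_tor (l : F) (hl : l ≠ 0) (a : F2 F) : sact (tor l hl) a = ![l * a 0, l⁻¹ * a 1] := by
  apply ext2 <;> simp [sact, tor, mulVec, dotProduct, Fin.sum_univ_two]

theorem up_zero : up (0 : F) = 1 := by
  apply sl_ext
  intro x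
  rw [sact_up, sact_one]
  apply ext2 <;> simp

theorem up_mul (s s' : F) : up s * up s' = up (s + s') := by
  apply sl_ext
  intro x
  rw [sact_mul, sact_up, sact_up, sact_up]
  apply ext2 <;> simp
  ring

theorem tor_conj (l : F) (hl : l ≠ 0) (s : F) : tor l hl * up s * (tor l hl)⁻¹ = up (l * l * s) := by
  rw [mul_inv_eq_iff_eq_mul]
  apply sl_ext
  intro x
  rw [sact_mul, sact_mul, sact_up, sact_tor, sact_tor, sact_up]
  apply ext2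
  · simp
    field_simp
  · simp

section
variable {E W Z : Subgroup G} {ψ : G → F2 F} {ρ : G → SL2 F} (d : N2 E W Z ψ ρ)
include d

theorem N2.rho_one : ρ 1 = 1 := by
  have h1 := d.a4 1 E.one_mem 1 E.one_mem
  simp only [mul_one] at h1
  simpa using h1

theorem N2.rho_inv {e : G} (he : e ∈ E) : ρ e⁻¹ = (ρ e)⁻¹ := by
  have h1 := d.a4 e he e⁻¹ (E.inv_mem he)
  rw [mul_inv_cancel, d.rho_one] at h1
  exact eq_inv_of_mul_eq_one_right h1.symm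

theorem N2.psi_one : ψ 1 = 0 := by
  have h1 := d.a1 1 W.one_mem 1 W.one_mem
  simp only [mul_one] at h1
  simpa using h1

theorem N2.add_self (a : F2 F) : a + a = 0 := by
  funext i
  have h : a i + a i = (2 : F) * a i := by ring
  simp [h, d.h2]

theorem N2.inv_eq {w : G} (hw : w ∈ W) : w⁻¹ = w :=
  inv_eq_of_mul_eq_one_left (d.hW2 w hw)

/-- Fibres over the root line, same parameter. -/
theorem N2.A0 {e x : G} (he : e ∈ E) (hx : x ∈ W) {μ : F} (hρ : ρ e = up μ) (hψ : ψ x = ![μ, 0]) :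
    e * x * e⁻¹ = x := by
  obtain ⟨y₁, hy₁, hψ₁⟩ := d.a2 ![0, 1]
  have hy₂ : e * y₁ * e⁻¹ ∈ W := d.hEW e he y₁ hy₁
  have hψ₂ : ψ (e * y₁ * e⁻¹) = ![μ, 1] := by
    rw [d.a7 e he y₁ hy₁, hρ, hψ₁, sact_up]
    apply ext2 <;> simp
  have hee : ρ (e * e) = 1 := by
    rw [d.a4 e he e he, hρ, up_mul]
    have : μ + μ = 2 * μ := by ring
    rw [this, d.h2, zero_mul, up_zero]
  have h1 : e * (e * y₁ * e⁻¹) * e⁻¹ = y₁ := by
    have := d.a8 _ (E.mul_mem he he) hee y₁ hy₁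
    have e3 : e * (e * y₁ * e⁻¹) * e⁻¹ = (e * e) * y₁ * (e * e)⁻¹ := by group
    rw [e3, this]
  have hc : e * (y₁ * (e * y₁ * e⁻¹)) * e⁻¹ = y₁ * (e * y₁ * e⁻¹) := by
    have e1 : e * (y₁ * (e * y₁ * e⁻¹)) * e⁻¹ = (e * y₁ * e⁻¹) * (e * (e * y₁ * e⁻¹) * e⁻¹) := by group
    rw [e1, h1]
    exact d.hWc _ hy₂ _ hy₁
  have hcW : y₁ * (e * y₁ * e⁻¹) ∈ W := W.mul_mem hy₁ hy₂
  have hψc : ψ (y₁ * (e * y₁ * e⁻¹)) = ![μ, 0] := by
    rw [d.a1 _ hy₁ _ hy₂, hψ₁, hψ₂]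
    apply ext2
    · simp
    · simp
      have : (1 : F) + 1 = 2 := by norm_num
      rw [this, d.h2]
  set c := y₁ * (e * y₁ * e⁻¹) with hcdef
  have hz : x * c ∈ Z := by
    rw [← d.a3 _ (W.mul_mem hx hcW), d.a1 _ hx _ hcW, hψ, hψc]
    exact d.add_self _
  have hx' : x = (x * c) * c := by
    rw [mul_assoc, d.hW2 c hcW, mul_one]
  rw [hx']
  have e2 : e * ((x * c) * c) * e⁻¹ = (e * (x * c) * e⁻¹) * (e * c * e⁻¹) := by group
  rw [e2, d.hZE _ hz e he, hc]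

/-- Fact A: root elements centralize the fibres over their fixed line. -/
theorem N2.factA {e x : G} (he : e ∈ E) (hx : x ∈ W) {s : F} (hρ : ρ e = up s) (hψ : ψ x 1 = 0) :
    e * x * e⁻¹ = x := by
  by_cases ha : ψ x 0 = 0
  · have hz : x ∈ Z := by
      rw [← d.a3 x hx]
      apply ext2
      · simpa using ha
      · simpa using hψ
    exact d.hZE x hz e he
  by_cases hs : s = 0
  · rw [hs, up_zero] at hρ
    exact d.a8 e he hρ x hx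
  set a := ψ x 0 with hadef
  have hl : a / s ≠ 0 := div_ne_zero ha hs
  obtain ⟨t, ht, hρt⟩ := d.a6 (tor (a / s) hl)
  have hx' : t * x * t⁻¹ ∈ W := d.hEW t ht x hx
  have he' : t * e * t⁻¹ ∈ E := E.mul_mem (E.mul_mem ht he) (E.inv_mem ht)
  have hψ' : ψ (t * x * t⁻¹) = ![a / s * a, 0] := by
    rw [d.a7 t ht x hx, hρt, sact_tor, hψ, ← hadef]
    apply ext2 <;> simp
  have hρ' : ρ (t * e * t⁻¹) = up (a / s * a) := by
    rw [d.a4 _ (E.mul_mem ht he) _ (E.inv_mem ht), d.a4 t ht e he, d.rho_inv ht, hρt, hρ, tor_conj]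
    congr 1
    field_simp
  have h1 := d.A0 he' hx' hρ' hψ'
  have h2 : (t * e * t⁻¹) * (t * x * t⁻¹) * (t * e * t⁻¹)⁻¹ = t * (e * x * e⁻¹) * t⁻¹ := by group
  rw [h2] at h1
  have h3 : t * (e * x * e⁻¹) = t * x := by
    have := mul_right_cancel h1
    exact this
  exact mul_left_cancel h3

section t
variable {t : G}

/-- (B) A `t` fixing the vector `![1,0]` carries root elements to root elements. -/
theorem N2.B (ht : ∀ e ∈ E, t * e * t⁻¹ ∈ E) (htW : ∀ w ∈ W, t * w * t⁻¹ ∈ W)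
    (htb : ∀ u ∈ W, ψ u = ![1, 0] → ψ (t * u * t⁻¹) = ![1, 0]) {e : G} (he : e ∈ E) {s : F}
    (hρ : ρ e = up s) : ∃ s', ρ (t * e * t⁻¹) = up s' := by
  obtain ⟨u, hu, hψu⟩ := d.a2 ![1, 0]
  have h1 : ψ (e * u * e⁻¹) = ![1, 0] := by
    rw [d.a7 e he u hu, hρ, hψu, sact_up]
    apply ext2 <;> simp
  have h2 := htb _ (d.hEW e he u hu) h1
  have h3 : t * (e * u * e⁻¹) * t⁻¹ = (t * e * t⁻¹) * (t * u * t⁻¹) * (t * e * t⁻¹)⁻¹ := by group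
  rw [h3, d.a7 _ (ht e he) _ (htW u hu), htb u hu hψu] at h2
  set k := ρ (t * e * t⁻¹) with hk
  have h00 : (k : Matrix (Fin 2) (Fin 2) F) 0 0 = 1 := by
    have := congrFun h2 0
    simpa [sact, mulVec, dotProduct, Fin.sum_univ_two] using this
  have h10 : (k : Matrix (Fin 2) (Fin 2) F) 1 0 = 0 := by
    have := congrFun h2 1
    simpa [sact, mulVec, dotProduct, Fin.sum_univ_two] using this
  have hdet := k.2
  rw [Matrix.det_fin_two, h00, h10] at hdet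
  have h11 : (k : Matrix (Fin 2) (Fin 2) F) 1 1 = 1 := by
    simpa using hdet
  refine ⟨(k : Matrix (Fin 2) (Fin 2) F) 0 1, ?_⟩
  apply Subtype.ext
  ext i j
  fin_cases i <;> fin_cases j <;> simp [up, h00, h10, h11]

/-- (C) The line is preserved. -/
theorem N2.C (ht : ∀ e ∈ E, t * e * t⁻¹ ∈ E) (ht' : ∀ e ∈ E, t⁻¹ * e * t ∈ E)
    (htW : ∀ w ∈ W, t * w * t⁻¹ ∈ W) (htW' : ∀ w ∈ W, t⁻¹ * w * t ∈ W)
    (htb' : ∀ u ∈ W, ψ u = ![1, 0] → ψ (t⁻¹ * u * t) = ![1, 0]) {x : G} (hx : x ∈ W)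
    (hψ : ψ x 1 = 0) : ψ (t * x * t⁻¹) 1 = 0 := by
  obtain ⟨e'', he'', hρ''⟩ := d.a6 (up 1)
  have hB := N2.B (t := t⁻¹) d (by simpa using ht') (by simpa using htW') (by simpa using htb') he'' hρ''
  obtain ⟨s₁, hs₁⟩ := hB
  have he : t⁻¹ * e'' * t⁻¹⁻¹ ∈ E := by simpa using ht' e'' he''
  have h1 := d.factA he hx hs₁ hψ
  have h2 : e'' * (t * x * t⁻¹) * e''⁻¹ = t * (t⁻¹ * e'' * t⁻¹⁻¹ * x * (t⁻¹ * e'' * t⁻¹⁻¹)⁻¹) * t⁻¹ := by group
  rw [h1] at h2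
  have h3 := d.a7 e'' he'' _ (htW x hx)
  rw [h2, hρ'', sact_up] at h3
  have h4 := congrFun h3 0
  simp at h4
  exact h4

end t

end

/-- The fixed vector, when `S` fixes the class of `![1,0]`. -/
theorem core [Finite G] {E W Z : Subgroup G} {ψ : G → F2 F} {ρ : G → SL2 F} (d : N2 E W Z ψ ρ)
    {S : Subgroup G} (hS : IsPGroup 2 S) (hSE : ∀ t ∈ S, ∀ e ∈ E, t * e * t⁻¹ ∈ E)
    (hSW : S ≤ normalizer (W : Set G)) (hWp : IsPGroup 2 W)
    (hb : ∀ t ∈ S, ∀ u ∈ W, ψ u = ![1, 0] → ψ (t * u * t⁻¹) = ![1, 0]) :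
    ∃ c ∈ W, ψ c = ![1, 0] ∧ ∀ t ∈ S, t * c * t⁻¹ = c := by
  have : Fact (Nat.Prime 2) := ⟨Nat.prime_two⟩
  have hSW' : ∀ t ∈ S, ∀ w ∈ W, t * w * t⁻¹ ∈ W := fun t ht w hw =>
    (mem_normalizer_iff.1 (hSW ht) w).1 hw
  let P : Subgroup G :=
    { carrier := {u | u ∈ W ∧ ψ u 1 = 0}
      one_mem' := ⟨W.one_mem, by rw [d.psi_one]; rfl⟩
      mul_mem' := by
        rintro a b ⟨ha, ha'⟩ ⟨hb, hb'⟩
        refine ⟨W.mul_mem ha hb, ?_⟩
        rw [d.a1 a ha b hb, Pi.add_apply, ha', hb', add_zero]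
      inv_mem' := by
        rintro a ⟨ha, ha'⟩
        rw [Set.mem_ofPred_eq, d.inv_eq ha]
        exact ⟨ha, ha'⟩ }
  have hP : ¬ W ≤ P := by
    obtain ⟨u, hu, hu'⟩ := d.a2 ![0, 1]
    intro h
    have := (h hu).2
    rw [hu'] at this
    simp at this
  obtain ⟨y, hy, hyP, hyS⟩ := exists_fixed_mod hS hWp hSW hP
  have hτ : ψ y 1 ≠ 0 := fun h => hyP ⟨hy, h⟩
  set τ := ψ y 1 with hτdef
  obtain ⟨e₀, he₀, hρ₀⟩ := d.a6 (up τ⁻¹)
  have hy₀ : e₀ * y * e₀⁻¹ ∈ W := d.hEW e₀ he₀ y hy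
  have hψy₀ : ψ (e₀ * y * e₀⁻¹) = ![ψ y 0 + 1, τ] := by
    rw [d.a7 e₀ he₀ y hy, hρ₀, sact_up, ← hτdef, inv_mul_cancel₀ hτ]
  have hcW : y * (e₀ * y * e₀⁻¹) ∈ W := W.mul_mem hy hy₀
  have hs2 : ∀ a : F, a + a = 0 := fun a => by
    have h : a + a = (2 : F) * a := by ring
    rw [h, d.h2, zero_mul]
  have hψc : ψ (y * (e₀ * y * e₀⁻¹)) = ![1, 0] := by
    rw [d.a1 _ hy _ hy₀, hψy₀]
    apply ext2
    · simp
      rw [← add_assoc, hs2, zero_add]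
    · simp
      rw [← hτdef, hs2]
  refine ⟨_, hcW, hψc, ?_⟩
  intro t ht
  have ht' : t⁻¹ ∈ S := S.inv_mem ht
  set r := ⁅y, t⁆ with hr
  have hrP : r ∈ P := hyS t ht
  have hrW : r ∈ W := hrP.1
  have hyt : t * y * t⁻¹ = y * r := by
    have h1 : t * y * t⁻¹ = r⁻¹ * y := by
      rw [hr, commutatorElement_def]
      group
    rw [h1, d.inv_eq hrW]
    exact d.hWc _ hrW _ hy
  have hyW' : t * y * t⁻¹ ∈ W := hSW' t ht y hy
  obtain ⟨s', hs'⟩ := d.B (hSE t ht) (hSW' t ht) (hb t ht) he₀ hρ₀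
  have he' : t * e₀ * t⁻¹ ∈ E := hSE t ht e₀ he₀
  have hτ' : ψ (t * y * t⁻¹) 1 = τ := by
    rw [hyt, d.a1 _ hy _ hrW, Pi.add_apply, hrP.2, add_zero]
  have hconj : t * (y * (e₀ * y * e₀⁻¹)) * t⁻¹ =
      (t * y * t⁻¹) * ((t * e₀ * t⁻¹) * (t * y * t⁻¹) * (t * e₀ * t⁻¹)⁻¹) := by group
  have h1 := hb t ht _ hcW hψc
  have h2 : s' * τ = 1 := by
    rw [hconj, d.a1 _ hyW' _ (d.hEW _ he' _ hyW'), d.a7 _ he' _ hyW', hs', sact_up, hτ'] at h1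
    have h3 := congrFun h1 0
    simp at h3
    rw [← add_assoc, hs2, zero_add] at h3
    exact h3
  have hs'' : s' = τ⁻¹ := eq_inv_of_mul_eq_one_left h2
  have hsame : ∀ w ∈ W, (t * e₀ * t⁻¹) * w * (t * e₀ * t⁻¹)⁻¹ = e₀ * w * e₀⁻¹ := by
    intro w hw
    have hk : e₀⁻¹ * (t * e₀ * t⁻¹) ∈ E := E.mul_mem (E.inv_mem he₀) he'
    have hk1 : ρ (e₀⁻¹ * (t * e₀ * t⁻¹)) = 1 := by
      rw [d.a4 _ (E.inv_mem he₀) _ he', d.rho_inv he₀, hρ₀, hs', hs'', inv_mul_cancel]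
    have h3 := d.a8 _ hk hk1 w hw
    have h4 : (t * e₀ * t⁻¹) * w * (t * e₀ * t⁻¹)⁻¹ =
        e₀ * ((e₀⁻¹ * (t * e₀ * t⁻¹)) * w * (e₀⁻¹ * (t * e₀ * t⁻¹))⁻¹) * e₀⁻¹ := by group
    rw [h4, h3]
  rw [hconj, hsame _ hyW', hyt]
  have hfa := d.factA he₀ hrW hρ₀ hrP.2
  have h5 : e₀ * (y * r) * e₀⁻¹ = (e₀ * y * e₀⁻¹) * (e₀ * r * e₀⁻¹) := by group
  rw [h5, hfa]
  calc y * r * (e₀ * y * e₀⁻¹ * r) = y * (r * (e₀ * y * e₀⁻¹)) * r := by group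
    _ = y * ((e₀ * y * e₀⁻¹) * r) * r := by rw [d.hWc _ hrW _ hy₀]
    _ = y * (e₀ * y * e₀⁻¹) * (r * r) := by group
    _ = y * (e₀ * y * e₀⁻¹) := by rw [d.hW2 r hrW, mul_one]

/-- A matrix moving a nonzero vector to `![1,0]`. -/
theorem exists_sl (b : F2 F) (hb : b ≠ 0) : ∃ g : SL2 F, sact g b = ![1, 0] := by
  by_cases h0 : b 0 = 0
  · have h1 : b 1 ≠ 0 := fun h1 => hb (ext2 (by simpa using h0) (by simpa using h1))
    refine ⟨⟨!![0, (b 1)⁻¹; - b 1, 0], by simp [Matrix.det_fin_two_of, h1]⟩, ?_⟩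
    apply ext2
    · simp [sact, mulVec, dotProduct, Fin.sum_univ_two, h1]
    · simp [sact, mulVec, dotProduct, Fin.sum_univ_two, h0]
  · refine ⟨⟨!![(b 0)⁻¹, 0; - b 1, b 0], by simp [Matrix.det_fin_two_of, h0]⟩, ?_⟩
    apply ext2
    · simp [sact, mulVec, dotProduct, Fin.sum_univ_two, h0]
    · simp [sact, mulVec, dotProduct, Fin.sum_univ_two]
      ring

/-- Change of basis. -/
theorem N2.change {E W Z : Subgroup G} {ψ : G → F2 F} {ρ : G → SL2 F} (d : N2 E W Z ψ ρ) (g : SL2 F) :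
    N2 E W Z (fun u => sact g (ψ u)) (fun e => g * ρ e * g⁻¹) where
  h2 := d.h2
  hEW := d.hEW
  hZW := d.hZW
  hZE := d.hZE
  hWc := d.hWc
  hW2 := d.hW2
  a1 := fun x hx y hy => by
    show sact g (ψ (x * y)) = sact g (ψ x) + sact g (ψ y)
    rw [d.a1 x hx y hy, sact_add]
  a2 := fun b => by
    obtain ⟨u, hu, hub⟩ := d.a2 (sact g⁻¹ b)
    refine ⟨u, hu, ?_⟩
    show sact g (ψ u) = b
    rw [hub, ← sact_mul, mul_inv_cancel, sact_one]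
  a3 := fun u hu => by
    rw [← d.a3 u hu]
    show sact g (ψ u) = 0 ↔ _
    constructor
    · intro h
      apply sact_inj g
      rw [h]
      exact (Matrix.mulVec_zero _).symm
    · intro h
      rw [h]
      exact Matrix.mulVec_zero _
  a4 := fun x hx y hy => by
    show g * ρ (x * y) * g⁻¹ = g * ρ x * g⁻¹ * (g * ρ y * g⁻¹)
    rw [d.a4 x hx y hy]
    group
  a6 := fun k => by
    obtain ⟨e, he, hek⟩ := d.a6 (g⁻¹ * k * g)
    refine ⟨e, he, ?_⟩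
    show g * ρ e * g⁻¹ = k
    rw [hek]
    group
  a7 := fun e he u hu => by
    show sact g (ψ (e * u * e⁻¹)) = sact (g * ρ e * g⁻¹) (sact g (ψ u))
    rw [d.a7 e he u hu, ← sact_mul, ← sact_mul]
    congr 1
    group
  a8 := fun e he h => by
    apply d.a8 e he
    have h' : g * ρ e * g⁻¹ = 1 := h
    have h3 : ρ e = g⁻¹ * (g * ρ e * g⁻¹) * g := by group
    rw [h3, h']
    group

/-- The fixed vector in the non-split case. -/
theorem core2 [Finite G] {E W Z : Subgroup G} {ψ : G → F2 F} {ρ : G → SL2 F} (d : N2 E W Z ψ ρ)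
    {S : Subgroup G} (hS : IsPGroup 2 S) (hSE : ∀ t ∈ S, ∀ e ∈ E, t * e * t⁻¹ ∈ E)
    (hSW : S ≤ normalizer (W : Set G)) (hSZ : ∀ t ∈ S, ∀ z ∈ Z, t * z * t⁻¹ ∈ Z) (hWp : IsPGroup 2 W) :
    ∃ c ∈ W, c ∉ Z ∧ ∀ t ∈ S, t * c * t⁻¹ = c := by
  have : Fact (Nat.Prime 2) := ⟨Nat.prime_two⟩
  have hSW' : ∀ t ∈ S, ∀ w ∈ W, t * w * t⁻¹ ∈ W := fun t ht w hw =>
    (mem_normalizer_iff.1 (hSW ht) w).1 hw
  have hP : ¬ W ≤ Z := by
    obtain ⟨u, hu, hu'⟩ := d.a2 ![1, 0]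
    intro h
    have := (d.a3 u hu).2 (h hu)
    rw [hu'] at this
    have h0 := congrFun this 0
    simp at h0
  obtain ⟨v, hv, hvZ, hvS⟩ := exists_fixed_mod hS hWp hSW hP
  have hb : ψ v ≠ 0 := fun h => hvZ ((d.a3 v hv).1 h)
  obtain ⟨g, hg⟩ := exists_sl _ hb
  have d' := d.change g
  have hbS : ∀ t ∈ S, ∀ u ∈ W, (fun u => sact g (ψ u)) u = ![1, 0] →
      (fun u => sact g (ψ u)) (t * u * t⁻¹) = ![1, 0] := by
    intro t ht u hu h
    have h1 : ψ u = ψ v := sact_inj g (h.trans hg.symm)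
    -- `u = v z`
    have hz : u * v ∈ Z := by
      rw [← d.a3 _ (W.mul_mem hu hv), d.a1 _ hu _ hv, h1]
      exact d.add_self _
    have hr : ⁅v, t⁆ ∈ Z := hvS t ht
    have hrW := d.hZW hr
    have e1 : t * v * t⁻¹ = v * ⁅v, t⁆ := by
      have h2 : t * v * t⁻¹ = ⁅v, t⁆⁻¹ * v := by
        rw [commutatorElement_def]
        group
      rw [h2, d.inv_eq hrW]
      exact d.hWc _ hrW _ hv
    have e2 : t * u * t⁻¹ = (t * (u * v) * t⁻¹) * (t * v * t⁻¹) := by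
      have : u = u * v * v := by rw [mul_assoc, d.hW2 v hv, mul_one]
      conv_lhs => rw [this]
      group
    show sact g (ψ (t * u * t⁻¹)) = _
    rw [e2, e1]
    have h3 := hSZ t ht _ hz
    rw [d.a1 _ (d.hZW h3) _ (W.mul_mem hv hrW), d.a1 _ hv _ hrW, (d.a3 _ (d.hZW h3)).2 h3,
      (d.a3 _ hrW).2 hr, zero_add, add_zero, hg]
  obtain ⟨c, hc, hψc, hcS⟩ := core d' hS hSE hSW hWp hbS
  refine ⟨c, hc, ?_, hcS⟩
  intro hcZ
  have h0 := (d.a3 c hc).2 hcZ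
  have h1 : sact g (ψ c) = ![1, 0] := hψc
  rw [h0] at h1
  have h2 : sact g (0 : F2 F) = 0 := Matrix.mulVec_zero _
  rw [h2] at h1
  have h3 := congrFun h1 0
  simp at h3

end Cfsg.Agent.Lib.BlockZ.FixCore
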