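import Mathlib
import Cfsg.Agent.Lib.BlockY.Cases
import Cfsg.Agent.Lib.BlockZ.FixCore
import Cfsg.Agent.Lib.BlockZ.Offender

/-! Piece Z2 of S2987: dispatch of the fixed vector over the block types. -/

set_option autoImplicit false

namespace Cfsg.Agent.Lib.BlockZ.FixDispatch

open Subgroup Cfsg Cfsg.Agent.Lib.BlockX Matrix Cfsg.Agent.Lib.BlockX.RawQuad
open Cfsg.Agent.Lib.PGroup.BaumannSect Cfsg.Agent.Lib.BlockY
open Cfsg.Agent.Lib.PGroup.LargeSub2 Cfsg.Agent.Lib.Basic.PCore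
open Cfsg.Agent.Lib.BlockZ.FixCore
open scoped commutatorElement

variable {G : Type*} [Group G] {F : Type*} [Field F]

/-- `V ⊓ Z = 1` from an element acting as `-1`. -/
theorem odd_inf {p : ℕ} {E W Z : Subgroup G} {ψ : G → F2 F} {ρ : G → SL2 F}
    (hEW : ∀ e ∈ E, ∀ w ∈ W, e * w * e⁻¹ ∈ W)
    (hZE : ∀ z ∈ Z, ∀ e ∈ E, e * z * e⁻¹ = z)
    (hWc : ∀ x ∈ W, ∀ y ∈ W, x * y = y * x)
    (hWp : ∀ w ∈ W, w ^ p = 1) (hcop : Nat.Coprime 2 p) (hZW : Z ≤ W)
    (a1 : ∀ x ∈ W, ∀ y ∈ W, ψ (x * y) = ψ x + ψ y)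
    (a3 : ∀ u ∈ W, ψ u = 0 ↔ u ∈ Z)
    (a4 : ∀ x ∈ E, ∀ y ∈ E, ρ (x * y) = ρ x * ρ y)
    (a7 : ∀ e ∈ E, ∀ u ∈ W, ψ (e * u * e⁻¹) = sact (ρ e) (ψ u))
    (a8 : ∀ e ∈ E, ρ e = 1 → ∀ w ∈ W, e * w * e⁻¹ = w)
    {t : G} (ht : t ∈ E) (hρt : ρ t = -1) {v : G} (hv : v ∈ ⁅W, E⁆) (hvZ : v ∈ Z) : v = 1 := by
  have hW' : ∀ w ∈ W, t * w * t⁻¹ ∈ W := hEW t ht
  have hρ1 : ρ 1 = 1 := by
    have h1 := a4 1 E.one_mem 1 E.one_mem
    simp only [mul_one] at h1
    simpa using h1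
  have hρinv : ∀ e ∈ E, ρ e⁻¹ = (ρ e)⁻¹ := fun e he => by
    have h1 := a4 e he e⁻¹ (E.inv_mem he)
    rw [mul_inv_cancel, hρ1] at h1
    exact eq_inv_of_mul_eq_one_right h1.symm
  have hNZ : ∀ w ∈ W, w * (t * w * t⁻¹) ∈ Z := by
    intro w hw
    rw [← a3 _ (W.mul_mem hw (hW' w hw)), a1 _ hw _ (hW' w hw), a7 t ht w hw, hρt,
      CasesCore.sact_neg']
    simp
  have hcomm : ∀ e ∈ E, ∀ w ∈ W, t * (e * w * e⁻¹) * t⁻¹ = e * (t * w * t⁻¹) * e⁻¹ := by
    intro e he w hw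
    have hk : t * e * t⁻¹ * e⁻¹ ∈ E :=
      E.mul_mem (E.mul_mem (E.mul_mem ht he) (E.inv_mem ht)) (E.inv_mem he)
    have hk1 : ρ (t * e * t⁻¹ * e⁻¹) = 1 := by
      rw [a4 _ (E.mul_mem (E.mul_mem ht he) (E.inv_mem ht)) _ (E.inv_mem he),
        a4 _ (E.mul_mem ht he) _ (E.inv_mem ht), a4 t ht e he, hρinv t ht, hρinv e he, hρt]
      have hc : Commute (-1 : SL2 F) (ρ e) := Commute.neg_one_left _
      rw [hc.eq, mul_assoc (ρ e), mul_inv_cancel, mul_one, mul_inv_cancel]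
    have h1 := a8 _ hk hk1 _ (hEW e he _ (hW' w hw))
    rw [← h1]
    group
  have hNc : ∀ e ∈ E, ∀ w ∈ W,
      (e * w * e⁻¹) * (t * (e * w * e⁻¹) * t⁻¹) = w * (t * w * t⁻¹) := by
    intro e he w hw
    rw [hcomm e he w hw]
    have h1 := hZE _ (hNZ w hw) e he
    rw [← h1]
    group
  have hNmul : ∀ x ∈ W, ∀ y ∈ W, (x * y) * (t * (x * y) * t⁻¹) =
      (x * (t * x * t⁻¹)) * (y * (t * y * t⁻¹)) := by
    intro x hx y hy
    have e1 : t * (x * y) * t⁻¹ = (t * x * t⁻¹) * (t * y * t⁻¹) := by group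
    rw [e1]
    calc x * y * ((t * x * t⁻¹) * (t * y * t⁻¹)) = x * (y * (t * x * t⁻¹)) * (t * y * t⁻¹) := by group
      _ = x * ((t * x * t⁻¹) * y) * (t * y * t⁻¹) := by rw [hWc _ hy _ (hW' x hx)]
      _ = _ := by group
  have hNinv : ∀ x ∈ W, x⁻¹ * (t * x⁻¹ * t⁻¹) = (x * (t * x * t⁻¹))⁻¹ := by
    intro x hx
    have e1 : t * x⁻¹ * t⁻¹ = (t * x * t⁻¹)⁻¹ := by group
    rw [e1, ← _root_.mul_inv_rev, hWc _ (hW' x hx) _ hx]
  let L : Subgroup G :=
    { carrier := {w | w ∈ W ∧ w * (t * w * t⁻¹) = 1}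
      one_mem' := ⟨W.one_mem, by simp⟩
      mul_mem' := by
        rintro a b ⟨ha, ha'⟩ ⟨hb, hb'⟩
        refine ⟨W.mul_mem ha hb, ?_⟩
        rw [hNmul a ha b hb, ha', hb', one_mul]
      inv_mem' := by
        rintro a ⟨ha, ha'⟩
        refine ⟨W.inv_mem ha, ?_⟩
        rw [hNinv a ha, ha', inv_one] }
  have hVL : ⁅W, E⁆ ≤ L := by
    rw [Subgroup.commutator_le]
    intro w hw e he
    have h1 : ⁅w, e⁆ = w * (e * w⁻¹ * e⁻¹) := by rw [commutatorElement_def]; group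
    have h2 : e * w⁻¹ * e⁻¹ ∈ W := hEW e he _ (W.inv_mem hw)
    rw [h1]
    refine ⟨W.mul_mem hw h2, ?_⟩
    rw [hNmul w hw _ h2, hNc e he _ (W.inv_mem hw), hNinv w hw, mul_inv_cancel]
  have h1 := (hVL hv).2
  have h3 : t * v * t⁻¹ = v := hZE v hvZ t ht
  rw [h3] at h1
  have h4 : v ^ 2 = 1 := by rw [pow_two]; exact h1
  have h5 := hWp v (hZW hvZ)
  have h6 := Nat.dvd_gcd (orderOf_dvd_of_pow_eq_one h4) (orderOf_dvd_of_pow_eq_one h5)
  rw [hcop] at h6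
  exact orderOf_eq_one_iff.1 (Nat.dvd_one.1 h6)

/-- `-1` is a commutator in `SL₂(F)`, `F` finite of odd order. -/
theorem neg_one_mem [Fintype F] (hodd : Fintype.card F % 2 = 1) :
    (-1 : SL2 F) ∈ commutator (SL2 F) := by
  open Polynomial in
  obtain ⟨a, b, hab⟩ := FiniteField.exists_root_sum_quadratic (R := F)
    (f := X ^ 2 + C 1) (g := X ^ 2) (degree_X_pow_add_C (by norm_num) _) (degree_X_pow _) hodd
  simp only [eval_add, eval_pow, eval_X, eval_C] at hab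
  let i : SL2 F := ⟨!![0, -1; 1, 0], by simp [Matrix.det_fin_two_of]⟩
  let y : SL2 F := ⟨!![a, b; b, -a], by
    rw [Matrix.det_fin_two_of]
    linear_combination - hab⟩
  have h : ⁅i, y⁆ = -1 := by
    rw [commutatorElement_def, mul_inv_eq_iff_eq_mul, mul_inv_eq_iff_eq_mul]
    apply Subtype.ext
    show (!![0, -1; 1, 0] : Matrix (Fin 2) (Fin 2) F) * !![a, b; b, -a] =
      (-1 : Matrix (Fin 2) (Fin 2) F) * !![a, b; b, -a] * !![0, -1; 1, 0]
    ext i j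
    fin_cases i <;> fin_cases j <;>
      simp [Matrix.mul_apply, Fin.sum_univ_two]
  rw [← h]
  exact Subgroup.commutator_mem_commutator (mem_top _) (mem_top _)

variable [Finite G] {p : ℕ} [Fact p.Prime] {E : Subgroup G}

/-- The fixed vector when `V ⊓ Z = 1`. -/
theorem of_inf (hG : centralizer (YY p G : Set G) ≤ YY p G) (T : Sylow p G)
    (hE : IsBaumannBlock p (T : Subgroup G) E) (hEs : E.IsSubnormal)
    {S : Subgroup G} (hS : IsPGroup p S) (hSN : S ≤ normalizer (E : Set G))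
    (hVZ : ∀ v ∈ VV p E, v ∈ ZZ p E → v = 1) :
    ∃ v ∈ VV p E, v ∉ centralizer (E : Set G) ∧ ∀ s ∈ S, s * v * s⁻¹ = v := by
  have hVp : IsPGroup p (VV p E) :=
    IsPGroup.to_le (isPGroup_pCoreOf E) (V_le_W.trans (omegaOneCenter_le _))
  have hSV : S ≤ normalizer (VV p E : Set G) := hSN.trans norm_V
  have hne : ¬ VV p E ≤ ⊥ := fun h => V_not_le hG T hE hEs (h.trans bot_le)
  obtain ⟨y, hy, hy1, hyS⟩ := exists_fixed_mod hS hVp hSV hne
  refine ⟨y, hy, ?_, ?_⟩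
  · intro hc
    exact hy1 (hVZ y hy ⟨V_le_W hy, hc⟩)
  · intro s hs
    have h1 : ⁅y, s⁆ = 1 := hyS s hs
    rw [commutatorElement_eq_one_iff_mul_comm] at h1
    rw [← h1]
    group

omit [Finite G] in
/-- `V ⊓ Z = 1` from the small data. -/
theorem inf_of_data {r s N : ℕ} {ψ : G → F2 (ZMod p)} {ρ : G → SL2 (ZMod p)}
    (m : CasesMat.MatFacts p r s N)
    (d : CasesCore.D p E (QQ p E) (WW p E) (ZZ p E) ψ ρ) :
    ∀ v ∈ VV p E, v ∈ ZZ p E → v = 1 := by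
  intro v hv hvZ
  obtain ⟨k₀, hk₀, hk₀s, hk₀c, hk₀f⟩ := m.t0
  obtain ⟨t, ht, rfl⟩ := d.a6 k₀ hk₀
  exact CasesCore.V_inf_Z d ht hk₀s hk₀f (fun e he => hk₀c _ (d.a5 e he)) m.hcop hv hvZ

/-- Odd characteristic. -/
theorem inf_odd {F : Type} [Field F] [Fintype F] {n : ℕ} (hc : Fintype.card F = p ^ n) (hp2 : p ≠ 2)
    (h0 : Nonempty (↥E ⧸ pCore p ↥E ≃* ↥(commutator (Matrix.SpecialLinearGroup (Fin 2) F))))
    (hact : ActsAsSL2OnSection F (commutator (Matrix.SpecialLinearGroup (Fin 2) F)) E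
      (omegaOneCenter p (pCoreOf p E)) (omegaOneCenter p (pCoreOf p E) ⊓ Subgroup.centralizer (E : Set G))) :
    ∀ v ∈ VV p E, v ∈ ZZ p E → v = 1 := by
  intro v hv hvZ
  obtain ⟨ψ, ρ, a1, a2, a3, a4, a5, a6, a7⟩ := RawOf.extract hact
  have hpr : p.Prime := Fact.out
  have hodd : Odd p := hpr.odd_of_ne_two hp2
  have hcop : Nat.Coprime 2 p := by
    rw [Nat.coprime_comm]
    exact hodd.coprime_two_right
  have hcard : Fintype.card F % 2 = 1 := by
    rw [hc]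
    exact Nat.odd_iff.1 hodd.pow
  have hker := RawOf.rho_ker (Q := QQ p E) (U := WW p E) Cases.Q_le_E (Cases.hN_of h0) a2 a4 a5 a6 a7
    (fun q hq u hu => by rw [Cases.hQW_of hq hu])
  obtain ⟨t, ht, hρt⟩ := a6 (-1) (neg_one_mem hcard)
  have hn : E ≤ normalizer (WW p E : Set G) := hact.1
  exact odd_inf (fun e he w hw => Cases.hEW_of hn he hw) (fun z hz e he => Cases.hZE_of hz he)
    (fun x hx y hy => omegaOneCenter_comm hx hy) (fun w hw => pow_of_mem_omegaOneCenter hw) hcop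
    inf_le_left a1 a3 a4 a7
    (fun e he h w hw => Cases.hQW_of ((hker e he).1 h) hw) ht hρt hv hvZ

/-- The non-split case in characteristic two. -/
theorem linear_two {F : Type} [Field F] [Fintype F] {n : ℕ} [Fact (Nat.Prime 2)]
    (hc : Fintype.card F = 2 ^ n)
    (hq : 3 < Fintype.card F) {E : Subgroup G}
    (hV : VV 2 E = WW 2 E)
    (h0 : Nonempty (↥E ⧸ pCore 2 ↥E ≃* ↥(commutator (Matrix.SpecialLinearGroup (Fin 2) F))))
    (hact : ActsAsSL2OnSection F (commutator (Matrix.SpecialLinearGroup (Fin 2) F)) E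
      (omegaOneCenter 2 (pCoreOf 2 E)) (omegaOneCenter 2 (pCoreOf 2 E) ⊓ Subgroup.centralizer (E : Set G)))
    {S : Subgroup G} (hS : IsPGroup 2 S) (hSN : S ≤ normalizer (E : Set G)) :
    ∃ v ∈ VV 2 E, v ∉ centralizer (E : Set G) ∧ ∀ s ∈ S, s * v * s⁻¹ = v := by
  obtain ⟨ψ, ρ, a1, a2, a3, a4, a5, a6, a7⟩ := RawOf.extract hact
  have hK : commutator (Matrix.SpecialLinearGroup (Fin 2) F) = ⊤ :=
    (Cases.sl2_quasi' hq).1.commutator_eq_top
  have hker := RawOf.rho_ker (Q := QQ 2 E) (U := WW 2 E) Cases.Q_le_E (Cases.hN_of h0) a2 a4 a5 a6 a7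
    (fun q hq u hu => by rw [Cases.hQW_of hq hu])
  have h2 : (2 : F) = 0 := by
    have h1 : (Fintype.card F : F) = 0 := Nat.cast_card_eq_zero F
    rw [hc] at h1
    push_cast at h1
    refine (pow_eq_zero_iff ?_).1 h1
    rintro rfl
    simp at hc
    omega
  have hn : E ≤ normalizer (WW 2 E : Set G) := hact.1
  have d : N2 E (WW 2 E) (ZZ 2 E) ψ ρ :=
    { h2 := h2
      hEW := fun e he w hw => Cases.hEW_of hn he hw
      hZW := inf_le_left
      hZE := fun z hz e he => Cases.hZE_of hz he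
      hWc := fun x hx y hy => omegaOneCenter_comm hx hy
      hW2 := fun w hw => by
        have := pow_of_mem_omegaOneCenter hw
        rwa [pow_two] at this
      a1 := a1
      a2 := a2
      a3 := a3
      a4 := a4
      a6 := fun k => a6 k (by rw [hK]; trivial)
      a7 := a7
      a8 := fun e he h w hw => Cases.hQW_of ((hker e he).1 h) hw }
  have hWp : IsPGroup 2 (WW 2 E) :=
    IsPGroup.to_le (isPGroup_pCoreOf E) (omegaOneCenter_le _)
  have hSW : S ≤ normalizer (WW 2 E : Set G) :=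
    hSN.trans ((normalizer_le_normalizer_pCoreOf E).trans (normalizer_le_omegaOneCenter _))
  have hSC : S ≤ normalizer ((centralizer (E : Set G) : Subgroup G) : Set G) :=
    hSN.trans (normalizer_le_centralizer E)
  have hSZ : ∀ t ∈ S, ∀ z ∈ ZZ 2 E, t * z * t⁻¹ ∈ ZZ 2 E := fun t ht z hz =>
    (mem_normalizer_iff.1 (mem_normalizer_inf (hSW ht) (hSC ht)) z).1 hz
  have hSE : ∀ t ∈ S, ∀ e ∈ E, t * e * t⁻¹ ∈ E := fun t ht e he =>
    (mem_normalizer_iff.1 (hSN ht) e).1 he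
  obtain ⟨c, hcW, hcZ, hcS⟩ := core2 d hS hSE hSW hSZ hWp
  refine ⟨c, hV ▸ hcW, ?_, hcS⟩
  intro hcC
  exact hcZ ⟨hcW, hcC⟩

/-- The fixed vector, given the alternating case. -/
theorem exists_fixed_of_alt (hG : centralizer (YY p G : Set G) ≤ YY p G) (T : Sylow p G)
    (hE : IsBaumannBlock p (T : Subgroup G) E) (hEs : E.IsSubnormal)
    {S : Subgroup G} (hS : IsPGroup p S) (hSN : S ≤ normalizer (E : Set G))
    (halt : p = 2 → ∀ m, 2 ≤ m → Nonempty (↥E ⧸ pCore p ↥E ≃* ↥(alternatingGroup (Fin (2 * m + 1)))) →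
      ActsAsOddPermModuleOnSection (2 * m + 1) (alternatingGroup (Fin (2 * m + 1))) E
        (omegaOneCenter p (pCoreOf p E)) (omegaOneCenter p (pCoreOf p E) ⊓ Subgroup.centralizer (E : Set G)) →
      pCoreOf p E = omegaOneCenter p (pCoreOf p E) →
      ∀ v ∈ VV p E, v ∈ ZZ p E → v = 1) :
    ∃ v ∈ VV p E, v ∉ centralizer (E : Set G) ∧ ∀ s ∈ S, s * v * s⁻¹ = v := by
  rcases hE.2.2.2.2 with ⟨F, _, _, n, hc, hiso, hact, hQW⟩ | ⟨hp2, m, hiso, hact, hQW⟩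
  · by_cases hp2 : p = 2
    · subst hp2
      have hQW' : pCoreOf 2 E = omegaOneCenter 2 (pCoreOf 2 E) := by
        rcases hQW with h | ⟨h, _⟩
        · exact h
        · omega
      by_cases hq : 3 < Fintype.card F
      · exact linear_two hc hq ((VV_eq_of_Q_eq_W hE.2.2.1 hQW').trans hQW') hiso hact hS hSN
      · have hn : n = 1 := by
          have h1 := Fintype.one_lt_card (α := F)
          rcases n with _ | _ | n
          · simp at hc; omega
          · rfl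
          · exfalso
            have h3 : 2 ^ 2 ≤ 2 ^ (n + 1 + 1) := Nat.pow_le_pow_right (by norm_num) (by omega)
            omega
        subst hn
        rw [pow_one] at hc
        obtain ⟨ψ, ρ, d⟩ := Cases.data_of_linear hc hiso hact
        exact of_inf hG T hE hEs hS hSN (inf_of_data CasesMat.matFacts2 d)
    · exact of_inf hG T hE hEs hS hSN (inf_odd hc hp2 hiso hact)
  · subst hp2
    rcases m with _ | _ | m
    · exact (not_alt_one hE hiso).elim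
    · obtain ⟨ψ, ρ, d⟩ := Cases.data_of_alt hiso hact
      exact of_inf hG T hE hEs hS hSN (inf_of_data CasesMat.matFacts2 d)
    · exact of_inf hG T hE hEs hS hSN (halt rfl _ (by omega) hiso hact hQW)

end Cfsg.Agent.Lib.BlockZ.FixDispatch
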