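import Mathlib
import Cfsg.Agent.Lib.BlockZ.FixDispatch
import Cfsg.Agent.Lib.BlockZ.AltZ

/-! Piece Z2 of S2987: a `p`-subgroup of `N(E)` fixes a vector of `V_E` outside `C(E)`. -/

set_option autoImplicit false

namespace Cfsg.Agent.Lib.BlockZ

open Subgroup Cfsg Cfsg.Agent.Lib.BlockY

variable {G : Type*} [Group G] [Finite G] {p : ℕ} [Fact p.Prime] {E : Subgroup G}

/-- **A5.** -/
theorem exists_fixed (hG : centralizer (YY p G : Set G) ≤ YY p G) (T : Sylow p G)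
    (hE : IsBaumannBlock p (T : Subgroup G) E) (hEs : E.IsSubnormal)
    {S : Subgroup G} (hS : IsPGroup p S) (hSN : S ≤ normalizer (E : Set G)) :
    ∃ v ∈ VV p E, v ∉ centralizer (E : Set G) ∧ ∀ s ∈ S, s * v * s⁻¹ = v := by
  refine FixDispatch.exists_fixed_of_alt hG T hE hEs hS hSN ?_
  rintro rfl m - hiso hact hQW v hv hvZ
  have h : v ∈ VV 2 E ⊓ ZZ 2 E := ⟨hv, hvZ⟩
  rw [alt_inf_Z m hiso hact hQW hE.2.2.1] at h
  exact h

end Cfsg.Agent.Lib.BlockZ
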